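import Cfsg.Agent.Fgs1.FPF7

/-!
# Finite groups of units in rings whose proper idempotents are prime
-/

set_option autoImplicit false
set_option linter.unusedSectionVars false
set_option linter.style.haveILetI false
set_option linter.unusedSimpArgs false

namespace CF.Gd
open Subgroup CF.Fgs1.Fpf

/-- every idempotent other than `1` is prime -/
def PI (R : Type*) [Ring R] : Prop :=
  ∀ f : R, f * f = f → f ≠ 1 → ∀ x y : R, x * f * y = 0 → x * f = 0 ∨ f * y = 0

theorem outer_zero {D : Type*} [DivisionRing D] {a b : Fin 2 → D} (h : ∀ i j, a i * b j = 0) :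
    a = 0 ∨ b = 0 := by
  by_contra hn
  push Not at hn
  obtain ⟨i, hi⟩ := Function.ne_iff.1 hn.1
  obtain ⟨j, hj⟩ := Function.ne_iff.1 hn.2
  exact mul_ne_zero hi hj (h i j)

theorem pi_matrix (D : Type*) [DivisionRing D] : PI (Matrix (Fin 2) (Fin 2) D) := by
  intro f hf h1 x y hxy
  obtain ⟨v, w, hvw⟩ : ∃ v w : Fin 2 → D, ∀ i j, f i j = v i * w j := by
    have h0 : f * (1 - f) = 0 := by rw [mul_sub, mul_one, hf, sub_self]
    have hne : (1 - f) ≠ 0 := fun h => h1 (sub_eq_zero.1 h).symm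
    obtain ⟨a, b, hab⟩ : ∃ a b, (1 - f) a b ≠ 0 := by
      by_contra hn; push Not at hn; exact hne (Matrix.ext hn)
    generalize 1 - f = g at h0 hab
    have e : ∀ i, f i 0 * g 0 b + f i 1 * g 1 b = 0 := fun i => by
      have := congrFun (congrFun h0 i) b
      simpa [Matrix.mul_apply, Fin.sum_univ_two] using this
    fin_cases a
    · refine ⟨fun i => f i 1, ![-(g 1 b * (g 0 b)⁻¹), 1], fun i j => ?_⟩
      fin_cases j
      · have h2 : g 0 b ≠ 0 := hab
        have := eq_neg_of_add_eq_zero_left (e i)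
        simp only [Fin.zero_eta, Matrix.cons_val_zero, mul_neg, ← mul_assoc]
        rw [← neg_mul, ← this, mul_assoc, mul_inv_cancel₀ h2, mul_one]
      · simp
    · refine ⟨fun i => f i 0, ![1, -(g 0 b * (g 1 b)⁻¹)], fun i j => ?_⟩
      fin_cases j
      · simp
      · have h2 : g 1 b ≠ 0 := hab
        have := eq_neg_of_add_eq_zero_right (e i)
        simp only [Fin.mk_one, Matrix.cons_val_one, Matrix.cons_val_zero, mul_neg, ← mul_assoc]
        rw [← neg_mul, ← this, mul_assoc, mul_inv_cancel₀ h2, mul_one]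
  have e1 : ∀ i j, (x * f) i j = (x i 0 * v 0 + x i 1 * v 1) * w j := fun i j => by
    simp [Matrix.mul_apply, Fin.sum_univ_two, hvw, add_mul, mul_assoc]
  have e2 : ∀ i j, (f * y) i j = v i * (w 0 * y 0 j + w 1 * y 1 j) := fun i j => by
    simp [Matrix.mul_apply, Fin.sum_univ_two, hvw, mul_add, mul_assoc]
  have e3 : ∀ i j, (x i 0 * v 0 + x i 1 * v 1) * (w 0 * y 0 j + w 1 * y 1 j) = 0 := fun i j => by
    have := congrFun (congrFun hxy i) j
    rw [Matrix.mul_apply, Fin.sum_univ_two, e1, e1] at this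
    rw [mul_add, ← mul_assoc, ← mul_assoc, this]; rfl
  rcases outer_zero (a := fun i => x i 0 * v 0 + x i 1 * v 1)
    (b := fun j => w 0 * y 0 j + w 1 * y 1 j) e3 with h | h
  · left; ext i j; rw [e1, show x i 0 * v 0 + x i 1 * v 1 = 0 from congrFun h i]; simp
  · right; ext i j; rw [e2, show w 0 * y 0 j + w 1 * y 1 j = 0 from congrFun h j]; simp

theorem PI.of_inj {A R : Type*} [Ring A] [Ring R] (h : PI R) (φ : A →+* R)
    (hφ : Function.Injective φ) : PI A := by
  intro f hf h1 x y hxy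
  have := h (φ f) (by rw [← map_mul, hf]) (fun e => h1 (hφ (by rw [e, map_one]))) (φ x) (φ y)
    (by rw [← map_mul, ← map_mul, hxy, map_zero])
  rcases this with e | e
  · exact Or.inl (hφ (by rw [map_mul, e, map_zero]))
  · exact Or.inr (hφ (by rw [map_mul, e, map_zero]))

variable {A : Type*} [Ring A] [Algebra ℚ A]

theorem PI.sq (h : PI A) {f u : A} (hf : f * f = f) (h1 : f ≠ 1) (hc : u * f = f * u)
    (hu : u * u * f = f) : u * f = f ∨ u * f = -f := by
  rcases h f hf h1 (u - 1) (u + 1) (by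
    have : (u - 1) * f * (u + 1) = u * (f * u) + u * f - f * u - f := by noncomm_ring
    rw [this, ← hc, ← mul_assoc, hu]; abel) with e | e
  · left; rwa [sub_mul, one_mul, sub_eq_zero] at e
  · right; rw [mul_add, mul_one, ← hc] at e; exact eq_neg_of_add_eq_zero_left e

theorem nsmul_eq_zero {n : ℕ} (hn : n ≠ 0) {a : A} (h : n • a = 0) : a = 0 := by
  have : (n : ℚ) • a = 0 := by rw [Nat.cast_smul_eq_nsmul, h]
  rcases smul_eq_zero.1 this with e | e
  · exact absurd (by exact_mod_cast e) hn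
  · exact e

variable {G : Type*} [Group G]

/-- the elements acting trivially on the range of `f` -/
def Kf (ρ : G →* A) (f : A) : Subgroup G where
  carrier := {g | ρ g * f = f}
  one_mem' := by simp
  mul_mem' := fun {a b} ha hb => by
    change _ = _ at ha hb ⊢
    rw [map_mul, mul_assoc, hb, ha]
  inv_mem' := fun {a} ha => by
    change _ = _ at ha ⊢
    conv_lhs => rw [← ha, ← mul_assoc, ← map_mul, inv_mul_cancel, map_one, one_mul]

omit [Algebra ℚ A] in
theorem mem_Kf {ρ : G →* A} {f : A} {g : G} : g ∈ Kf ρ f ↔ ρ g * f = f := Iff.rfl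

omit [Algebra ℚ A] in
theorem Kf_normal {ρ : G →* A} {f : A} (hc : ∀ g, ρ g * f = f * ρ g) : (Kf ρ f).Normal :=
  ⟨fun a ha g => by
    rw [mem_Kf] at ha ⊢
    rw [map_mul, map_mul, mul_assoc, hc, mul_assoc, ← mul_assoc (ρ a), ha, ← mul_assoc, hc, mul_assoc,
      ← map_mul, mul_inv_cancel, map_one, mul_one]⟩

omit [Algebra ℚ A] in
theorem eq_one_of_Kf {ρ : G →* A} (hρ : Function.Injective ρ) {f : A} {g : G} (h1 : g ∈ Kf ρ f)
    (h2 : g ∈ Kf ρ (1 - f)) : g = 1 := by
  rw [mem_Kf] at h1 h2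
  apply hρ
  rw [map_one, ← mul_one (ρ g), show (1 : A) = f + (1 - f) by abel, mul_add, h1, h2]

/-- the range of an idempotent -/
def Vf (f : A) : Submodule ℚ A where
  carrier := {x | f * x = x}
  zero_mem' := by simp
  add_mem' := fun {a b} ha hb => by
    change _ = _ at ha hb ⊢
    rw [mul_add, ha, hb]
  smul_mem' := fun c a ha => by
    change _ = _ at ha ⊢
    rw [mul_smul_comm, ha]

theorem PI.fpf [Finite G] (h : PI A) (ρ : G →* A) {f : A} (hf : f * f = f) (h0 : f ≠ 0) (h1 : f ≠ 1)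
    (hc : ∀ g, ρ g * f = f * ρ g) :
    haveI := Kf_normal hc
    FPF (G ⧸ Kf ρ f) := by
  haveI := Kf_normal hc
  have hm : ∀ g, ∀ x ∈ Vf f, LinearMap.mulLeft ℚ (ρ g) x ∈ Vf f := fun g x hx => by
    change f * (ρ g * x) = ρ g * x
    rw [← mul_assoc, ← hc, mul_assoc, show f * x = x from hx]
  let σ : G →* Module.End ℚ (Vf f) :=
    { toFun := fun g => (LinearMap.mulLeft ℚ (ρ g)).restrict (hm g)
      map_one' := by ext x; simp
      map_mul' := fun a b => by ext x; simp [mul_assoc] }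
  have hσ : ∀ g (x : Vf f), (σ g x : A) = ρ g * x := fun g x => rfl
  haveI : Nontrivial (Vf f) := ⟨⟨⟨f, hf⟩, 0, fun e => h0 (congrArg Subtype.val e)⟩⟩
  refine fpf_of_isFpf (K := ℚ) (V := Vf f) (ρ := QuotientGroup.lift (Kf ρ f) σ fun g hg => ?_) ?_
  · ext x
    have hx : f * (x : A) = x := x.2
    rw [hσ, ← hx, ← mul_assoc, mem_Kf.1 hg]; simp [hx]
  · intro g hg v hv
    obtain ⟨g, rfl⟩ := QuotientGroup.mk_surjective g
    have hv' : ρ g * (v : A) = v := congrArg Subtype.val hv
    have hx : f * (v : A) = v := v.2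
    rcases h f hf h1 (ρ g - 1) v (by rw [mul_assoc, hx, sub_mul, hv', one_mul, sub_self]) with e | e
    · exact absurd ((QuotientGroup.eq_one_iff g).2 (by
        rw [mem_Kf]; rwa [sub_mul, one_mul, sub_eq_zero] at e)) hg
    · exact Subtype.ext (hx ▸ e)

/-- the idempotent of an involution -/
noncomputable def ei (u : A) : A := (2⁻¹ : ℚ) • (1 + u)

theorem ei_idem {u : A} (hu : u * u = 1) : ei u * ei u = ei u := by
  unfold ei
  rw [smul_mul_smul_comm, show (1 + u) * (1 + u) = (2 : ℚ) • (1 + u) by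
    rw [two_smul, mul_add, add_mul, add_mul, hu]; noncomm_ring, smul_smul]
  norm_num

theorem ei_comm {u x : A} (h : x * u = u * x) : x * ei u = ei u * x := by
  unfold ei; rw [mul_smul_comm, smul_mul_assoc, mul_add, add_mul, h, mul_one, one_mul]

theorem mul_ei {u : A} (hu : u * u = 1) : u * ei u = ei u := by
  unfold ei; rw [mul_smul_comm, mul_add, hu, mul_one, add_comm]

theorem one_sub_ei (u : A) : 1 - ei u = ei (-u) := by
  unfold ei
  have : (1 : A) = (2⁻¹ : ℚ) • ((1 + u) + (1 + -u)) := by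
    rw [show (1 + u) + (1 + -u) = (2 : ℚ) • (1 : A) by rw [two_smul]; abel, smul_smul]; norm_num
  rw [smul_add] at this
  exact sub_eq_of_eq_add' this

theorem ei_ne_zero {u : A} (h : u ≠ -1) : ei u ≠ 0 := fun e => by
  rcases smul_eq_zero.1 e with e | e
  · norm_num at e
  · exact h (eq_neg_of_add_eq_zero_right e)

theorem ei_ne_one {u : A} (h : u ≠ 1) : ei u ≠ 1 := fun e => by
  have := one_sub_ei u
  rw [e, sub_self] at this
  exact ei_ne_zero (u := -u) (fun e => h (neg_injective e)) this.symm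

theorem PI.inv2 (h : PI A) {t u : A} (ht : t * t = 1) (t1 : t ≠ 1) (t2 : t ≠ -1) (hu : u * u = 1)
    (hc : u * t = t * u) : u = 1 ∨ u = -1 ∨ u = t ∨ u = -t := by
  have ht' : -t * -t = 1 := by rw [neg_mul_neg, ht]
  have a1 := h.sq (ei_idem ht) (ei_ne_one t1) (ei_comm hc) (by rw [hu, one_mul])
  have a2 := h.sq (u := u) (ei_idem ht') (ei_ne_one (u := -t) fun e => t2 (neg_eq_iff_eq_neg.1 e))
    (ei_comm (by rw [mul_neg, hc, neg_mul])) (by rw [hu, one_mul])
  have b1 := mul_ei ht
  have b2 := mul_ei ht'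
  have s : ∀ x : A, x = x * ei t + x * ei (-t) := fun x => by
    rw [← mul_add, ← one_sub_ei]; simp
  rw [neg_mul, neg_eq_iff_eq_neg] at b2
  have s1 := s 1
  have st := s t
  rw [one_mul, one_mul] at s1
  rw [b1, b2] at st
  rcases a1 with a1 | a1 <;> rcases a2 with a2 | a2 <;> rw [s u, a1, a2]
  · exact Or.inl s1.symm
  · exact Or.inr (Or.inr (Or.inl st.symm))
  · right; right; right; conv_rhs => rw [st]
    abel
  · right; left; conv_rhs => rw [s1]
    abel

end CF.Gd
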