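import Cfsg.Agent.Gd.A

/-!
# Reduction modulo two: an involution inverting a free element is not the square of a reflection
-/

set_option autoImplicit false
set_option linter.unusedSectionVars false
set_option linter.style.haveILetI false
set_option linter.unusedSimpArgs false

namespace CF.Gd
open Subgroup CF.Fgs1.Fpf MonoidAlgebra Module

theorem lin_aux {K V : Type*} [Field K] [AddCommGroup V] [Module K V] [FiniteDimensional K V]
    (n : End K V) (Y : V ≃ₗ[K] V) (hn : n * (n * n) = 0)
    (h : ∀ v, (n * n) v = 0 → (n * n) (Y v) = 0 → v = 0) : Subsingleton V := by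
  set W := LinearMap.ker (n * n) with hW
  have h1 : 2 * finrank K W ≤ finrank K V := by
    have e1 : finrank K (W.comap (Y : V →ₗ[K] V)) = finrank K W := by
      rw [Submodule.comap_equiv_eq_map_symm]; exact LinearEquiv.finrank_map_eq _ _
    have e2 : W ⊓ W.comap (Y : V →ₗ[K] V) = ⊥ :=
      eq_bot_iff.2 fun v hv => (Submodule.mem_bot K).2 (h v hv.1 hv.2)
    have e3 := Submodule.finrank_sup_add_finrank_inf_eq W (W.comap (Y : V →ₗ[K] V))
    rw [e2, finrank_bot, e1] at e3
    have := Submodule.finrank_le (W ⊔ W.comap (Y : V →ₗ[K] V))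
    omega
  have h2 := LinearMap.finrank_range_add_finrank_ker (n * n)
  have h3 : finrank K (LinearMap.range (n * n)) ≤ finrank K (LinearMap.ker n) :=
    Submodule.finrank_mono (by
      rintro _ ⟨v, rfl⟩
      exact congrArg (fun f : End K V => f v) hn)
  have h4 := LinearMap.finrank_range_add_finrank_ker (n.domRestrict W)
  have h5 : finrank K (LinearMap.range (n * n)) ≤ finrank K (LinearMap.range (n.domRestrict W)) :=
    Submodule.finrank_mono (by
      rintro _ ⟨v, rfl⟩
      exact ⟨⟨n v, congrArg (fun f : End K V => f v) hn⟩, rfl⟩)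
  have h6 : finrank K (LinearMap.ker n) ≤ finrank K (LinearMap.ker (n.domRestrict W)) := by
    rw [LinearMap.ker_domRestrict, ← Submodule.finrank_map_subtype_eq, Submodule.map_comap_subtype,
      inf_eq_right.2]
    intro v hv
    change n (n v) = 0
    rw [show n v = 0 from hv, map_zero]
  rw [← hW] at h2
  exact (finrank_zero_iff (R := K)).1 (by omega)

universe u
variable {A : Type*} [Ring A] [Algebra ℚ A] [Nontrivial A] {G : Type u} [Group G] [Finite G]

theorem exists_mod2 (ρ : G →* A) : ∃ (V : Type u) (_ : AddCommGroup V) (_ : Module (ZMod 2) V)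
    (_ : FiniteDimensional (ZMod 2) V) (_ : Nontrivial V)
    (φ : MonoidAlgebra ℤ G →+* End (ZMod 2) V), ∀ a, MonoidAlgebra.lift ℤ A G ρ a = 0 → φ a = 0 := by
  haveI : Fact (Nat.Prime 2) := ⟨Nat.prime_two⟩
  let L := (MonoidAlgebra.lift ℤ A G ρ).toRingHom
  let red : MonoidAlgebra ℤ G →+* MonoidAlgebra (ZMod 2) G := mapRingHom G (Int.castRingHom (ZMod 2))
  have hs : Function.Surjective red := mapRingHom_zmod_surjective 2
  let I : Ideal (MonoidAlgebra (ZMod 2) G) := (RingHom.ker L).map red
  have h1 : (1 : MonoidAlgebra (ZMod 2) G) ∉ I := by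
    intro h
    obtain ⟨y, hy, e⟩ := (Ideal.mem_map_iff_of_surjective red hs).1 h
    obtain ⟨w, hw⟩ := exists_eq_smul_of_map_eq_zero (p := 2) (y := 1 - y) (by
      change red _ = 0
      rw [map_sub, map_one, e, sub_self])
    have e2 : L w = algebraMap ℚ A 2⁻¹ := by
      have := congrArg L hw
      rw [map_sub, map_one, (RingHom.mem_ker).1 hy, sub_zero, map_nsmul] at this
      rw [Algebra.algebraMap_eq_smul_one, this, ← Nat.cast_smul_eq_nsmul ℚ, smul_smul]
      norm_num
    have i1 : IsIntegral ℤ (L w) :=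
      (Algebra.IsIntegral.isIntegral (R := ℤ) w).map (MonoidAlgebra.lift ℤ A G ρ)
    rw [e2, isIntegral_algebraMap_iff (algebraMap ℚ A).injective] at i1
    obtain ⟨m, hm⟩ := IsIntegrallyClosed.isIntegral_iff.1 i1
    have : (2 * m : ℚ) = 1 := by rw [show (m : ℚ) = 2⁻¹ from hm]; norm_num
    have : 2 * m = 1 := by exact_mod_cast this
    omega
  refine ⟨MonoidAlgebra (ZMod 2) G ⧸ I, inferInstance, inferInstance, ?_, ?_,
    (Algebra.lsmul (ZMod 2) (ZMod 2) (MonoidAlgebra (ZMod 2) G ⧸ I)).toRingHom.comp red, fun a ha => ?_⟩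
  · exact Module.Finite.of_surjective ((Submodule.mkQ I).restrictScalars (ZMod 2))
      (Submodule.mkQ_surjective I)
  · exact ⟨⟨Submodule.Quotient.mk 1, 0, fun e => h1 ((Submodule.Quotient.mk_eq_zero I).1 e)⟩⟩
  · refine LinearMap.ext fun v => ?_
    obtain ⟨b, rfl⟩ := Submodule.Quotient.mk_surjective I v
    obtain ⟨b, rfl⟩ := hs b
    change red a • Submodule.Quotient.mk (p := I) (red b) = 0
    rw [← Submodule.Quotient.mk_smul, Submodule.Quotient.mk_eq_zero, smul_eq_mul, ← map_mul]
    refine Ideal.mem_map_of_mem red ((RingHom.mem_ker).2 ?_)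
    rw [map_mul, show L a = 0 from ha, zero_mul]

theorem no_four (ρ : G →* A) {t k y : G} (hk : k * k = t) (hr : (ρ k - 1) * (ρ t + 1) = 0)
    (ho : Odd (orderOf y)) (hy : nrm ρ y = 0) (hi : t * y = y⁻¹ * t) : False := by
  haveI : Fact (Nat.Prime 2) := ⟨Nat.prime_two⟩
  obtain ⟨V, _, _, _, _, φ, hφ⟩ := exists_mod2 ρ
  let σ : G →* End (ZMod 2) V := φ.toMonoidHom.comp (of ℤ G)
  have hσ : ∀ g, φ (of ℤ G g) = σ g := fun g => rfl
  have two : ∀ a : End (ZMod 2) V, a + a = 0 := fun a => by
    rw [← two_smul (ZMod 2) a, show (2 : ZMod 2) = 0 from rfl, zero_smul]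
  have e1 : (σ k - 1) * (σ k - 1) = σ t + 1 := by
    have : (σ k - 1) * (σ k - 1) = σ k * σ k + 1 - (σ k + σ k) := by noncomm_ring
    rw [this, two, sub_zero, ← map_mul, hk]
  have e2 : (σ k - 1) * (σ t + 1) = 0 := by
    have := hφ ((of ℤ G k - 1) * (of ℤ G t + 1)) (by
      rw [map_mul, map_sub, map_add, map_one, lift_of, lift_of, hr])
    rwa [map_mul, map_sub, map_add, map_one, hσ, hσ] at this
  have e3 : nrm σ y = 0 := by
    have := hφ (nrm (of ℤ G) y) (by
      rw [← hy]
      refine (map_nrm (MonoidAlgebra.lift ℤ A G ρ).toRingHom _ y).trans ?_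
      congr 1; ext; simp)
    rwa [map_nrm] at this
  have fx : ∀ v, (σ t + 1) v = 0 → σ t v = v := fun v hv => by
    have := congrArg (fun f : End (ZMod 2) V => f v) (two 1)
    simp only [LinearMap.add_apply, End.one_apply, LinearMap.zero_apply] at hv this
    rw [eq_neg_of_add_eq_zero_left hv, eq_comm, eq_neg_iff_add_eq_zero, this]
  let Y : V ≃ₗ[ZMod 2] V := LinearEquiv.ofLinearMap (σ y) (σ y⁻¹)
    (by rw [← End.mul_eq_comp, ← map_mul, mul_inv_cancel, map_one]; rfl)
    (by rw [← End.mul_eq_comp, ← map_mul, inv_mul_cancel, map_one]; rfl)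
  have := lin_aux (σ k - 1) Y (by rw [e1, e2]) fun v h1 h2 => by
    rw [e1] at h1 h2
    have a1 := fx _ h1
    have a2 : σ t (σ y v) = σ y v := fx _ h2
    rw [← End.mul_apply, ← map_mul, hi, map_mul, End.mul_apply, a1] at a2
    have a3 : σ (y ^ 2) v = v := by
      rw [sq, map_mul, End.mul_apply, ← a2, ← End.mul_apply, ← map_mul, mul_inv_cancel, map_one]; rfl
    have a4 : ∀ m : ℕ, σ ((y ^ 2) ^ m) v = v := fun m => by
      induction m with
      | zero => simp
      | succ m ih => rw [pow_succ, map_mul, End.mul_apply, a3, ih]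
    obtain ⟨m, hm⟩ := ho
    have a5 : σ y v = v := by
      have := a4 (m + 1)
      rwa [← pow_mul, show 2 * (m + 1) = orderOf y + 1 by omega, pow_succ, pow_orderOf_eq_one,
        one_mul] at this
    have a6 : ∀ j : ℕ, (σ y ^ j) v = v := fun j => by
      induction j with
      | zero => simp
      | succ j ih => rw [pow_succ, End.mul_apply, a5, ih]
    have a7 : nrm σ y v = orderOf y • v := by
      simp [nrm, LinearMap.sum_apply, a6]
    rw [e3, hm, add_smul, one_smul, mul_smul, two_smul] at a7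
    have := congrArg (fun f : End (ZMod 2) V => f (m • v)) (two 1)
    simp only [LinearMap.add_apply, End.one_apply, LinearMap.zero_apply] at this a7
    rw [this, zero_add] at a7
    exact a7.symm
  exact not_subsingleton V this

end CF.Gd
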