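import Cfsg.Agent.Gd.B
import Cfsg.Agent.Char.Galois

/-!
# The regular trace
-/

set_option autoImplicit false
set_option linter.unusedSectionVars false
set_option linter.style.haveILetI false
set_option linter.unusedSimpArgs false

namespace CF.Gd
open Subgroup CF.Fgs1.Fpf Module
open scoped TensorProduct

section Grp
variable {G : Type*} [Group G] [Finite G]

theorem rat_pow {V : Type*} [AddCommGroup V] [Module ℚ V] [FiniteDimensional ℚ V]
    (σ : Representation ℚ G V) (g : G) {m : ℕ} (hm : m.Coprime (orderOf g)) :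
    σ.character (g ^ m) = σ.character g := by
  let σ' : Representation ℂ G (ℂ ⊗[ℚ] V) := (End.baseChangeHom ℚ ℂ V).toMonoidHom.comp σ
  have e : ∀ x, σ'.character x = (σ.character x : ℚ) := fun x =>
    LinearMap.trace_baseChange (σ x) ℂ
  have h := CF.Char.gen_pow_eq_of_rat (χ := σ'.character)
    ⟨_, 0, CF.Char.isCharacter_character σ', CF.Char.isCharacter_zero, by simp⟩ (e g) hm
  rw [e, e] at h
  exact_mod_cast h

theorem rat_inv {V : Type*} [AddCommGroup V] [Module ℚ V] [FiniteDimensional ℚ V]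
    (σ : Representation ℚ G V) (g : G) : σ.character g⁻¹ = σ.character g := by
  have h := orderOf_pos g
  rw [← rat_pow σ g (m := orderOf g - 1) (by
    rw [Nat.coprime_self_sub_left h]; exact Nat.coprime_one_left _)]
  congr 1
  rw [inv_eq_iff_mul_eq_one, ← pow_succ', Nat.sub_add_cancel h, pow_orderOf_eq_one]

theorem sum_fpf {χ : G → ℚ} (hχ : ∀ g h, χ (h * g * h⁻¹) = χ g) {U : Subgroup G} [Fintype U] {y : G}
    (hy : y ∈ normalizer (U : Set G)) (hf : ∀ u ∈ U, u * y = y * u → u = 1) :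
    ∑ u : U, χ (u * y) = Nat.card U * χ y := by
  let c : U → U := fun u => ⟨u * (y * (u : G)⁻¹ * y⁻¹), mul_mem u.2
    (CF.Transfer.conj_mem_of_mem_normalizer hy (inv_mem u.2))⟩
  have hc : Function.Bijective c := Finite.injective_iff_bijective.1 fun a b e => by
    have e' : (a : G) * (y * (a : G)⁻¹ * y⁻¹) = b * (y * (b : G)⁻¹ * y⁻¹) := congrArg Subtype.val e
    have := hf ((b : G)⁻¹ * a) (mul_mem (inv_mem b.2) a.2) (by
      calc (b : G)⁻¹ * a * y = (b : G)⁻¹ * (a * (y * (a : G)⁻¹ * y⁻¹)) * (y * a) := by group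
        _ = _ := by rw [e']; group)
    exact Subtype.ext (inv_mul_eq_one.1 this).symm
  rw [← hc.sum_comp (fun u : U => χ (u * y))]
  have : ∀ u : U, χ (c u * y) = χ y := fun u => by
    rw [← hχ y u]; congr 1; simp only [c]; group
  simp [this]

theorem sum_zpowers {M : Type*} [AddCommMonoid M] (F : G → M) (x : G) [Fintype (zpowers x)] :
    ∑ u : zpowers x, F u = ∑ i ∈ Finset.range (orderOf x), F (x ^ i) := by
  symm
  refine Finset.sum_bij (fun i _ => ⟨x ^ i, pow_mem (mem_zpowers x) i⟩) (fun _ _ => Finset.mem_univ _)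
    (fun a ha b hb e => pow_injOn_Iio_orderOf (Finset.mem_range.1 ha) (Finset.mem_range.1 hb)
      (congrArg Subtype.val e)) (fun b _ => ?_) fun _ _ => rfl
  classical
  obtain ⟨i, hi, e⟩ := Finset.mem_image.1 (mem_zpowers_iff_mem_range_orderOf.1 b.2)
  exact ⟨i, hi, Subtype.ext e⟩

theorem mem_zpowers_of_prime {x y : G} (hp : (orderOf x).Prime) (hy : y ∈ zpowers x) (h1 : y ≠ 1) :
    x ∈ zpowers y := by
  haveI := Fact.mk hp
  obtain ⟨j, hj⟩ := mem_zpowers_of_prime_card (G := zpowers x) (Nat.card_zpowers x) (g := ⟨y, hy⟩)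
    (g' := ⟨x, mem_zpowers x⟩) fun e => h1 (congrArg Subtype.val e)
  exact ⟨j, congrArg Subtype.val hj⟩

end Grp

variable {A : Type*} [Ring A] [Algebra ℚ A] {G : Type*} [Group G]

/-- no proper invariant idempotents -/
def Irr (ρ : G →* A) : Prop := ∀ f : A, f * f = f → (∀ g, ρ g * f = f * ρ g) → f = 0 ∨ f = 1

theorem Irr.exists_ne [Finite G] {ρ : G →* A} (h : Irr ρ) {e : A} (he : e * e = e) (h0 : e ≠ 0)
    (h1 : e ≠ 1) : ∃ g, (1 - e) * ρ g * e ≠ 0 := by
  by_contra hn
  push Not at hn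
  haveI := Fintype.ofFinite G
  have k : ∀ g, e * (ρ g * e) = ρ g * e := fun g => by
    have := hn g
    rw [sub_mul, sub_mul, one_mul, sub_eq_zero, mul_assoc] at this
    exact this.symm
  set f : A := (Fintype.card G : ℚ)⁻¹ • ∑ g, ρ g * e * ρ g⁻¹ with hf
  have a1 : e * f = f := by
    rw [hf, mul_smul_comm, Finset.mul_sum]
    congr 1
    exact Finset.sum_congr rfl fun g _ => by rw [← mul_assoc, k]
  have a2 : f * e = e := by
    rw [hf, smul_mul_assoc, Finset.sum_mul, Finset.sum_congr rfl (g := fun _ => e) fun g _ => by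
      rw [mul_assoc, mul_assoc, k, ← mul_assoc, ← map_mul, mul_inv_cancel, map_one, one_mul],
      Finset.sum_const, Finset.card_univ, ← Nat.cast_smul_eq_nsmul ℚ, smul_smul,
      inv_mul_cancel₀ (by exact_mod_cast Fintype.card_ne_zero), one_smul]
  rcases h f (by nth_rewrite 2 [← a1]; rw [← mul_assoc, a2, a1]) (fun g => by
    rw [hf, mul_smul_comm, smul_mul_assoc, Finset.mul_sum, Finset.sum_mul]
    congr 1
    refine Fintype.sum_equiv (Equiv.mulLeft g) _ _ fun a => ?_
    simp only [Equiv.coe_mulLeft, mul_inv_rev, map_mul, mul_assoc]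
    rw [← map_mul ρ g⁻¹ g, inv_mul_cancel, map_one, mul_one]) with e0 | e0
  · rw [e0, zero_mul] at a2; exact h0 a2.symm
  · rw [e0, mul_one] at a1; exact h1 a1

/-- the idempotent of a subgroup -/
noncomputable def eU (ρ : G →* A) (U : Subgroup G) [Fintype U] : A :=
  (Nat.card U : ℚ)⁻¹ • ∑ u : U, ρ u

section eU
variable (ρ : G →* A) {U : Subgroup G} [Fintype U]

theorem mul_eU {g : G} (hg : g ∈ U) : ρ g * eU ρ U = eU ρ U := by
  unfold eU
  rw [mul_smul_comm, Finset.mul_sum]
  congr 1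
  exact Fintype.sum_equiv (Equiv.mulLeft (⟨g, hg⟩ : U)) _ _ fun a => by simp

theorem eU_mul_of_fix {y : A} (h : ∀ g ∈ U, ρ g * y = y) : eU ρ U * y = y := by
  unfold eU
  rw [smul_mul_assoc, Finset.sum_mul, Finset.sum_congr rfl (g := fun _ => y) fun (g : U) _ => h g g.2,
    Finset.sum_const, Finset.card_univ, ← Nat.cast_smul_eq_nsmul ℚ, smul_smul, ← Nat.card_eq_fintype_card,
    inv_mul_cancel₀ (by exact_mod_cast Nat.card_pos.ne'), one_smul]

theorem eU_idem : eU ρ U * eU ρ U = eU ρ U := eU_mul_of_fix ρ fun _ hg => mul_eU ρ hg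

theorem eU_comm {g : G} (hg : g ∈ normalizer (U : Set G)) : ρ g * eU ρ U = eU ρ U * ρ g := by
  unfold eU
  rw [mul_smul_comm, smul_mul_assoc, Finset.mul_sum, Finset.sum_mul]
  congr 1
  refine Fintype.sum_equiv (U.normalizerMonoidHom ⟨g, hg⟩).toEquiv _ _ fun a => ?_
  rw [← map_mul, ← map_mul]
  congr 1
  change _ = g * a * g⁻¹ * g
  group

theorem eU_ne_one (hρ : Function.Injective ρ) (hU : U ≠ ⊥) : eU ρ U ≠ 1 := fun e =>
  hU (eq_bot_iff.2 fun g hg => mem_bot.2 (hρ (by
    have := mul_eU ρ hg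
    rwa [e, mul_one, ← map_one ρ] at this)))

end eU

variable [FiniteDimensional ℚ A]

/-- the trace of the left regular representation -/
noncomputable def τ : A →ₗ[ℚ] ℚ := LinearMap.trace ℚ A ∘ₗ LinearMap.mul ℚ A

theorem τ_one : τ (1 : A) = finrank ℚ A := by
  have : LinearMap.mul ℚ A 1 = 1 := by ext; simp
  simp [τ, this]

theorem τ_comm (a b : A) : τ (a * b) = τ (b * a) := by
  have : ∀ a b : A, LinearMap.mul ℚ A (a * b) = LinearMap.mul ℚ A a * LinearMap.mul ℚ A b :=
    fun a b => by ext; simp [mul_assoc]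
  simp only [τ, LinearMap.comp_apply, this]
  exact LinearMap.trace_mul_comm _ _ _

theorem τ_idem {e : A} (he : e * e = e) : τ e = finrank ℚ (Vf e) :=
  LinearMap.IsProj.trace (p := Vf e) (f := LinearMap.mul ℚ A e)
    ⟨fun x => by change e * (e * x) = e * x; rw [← mul_assoc, he], fun x hx => hx⟩

theorem PI.le (h : PI A) {e f a : A} (he : e * e = e) (h1 : e ≠ 1) (hf : f * f = f)
    (ha : f * a * e ≠ 0) : finrank ℚ (Vf e) ≤ finrank ℚ (Vf f) := by
  refine LinearMap.finrank_le_finrank_of_injective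
    (f := (LinearMap.mulLeft ℚ (f * a)).restrict (p := Vf e) (q := Vf f) fun x _ => ?_) ?_
  · change f * (f * a * x) = f * a * x
    rw [← mul_assoc, ← mul_assoc, hf]
  · rw [injective_iff_map_eq_zero]
    intro x hx
    have hx' : f * a * (x : A) = 0 := congrArg Subtype.val hx
    have h2 : e * (x : A) = x := x.2
    rcases h e he h1 (f * a) x (by rw [mul_assoc, h2, hx']) with e0 | e0
    · exact absurd e0 ha
    · exact Subtype.ext (h2 ▸ e0)

variable [Finite G] {ρ : G →* A}

theorem τ_half (h : PI A) (hi : Irr ρ) {e : A} (he : e * e = e) (h0 : e ≠ 0) (h1 : e ≠ 1) :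
    2 * τ e = finrank ℚ A := by
  have he' : (1 - e) * (1 - e) = 1 - e := by rw [sub_mul, one_mul, mul_sub, mul_one, he]; abel
  have h0' : 1 - e ≠ 0 := fun e0 => h1 (sub_eq_zero.1 e0).symm
  have h1' : 1 - e ≠ 1 := fun e0 => h0 (sub_eq_self.1 e0)
  obtain ⟨a, ha⟩ := hi.exists_ne he h0 h1
  obtain ⟨b, hb⟩ := hi.exists_ne he' h0' h1'
  rw [sub_sub_cancel] at hb
  have := le_antisymm (h.le he h1 he' ha) (h.le he' h1' he hb)
  rw [← τ_one, show (1 : A) = e + (1 - e) by abel, map_add, τ_idem he', ← this, ← τ_idem he, two_mul]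

theorem τ_cases (h : PI A) (hi : Irr ρ) {e : A} (he : e * e = e) (h1 : e ≠ 1) :
    τ e = 0 ∨ 2 * τ e = finrank ℚ A := by
  by_cases h0 : e = 0
  · left; rw [h0, map_zero]
  · exact Or.inr (τ_half h hi he h0 h1)

/-- the left regular representation -/
noncomputable def lrep (ρ : G →* A) : Representation ℚ G A := (Algebra.lmul ℚ A).toMonoidHom.comp ρ

theorem lrep_char (g : G) : (lrep ρ).character g = τ (ρ g) := rfl

theorem frob [Nontrivial A] (hρ : Function.Injective ρ) (h : PI A) (hi : Irr ρ) {U : Subgroup G}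
    (hU : U ≠ ⊥) {x : G} (hx : x ∈ normalizer (U : Set G)) (hp : (orderOf x).Prime)
    (h2 : orderOf x ≠ 2) (hf : ∀ u ∈ U, u * x = x * u → u = 1) : False := by
  haveI := Fintype.ofFinite U
  haveI := Fintype.ofFinite (zpowers x)
  have x1 : zpowers x ≠ ⊥ := by
    rw [Ne, zpowers_eq_bot]; rintro rfl; rw [orderOf_one] at hp; exact Nat.not_prime_one hp
  have c : eU ρ (zpowers x) * eU ρ U = eU ρ U * eU ρ (zpowers x) := by
    have e0 : eU ρ (zpowers x) = (Nat.card (zpowers x) : ℚ)⁻¹ • ∑ u : zpowers x, ρ u := rfl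
    rw [e0, smul_mul_assoc, mul_smul_comm, Finset.sum_mul, Finset.mul_sum]
    congr 1
    exact Finset.sum_congr rfl fun g _ => eU_comm ρ (zpowers_le.2 hx g.2)
  have a := τ_cases h hi (eU_idem ρ) (eU_ne_one ρ hρ hU)
  have b := τ_cases h hi (eU_idem ρ) (eU_ne_one ρ hρ x1)
  have d := τ_cases h hi (e := eU ρ U * eU ρ (zpowers x))
    (by rw [mul_assoc, ← mul_assoc (eU ρ (zpowers x)), c, mul_assoc, eU_idem, ← mul_assoc, eU_idem])
    fun e => eU_ne_one ρ hρ hU (by
      have : eU ρ U * _ = eU ρ U * _ := congrArg (eU ρ U * ·) e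
      rw [← mul_assoc, eU_idem, e, mul_one] at this; exact this.symm)
  have cU : (Nat.card U : ℚ) ≠ 0 := by exact_mod_cast Nat.card_pos.ne'
  have cx : (orderOf x : ℚ) ≠ 0 := by exact_mod_cast hp.ne_zero
  have k : ∀ y : zpowers x, y ≠ 1 → τ (eU ρ U * ρ y) = τ (ρ y) := fun y hy => by
    have := sum_fpf (χ := (lrep ρ).character) (fun g h => (lrep ρ).char_conj g h)
      (zpowers_le.2 hx y.2) fun u hu e => hf u hu (by
        have : x ∈ zpowers (y : G) :=
          mem_zpowers_of_prime hp y.2 fun e => hy (Subtype.ext e)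
        obtain ⟨j, hj⟩ := this
        rw [← hj]; exact (Commute.zpow_right e j).eq)
    simp only [lrep_char, map_mul] at this
    rw [eU, smul_mul_assoc, Finset.sum_mul, map_smul, map_sum, this, smul_eq_mul, ← mul_assoc,
      inv_mul_cancel₀ cU, one_mul]
  have k2 : orderOf x * τ (eU ρ U * eU ρ (zpowers x)) + finrank ℚ A =
      τ (eU ρ U) + orderOf x * τ (eU ρ (zpowers x)) := by
    classical
    generalize eU ρ U = E at k
    rw [eU, mul_smul_comm, map_smul, map_smul, Nat.card_zpowers, smul_eq_mul, smul_eq_mul, ← mul_assoc,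
      ← mul_assoc, mul_inv_cancel₀ cx, one_mul, one_mul, Finset.mul_sum, map_sum, map_sum,
      ← Finset.add_sum_erase _ _ (Finset.mem_univ 1), ← Finset.add_sum_erase _ _ (Finset.mem_univ 1),
      Finset.sum_congr rfl fun y hy => k y (Finset.ne_of_mem_erase hy)]
    simp only [OneMemClass.coe_one, map_one, mul_one, τ_one]
    ring
  have n0 : (0 : ℚ) < finrank ℚ A := by exact_mod_cast finrank_pos
  have r3 : (3 : ℚ) ≤ orderOf x := by have := hp.two_le; exact_mod_cast (by omega : 3 ≤ orderOf x)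
  rcases a with a | a <;> rcases b with b | b <;> rcases d with d | d <;> nlinarith

theorem norm_le [Fintype G] (hs : Submodule.span ℚ (Set.range ρ) = ⊤) :
    ∑ g, τ (ρ g) ^ 2 ≤ Nat.card G * finrank ℚ A := by
  have cG : (Nat.card G : ℚ) ≠ 0 := by exact_mod_cast Nat.card_pos.ne'
  haveI := invertibleOfNonzero cG
  have h := (lrep ρ).card_inv_mul_sum_char_mul_char_eq_finrank (lrep ρ)
  simp only [rat_inv, lrep_char, ← sq] at h
  rw [inv_mul_eq_iff_eq_mul₀ cG] at h
  rw [h]
  refine mul_le_mul_of_nonneg_left ?_ (by positivity)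
  let ev : Representation.IntertwiningMap (lrep ρ) (lrep ρ) →ₗ[ℚ] A :=
    { toFun := fun φ => φ 1, map_add' := fun _ _ => rfl, map_smul' := fun _ _ => rfl }
  have := LinearMap.finrank_le_finrank_of_injective (f := ev) (by
    rw [injective_iff_map_eq_zero]
    intro φ h1
    refine Representation.IntertwiningMap.ext (LinearMap.ext_on_range hs fun g => ?_)
    have := φ.isIntertwining _ _ g 1
    rw [show φ 1 = 0 from h1, map_zero] at this
    simpa [lrep] using this)
  exact_mod_cast this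

end CF.Gd
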