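import Cfsg.Agent.Gd.C

/-!
# Bounds for the dimension of the enveloping algebra
-/

set_option autoImplicit false
set_option linter.unusedSectionVars false
set_option linter.style.haveILetI false
set_option linter.unusedSimpArgs false

namespace CF.Gd
open Subgroup CF.Fgs1.Fpf Module

variable {A : Type*} [Ring A] [Algebra ℚ A] {G : Type*} [Group G] [FiniteDimensional ℚ A] [Finite G]
  {ρ : G →* A}

theorem borel {u z : G} {p : ℕ} (hp : p.Prime) (hu : orderOf u = p) [hn : (zpowers u).Normal]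
    (h1 : ρ u ≠ 1) (hz : ρ z = -1) (hC : ∀ b, b * u = u * b → b ∈ zpowers u ∨ z * b ∈ zpowers u) :
    (p - 1 : ℚ) * Nat.card G ≤ 2 * p * finrank ℚ A := by
  classical
  haveI := Fintype.ofFinite G
  haveI := Fintype.ofFinite (zpowers u)
  set U := zpowers u with hU
  have nU : ∀ g : G, g ∈ normalizer (U : Set G) := fun g => le_normalizer_of_normal (mem_top g)
  set f : A := 1 - eU ρ U with hf
  have f0 : f ≠ 0 := fun e => h1 (by
    have := mul_eU ρ (U := U) (mem_zpowers u)
    rwa [← sub_eq_zero.1 e, mul_one] at this)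
  have fc : ∀ g, ρ g * f = f * ρ g := fun g => by
    rw [hf, mul_sub, sub_mul, eU_comm ρ (nU g), mul_one, one_mul]
  have ef : eU ρ U * f = 0 := by rw [hf, mul_sub, eU_idem, mul_one, sub_self]
  have ff : f * f = f := by nth_rewrite 1 [hf]; rw [sub_mul, ef, one_mul, sub_zero]
  let M : Submodule ℚ A := Submodule.span ℚ (Set.range fun g => ρ g * f)
  have fM : f ∈ M := Submodule.subset_span ⟨1, by simp⟩
  have m1 : ∀ g, ∀ x ∈ M, LinearMap.mulLeft ℚ (ρ g) x ∈ M := fun g x hx =>
    (Submodule.span_le (p := M.comap (LinearMap.mulLeft ℚ (ρ g)))).2 (by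
      rintro _ ⟨a, rfl⟩
      exact Submodule.subset_span ⟨g * a, by simp [mul_assoc]⟩) hx
  have m2 : ∀ x ∈ M, f * x = x := fun x hx => (Submodule.span_le (p := Vf f)).2 (by
    rintro _ ⟨a, rfl⟩
    change f * (ρ a * f) = ρ a * f
    rw [fc, ← mul_assoc, ff]) hx
  have m3 : ∀ y ∈ M, ∀ x ∈ M, LinearMap.mulRight ℚ y x ∈ M := fun y hy x hx =>
    (Submodule.span_le (p := M.comap (LinearMap.mulRight ℚ y))).2 (by
      rintro _ ⟨a, rfl⟩
      change ρ a * f * y ∈ M
      rw [mul_assoc, m2 y hy]; exact m1 a y hy) hx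
  let σ : Representation ℚ G M :=
    { toFun := fun g => (LinearMap.mulLeft ℚ (ρ g)).restrict (m1 g)
      map_one' := by ext x; simp
      map_mul' := fun a b => by ext x; simp [mul_assoc] }
  have hσ : ∀ g (x : M), (σ g x : A) = ρ g * x := fun g x => rfl
  have cG : (Nat.card G : ℚ) ≠ 0 := by exact_mod_cast Nat.card_pos.ne'
  haveI := invertibleOfNonzero cG
  have h := σ.card_inv_mul_sum_char_mul_char_eq_finrank σ
  simp only [rat_inv, ← sq] at h
  rw [inv_mul_eq_iff_eq_mul₀ cG] at h
  let rm : M →ₗ[ℚ] Representation.IntertwiningMap σ σ :=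
    { toFun := fun y => ((LinearMap.mulRight ℚ (y : A)).restrict (m3 y y.2)).intertwiningMap_of_isIntertwiningMap
        σ σ fun g v => Subtype.ext (mul_assoc _ _ _)
      map_add' := fun a b => Representation.IntertwiningMap.ext
        (LinearMap.ext fun v => Subtype.ext (mul_add _ _ _))
      map_smul' := fun c a => Representation.IntertwiningMap.ext
        (LinearMap.ext fun v => Subtype.ext (mul_smul_comm _ _ _)) }
  have l1 : (finrank ℚ M : ℚ) ≤ finrank ℚ (Representation.IntertwiningMap σ σ) := by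
    haveI : Module.Finite ℚ (Representation.IntertwiningMap σ σ) :=
      Module.Finite.equiv (Representation.invariantsEquivIntertwiningMap σ σ)
    exact_mod_cast LinearMap.finrank_le_finrank_of_injective (f := rm) (by
      rw [injective_iff_map_eq_zero]
      intro y hy
      have : f * (y : A) = 0 :=
        congrArg (fun φ : Representation.IntertwiningMap σ σ => (φ ⟨f, fM⟩ : A)) hy
      exact Subtype.ext (by rwa [m2 _ y.2] at this))
  have cU : (Nat.card U : ℚ) = p := by rw [hU, Nat.card_zpowers, hu]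
  have p0 : (p : ℚ) ≠ 0 := by exact_mod_cast hp.ne_zero
  have s0 : ∀ b, ∑ v : U, σ.character (v * b) = 0 := fun b => by
    simp only [Representation.character]
    rw [← map_sum]
    convert map_zero (LinearMap.trace ℚ M)
    ext x
    have e1 : (∑ v : U, ρ v) = (p : ℚ) • eU ρ U := by
      rw [eU, cU, smul_smul, mul_inv_cancel₀ p0, one_smul]
    simp only [LinearMap.sum_apply, Submodule.coe_sum, hσ, map_mul ρ, LinearMap.zero_apply,
      ZeroMemClass.coe_zero]
    rw [← Finset.sum_mul, ← Finset.sum_mul, e1, ← m2 _ x.2, mul_assoc, ← mul_assoc (ρ b), fc,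
      smul_mul_assoc, ← mul_assoc, ← mul_assoc, ef]
    simp
  have s1 : ∀ b, b ∉ U → z * b ∉ U → σ.character b = 0 := fun b h1 h2 => by
    have := sum_fpf (χ := σ.character) (fun g h => σ.char_conj g h) (nU b) fun v hv e => by
      by_contra v1
      obtain ⟨j, hj⟩ := mem_zpowers_of_prime (hu ▸ hp) hv v1
      have : b * u = u * b := by rw [← hj]; exact (Commute.zpow_left e j).eq.symm
      exact (hC b this).elim h1 h2
    rw [s0, cU] at this
    exact (mul_eq_zero.1 this.symm).resolve_left p0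
  have s2 : ∀ b, σ.character (z * b) = -σ.character b := fun b => by
    simp only [Representation.character]
    rw [← map_neg]; congr 1; ext x
    simp [hσ, hz]
  have s3 : ∀ i ∈ Finset.range (p - 1), σ.character (u ^ (i + 1)) = σ.character u := fun i hi =>
    rat_pow σ u (by
      rw [hu]
      exact (Nat.coprime_of_lt_prime (by omega) (by have := Finset.mem_range.1 hi; omega) hp).symm)
  obtain ⟨q, rfl⟩ : ∃ q, p = q + 1 := ⟨p - 1, by have := hp.pos; omega⟩
  simp only [Nat.add_sub_cancel] at s3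
  have s4 : q * σ.character u + finrank ℚ M = 0 := by
    have := s0 1
    simp only [mul_one] at this
    rw [sum_zpowers (fun g => σ.character g), hu, Finset.sum_range_succ', Finset.sum_congr rfl s3] at this
    simpa using this
  have s5 : ∑ v : U, σ.character v ^ 2 = q * σ.character u ^ 2 + finrank ℚ M ^ 2 := by
    rw [sum_zpowers (fun g => σ.character g ^ 2), hu, Finset.sum_range_succ',
      Finset.sum_congr rfl fun i hi => by rw [s3 i hi]]
    simp
  have s6 : ∑ g, σ.character g ^ 2 ≤ 2 * ∑ v : U, σ.character v ^ 2 := by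
    have e1 : ∑ v : U, σ.character v ^ 2 = ∑ g, if g ∈ U then σ.character g ^ 2 else 0 := by
      rw [← Finset.sum_filter]
      exact (Finset.sum_subtype _ (by simp) fun g => σ.character g ^ 2).symm
    have e2 : ∑ v : U, σ.character v ^ 2 = ∑ g, if z * g ∈ U then σ.character g ^ 2 else 0 := by
      rw [e1]
      refine (Fintype.sum_equiv (Equiv.mulLeft z) _ _ fun g => ?_).symm
      simp [s2]
    rw [two_mul]
    nth_rewrite 2 [e2]
    rw [e1, ← Finset.sum_add_distrib]
    refine Finset.sum_le_sum fun g _ => ?_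
    have := sq_nonneg (σ.character g)
    split_ifs with a b b
    · linarith
    · linarith
    · linarith
    · rw [s1 g a b]; simp
  have n0 : (0 : ℚ) < finrank ℚ M := by
    haveI : Nontrivial M := ⟨⟨⟨f, fM⟩, 0, fun e => f0 (congrArg Subtype.val e)⟩⟩
    exact_mod_cast finrank_pos
  have n1 : (finrank ℚ M : ℚ) ≤ finrank ℚ A := by exact_mod_cast Submodule.finrank_le M
  have q0 : (0 : ℚ) < q := by have := hp.two_le; exact_mod_cast (by omega : 0 < q)
  have c0 : (0 : ℚ) < Nat.card G := by exact_mod_cast Nat.card_pos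
  rw [h, s5] at s6
  push_cast
  generalize (finrank ℚ M : ℚ) = m at *
  generalize σ.character u = c at *
  have e : m = -(q * c) := by linarith
  have k1 : Nat.card G * m ≤ 2 * (q * c ^ 2 + m ^ 2) := le_trans (mul_le_mul_of_nonneg_left l1 c0.le) s6
  have k2 : q * Nat.card G * m ≤ 2 * (q + 1) * m * m := by
    have := mul_le_mul_of_nonneg_left k1 q0.le
    calc _ = q * (Nat.card G * m) := by ring
      _ ≤ _ := this
      _ = _ := by rw [e]; ring
  have k3 := le_of_mul_le_mul_right k2 n0
  have k4 : 2 * (q + 1) * m ≤ 2 * (q + 1) * finrank ℚ A := mul_le_mul_of_nonneg_left n1 (by positivity)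
  rw [add_sub_cancel_right]
  linarith

theorem τ_eU (x : G) [Fintype (zpowers x)] :
    orderOf x * τ (eU ρ (zpowers x)) = ∑ i ∈ Finset.range (orderOf x), τ (ρ (x ^ i)) := by
  have cx : (orderOf x : ℚ) ≠ 0 := by exact_mod_cast (orderOf_pos x).ne'
  rw [eU, map_smul, Nat.card_zpowers, smul_eq_mul, ← mul_assoc, mul_inv_cancel₀ cx, one_mul, map_sum,
    sum_zpowers fun g => τ (ρ g)]

theorem τ_pow (x : G) {m : ℕ} (hm : m.Coprime (orderOf x)) : τ (ρ (x ^ m)) = τ (ρ x) :=
  rat_pow (lrep ρ) x hm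

variable (hρ : Function.Injective ρ) (h : PI A) (hi : Irr ρ)
include hρ h hi

theorem τ_three {x : G} (hx : orderOf x = 3) :
    2 * τ (ρ x) = -finrank ℚ A ∨ 4 * τ (ρ x) = finrank ℚ A := by
  haveI := Fintype.ofFinite (zpowers x)
  have a := τ_cases h hi (eU_idem ρ) (eU_ne_one ρ hρ (U := zpowers x) (by
    rw [Ne, zpowers_eq_bot]; rintro rfl; simp at hx))
  have b := τ_eU (ρ := ρ) x
  have c := τ_pow (ρ := ρ) x (m := 2) (by rw [hx]; decide)
  rw [hx] at b
  simp only [Finset.sum_range_succ, Finset.sum_range_zero, pow_zero, map_one, τ_one, pow_one, c] at b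
  push_cast at b
  rcases a with a | a
  · left; linarith
  · right; linarith

theorem τ_nine {y : G} (hy : orderOf y = 9) :
    (finrank ℚ A : ℚ) ^ 2 ≤ 8 * (τ (ρ y) ^ 2 + τ (ρ (y ^ 3)) ^ 2) := by
  haveI := Fintype.ofFinite (zpowers y)
  have a := τ_cases h hi (eU_idem ρ) (eU_ne_one ρ hρ (U := zpowers y) (by
    rw [Ne, zpowers_eq_bot]; rintro rfl; simp at hy))
  have b := τ_eU (ρ := ρ) y
  have o3 : orderOf (y ^ 3) = 3 := by rw [orderOf_pow, hy]; rfl
  have c : ∀ m, m.Coprime 9 → τ (ρ (y ^ m)) = τ (ρ y) := fun m hm => τ_pow y (hy ▸ hm)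
  have d : τ (ρ (y ^ 6)) = τ (ρ (y ^ 3)) := by
    rw [show 6 = 3 * 2 from rfl, pow_mul]; exact τ_pow _ (by rw [o3]; decide)
  rw [hy] at b
  simp only [Finset.sum_range_succ, Finset.sum_range_zero, pow_zero, map_one, τ_one, pow_one, d,
    c 2 (by decide), c 4 (by decide), c 5 (by decide), c 7 (by decide), c 8 (by decide)] at b
  push_cast at b
  rcases τ_three hρ h hi o3 with e | e
  · nlinarith [sq_nonneg (τ (ρ y))]
  · rcases a with a | a
    · have : 4 * τ (ρ y) = -finrank ℚ A := by linarith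
      nlinarith
    · have : 2 * τ (ρ y) = finrank ℚ A := by linarith
      nlinarith

omit hρ h hi in
theorem sum_odd (hs : Submodule.span ℚ (Set.range ρ) = ⊤) {z : G} (hz : ρ z = -1) [Nontrivial A]
    (O : Finset G) (hO : ∀ g ∈ O, g ^ 9 = 1) :
    2 * ∑ g ∈ O, τ (ρ g) ^ 2 ≤ Nat.card G * finrank ℚ A := by
  classical
  haveI := Fintype.ofFinite G
  refine le_trans ?_ (norm_le hs)
  have d : Disjoint O (O.image (z * ·)) := Finset.disjoint_left.2 fun g hg hg' => by
    obtain ⟨a, ha, rfl⟩ := Finset.mem_image.1 hg'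
    have e1 := congrArg ρ (hO _ hg)
    have e2 := congrArg ρ (hO _ ha)
    rw [map_pow, map_one] at e1 e2
    rw [map_mul, hz, neg_one_mul, neg_pow, e2] at e1
    have : (2 : ℕ) • (1 : A) = 0 := by
      rw [two_smul]; nth_rewrite 1 [← e1]; norm_num
    exact one_ne_zero (nsmul_eq_zero two_ne_zero this)
  have e : ∑ g ∈ O.image (z * ·), τ (ρ g) ^ 2 = ∑ g ∈ O, τ (ρ g) ^ 2 := by
    rw [Finset.sum_image fun a _ b _ e => mul_left_cancel e]
    simp [hz]
  rw [two_mul]
  nth_rewrite 2 [← e]
  rw [← Finset.sum_union d]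
  exact Finset.sum_le_sum_of_subset_of_nonneg (Finset.subset_univ _) fun _ _ _ => sq_nonneg _

theorem bound_three (hs : Submodule.span ℚ (Set.range ρ) = ⊤) {z : G} (hz : ρ z = -1) [Nontrivial A]
    {I : Type*} [Finite I] (ι : I → G) (hι : Function.Injective ι) (ho : ∀ i, orderOf (ι i) = 3) :
    Nat.card I * finrank ℚ A ≤ 8 * Nat.card G := by
  classical
  haveI := Fintype.ofFinite I
  have := sum_odd hs hz (Finset.univ.image ι) fun g hg => by
    obtain ⟨i, -, rfl⟩ := Finset.mem_image.1 hg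
    exact orderOf_dvd_iff_pow_eq_one.1 (by rw [ho]; decide)
  rw [Finset.sum_image fun a _ b _ e => hι e] at this
  have k : ∑ _i : I, (finrank ℚ A : ℚ) ^ 2 / 16 ≤ ∑ i, τ (ρ (ι i)) ^ 2 :=
    Finset.sum_le_sum fun i _ => by rcases τ_three hρ h hi (ho i) with e | e <;> nlinarith
  rw [Finset.sum_const, Finset.card_univ, nsmul_eq_mul, ← Nat.card_eq_fintype_card] at k
  have n0 : (0 : ℚ) < finrank ℚ A := by exact_mod_cast finrank_pos
  have : (Nat.card I * finrank ℚ A : ℚ) * finrank ℚ A ≤ 8 * Nat.card G * finrank ℚ A := by nlinarith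
  exact_mod_cast le_of_mul_le_mul_right this n0

theorem bound_nine (hs : Submodule.span ℚ (Set.range ρ) = ⊤) {z : G} (hz : ρ z = -1) [Nontrivial A]
    {I : Type*} [Finite I] (ι : I → G) (hι : Function.Injective fun i => ι i ^ 3)
    (ho : ∀ i, orderOf (ι i) = 9) : Nat.card I * finrank ℚ A ≤ 4 * Nat.card G := by
  classical
  haveI := Fintype.ofFinite I
  have o3 : ∀ i, orderOf (ι i ^ 3) = 3 := fun i => by rw [orderOf_pow, ho]; rfl
  have d : Disjoint (Finset.univ.image ι) (Finset.univ.image fun i => ι i ^ 3) :=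
    Finset.disjoint_left.2 fun g hg hg' => by
      obtain ⟨a, -, rfl⟩ := Finset.mem_image.1 hg
      obtain ⟨b, -, e⟩ := Finset.mem_image.1 hg'
      have := o3 b
      rw [e, ho] at this; omega
  have := sum_odd hs hz (Finset.univ.image ι ∪ Finset.univ.image fun i => ι i ^ 3) fun g hg => by
    rcases Finset.mem_union.1 hg with hg | hg <;> obtain ⟨i, -, rfl⟩ := Finset.mem_image.1 hg
    · exact orderOf_dvd_iff_pow_eq_one.1 (by rw [ho])
    · exact orderOf_dvd_iff_pow_eq_one.1 (by rw [o3]; decide)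
  rw [Finset.sum_union d, Finset.sum_image fun a _ b _ e => hι (by simp only [e]),
    Finset.sum_image fun a _ b _ e => hι e, ← Finset.sum_add_distrib] at this
  have k : ∑ _i : I, (finrank ℚ A : ℚ) ^ 2 / 8 ≤ ∑ i, (τ (ρ (ι i)) ^ 2 + τ (ρ (ι i ^ 3)) ^ 2) :=
    Finset.sum_le_sum fun i _ => by have := τ_nine hρ h hi (ho i); linarith
  rw [Finset.sum_const, Finset.card_univ, nsmul_eq_mul, ← Nat.card_eq_fintype_card] at k
  have n0 : (0 : ℚ) < finrank ℚ A := by exact_mod_cast finrank_pos
  have : (Nat.card I * finrank ℚ A : ℚ) * finrank ℚ A ≤ 4 * Nat.card G * finrank ℚ A := by nlinarith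
  exact_mod_cast le_of_mul_le_mul_right this n0

end CF.Gd
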