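import Cfsg.Agent.Gd.D
import Cfsg.Agent.GW.Cext

/-!
# `SL(2, q)` and the double cover of `A₇`
-/

set_option autoImplicit false
set_option linter.unusedSectionVars false
set_option linter.style.haveILetI false
set_option linter.unusedSimpArgs false

namespace CF.Gd
open Subgroup CF.Fgs1.Fpf Module CF.Classical
open scoped MatrixGroups

variable {A : Type*} [Ring A] [Algebra ℚ A]

theorem Irr.neg {G : Type*} [Group G] {ρ : G →* A} (hi : Irr ρ) (hρ : Function.Injective ρ) {z : G}
    (hz : z * z = 1) (z1 : z ≠ 1) (hc : ∀ g, g * z = z * g) : ρ z = -1 := by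
  by_contra h
  rcases hi (ei (ρ z)) (ei_idem (by rw [← map_mul, hz, map_one]))
    (fun g => ei_comm (by rw [← map_mul, hc, map_mul])) with e | e
  · exact ei_ne_zero h e
  · exact ei_ne_one (fun e => z1 (hρ (by rw [e, map_one]))) e

theorem Irr.equiv {G H : Type*} [Group G] [Group H] {ρ : G →* A} (hi : Irr ρ) {e : H →* G}
    (he : Function.Surjective e) : Irr (ρ.comp e) := fun f hf hc => hi f hf fun g => by
  obtain ⟨g, rfl⟩ := he g
  exact hc g

theorem pow_two_cases {p a k : ℕ} (hp : p.Prime) (ha : 0 < a) (o : Odd p) (h : p ^ a = 2 ^ k + 1) :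
    a = 1 ∨ p ^ a = 9 := by
  have p3 : 3 ≤ p := by have := hp.two_le; obtain ⟨m, rfl⟩ := o; omega
  rcases Nat.even_or_odd' a with ⟨b, rfl | rfl⟩
  · right
    obtain ⟨s, hs⟩ : ∃ s, p ^ b = s + 1 := ⟨p ^ b - 1, by have := Nat.one_le_pow b p hp.pos; omega⟩
    rw [mul_comm, pow_mul, hs] at h ⊢
    have e : s * (s + 2) = 2 ^ k := by nlinarith
    obtain ⟨i, -, hi⟩ := (Nat.dvd_prime_pow Nat.prime_two).1 (Dvd.intro _ e)
    obtain ⟨j, -, hj⟩ := (Nat.dvd_prime_pow Nat.prime_two).1 (Dvd.intro_left _ e)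
    have s2 : 2 ≤ s := by
      have := Nat.pow_le_pow_right hp.pos (show 1 ≤ b by omega)
      rw [pow_one] at this; omega
    rcases i with _ | _ | i
    · omega
    · rw [hi]; rfl
    · rcases j with _ | _ | j
      · omega
      · omega
      · rw [pow_succ, pow_succ] at hi hj; omega
  · left
    by_contra hb
    obtain ⟨s, rfl⟩ : ∃ s, p = s + 1 := ⟨p - 1, by omega⟩
    have g := Nat.geomSum_eq (m := s + 1) (by omega) (2 * b + 1)
    have d : s ∣ (s + 1) ^ (2 * b + 1) - 1 := by
      simpa using Nat.sub_dvd_pow_sub_pow (s + 1) 1 (2 * b + 1)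
    rw [h, Nat.add_sub_cancel] at d g
    rw [Nat.add_sub_cancel] at g
    obtain ⟨i, -, hi⟩ := (Nat.dvd_prime_pow Nat.prime_two).1 (g ▸ Nat.div_dvd_of_dvd d)
    have o2 : Odd (∑ j ∈ Finset.range (2 * b + 1), (s + 1) ^ j) := by
      rw [Finset.odd_sum_iff_odd_card_odd, Finset.filter_true_of_mem fun j _ => o.pow]
      simp
    have l : 1 < ∑ j ∈ Finset.range (2 * b + 1), (s + 1) ^ j := by
      rw [Finset.sum_range_succ']
      have := Finset.sum_pos (s := Finset.range (2 * b)) (f := fun j => (s + 1) ^ (j + 1))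
        (fun _ _ => by positivity) ⟨0, Finset.mem_range.2 (by omega)⟩
      simp only [pow_zero]; omega
    rw [hi] at o2 l
    rcases i with _ | i
    · simp at l
    · rw [pow_succ] at o2; exact absurd o2 (by simp)

section SL
variable {F : Type*} [Field F]

/-- unipotent elements -/
def up : Multiplicative F →* SL(2, F) where
  toFun b := sl2 1 b.toAdd 0 1 (by simp)
  map_one' := by rw [one_eq_sl2, sl2_eq_sl2_iff]; simp
  map_mul' a b := by rw [sl2_mul, sl2_eq_sl2_iff]; simp [add_comm]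

theorem up_def (b : Multiplicative F) : up b = sl2 1 b.toAdd 0 1 (by simp) := rfl

/-- upper triangular matrices -/
def bor (F : Type*) [Field F] : Subgroup SL(2, F) where
  carrier := {g | g 1 0 = 0}
  one_mem' := by simp
  mul_mem' := fun {a b} ha hb => by
    change _ = _ at ha hb ⊢
    simp [Matrix.mul_apply, ha, hb]
  inv_mem' := fun {a} ha => by
    change _ = _ at ha ⊢
    simp [Matrix.SpecialLinearGroup.coe_inv, Matrix.adjugate_fin_two, ha]

theorem bor_conj {g : SL(2, F)} (hg : g ∈ bor F) (b : Multiplicative F) :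
    ∃ c, g * up b * g⁻¹ = up c := by
  obtain ⟨a, b', c, d, h, rfl⟩ := exists_sl2 g
  obtain rfl : c = 0 := hg
  refine ⟨.ofAdd (a * b.toAdd * a), ?_⟩
  rw [up_def, up_def, sl2_inv, sl2_mul, sl2_mul, sl2_eq_sl2_iff]
  refine ⟨by linear_combination h, by simp; ring, by ring, by linear_combination h⟩

/-- matrices of a given trace -/
def mt (θ : F) (i : F × Fˣ) : SL(2, F) :=
  sl2 i.1 i.2 ((i.1 * (θ - i.1) - 1) * (i.2⁻¹ : Fˣ)) (θ - i.1) (by
    have := i.2.mul_inv
    linear_combination (-(i.1 * (θ - i.1) - 1)) * this)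

theorem mt_inj (θ : F) : Function.Injective (mt θ) := fun i j e => by
  obtain ⟨a, b, -⟩ := sl2_eq_sl2_iff.1 e
  exact Prod.ext a (Units.ext b)

theorem cube_of_trace {a b c d : F} (h : a * d - b * c = 1) (ht : a + d = -1) : sl2 a b c d h ^ 3 = 1 := by
  obtain rfl : d = -1 - a := by linear_combination ht
  rw [pow_succ, sq, sl2_mul, sl2_mul, one_eq_sl2, sl2_eq_sl2_iff]
  refine ⟨by linear_combination (1 - a) * h, by linear_combination (-b) * h,
    by linear_combination (-c) * h, by linear_combination (a + 2) * h⟩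

theorem mt_three (i : F × Fˣ) : orderOf (mt (-1) i) = 3 := by
  haveI : Fact (Nat.Prime 3) := ⟨Nat.prime_three⟩
  refine orderOf_eq_prime (cube_of_trace _ (by ring)) fun e => ?_
  rw [one_eq_sl2] at e
  exact i.2.ne_zero (sl2_eq_sl2_iff.1 e).2.1

theorem cube7 {a b c : F} (h : a * (7 - a) - b * c = 1) : sl2 a b c (7 - a) h ^ 3 =
    sl2 (48 * a - 7) (48 * b) (48 * c) (48 * (7 - a) - 7) (by linear_combination 2304 * h) := by
  rw [pow_succ, sq, sl2_mul, sl2_mul, sl2_eq_sl2_iff]
  refine ⟨by linear_combination (-(a + 7)) * h, by linear_combination (-b) * h,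
    by linear_combination (-c) * h, by linear_combination (a - 14) * h⟩

theorem mt_nine (h17 : (17 : F) = 0) (h48 : (48 : F) ≠ 0) :
    (∀ i, orderOf (mt (7 : F) i) = 9) ∧ Function.Injective fun i => mt (7 : F) i ^ 3 := by
  haveI : Fact (Nat.Prime 3) := ⟨Nat.prime_three⟩
  refine ⟨fun i => orderOf_eq_prime_pow (p := 3) (n := 1) (fun e => ?_) ?_, fun i j e => ?_⟩
  · rw [pow_one, mt, cube7, one_eq_sl2] at e
    exact mul_ne_zero h48 i.2.ne_zero (sl2_eq_sl2_iff.1 e).2.1
  · rw [pow_succ, pow_one, pow_mul, mt, cube7]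
    exact cube_of_trace _ (by linear_combination 19 * h17)
  · simp only [mt, cube7] at e
    obtain ⟨a, b, -⟩ := sl2_eq_sl2_iff.1 e
    exact Prod.ext (mul_left_cancel₀ h48 (sub_left_injective a)) (Units.ext (mul_left_cancel₀ h48 b))

variable [Fintype F] [FiniteDimensional ℚ A] [Nontrivial A] {ρ : SL(2, F) →* A}

theorem sl2_pow (hρ : Function.Injective ρ) (h : PI A) (hi : Irr ρ) : ∃ k, Fintype.card F = 2 ^ k + 1 := by
  classical
  have c1 : 1 < Fintype.card F := Fintype.one_lt_card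
  obtain ⟨k, hk⟩ : ∃ k, Fintype.card F - 1 = 2 ^ k := by
    refine ⟨_, Nat.eq_prime_pow_of_unique_prime_dvd (by omega) fun {r} hr hd => ?_⟩
    by_contra r2
    haveI := Fact.mk hr
    obtain ⟨a, ha⟩ := exists_prime_orderOf_dvd_card (G := Fˣ) r (by rwa [Fintype.card_units])
    have a2 : (a : F) * a ≠ 1 := fun e => by
      have : a ^ 2 = 1 := Units.ext (by simpa [sq] using e)
      exact r2 ((Nat.prime_dvd_prime_iff_eq hr Nat.prime_two).1 (ha ▸ orderOf_dvd_of_pow_eq_one this))
    let d : Fˣ →* SL(2, F) :=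
      { toFun := fun a => sl2 a 0 0 (a⁻¹ : Fˣ) (by simp)
        map_one' := by rw [one_eq_sl2, sl2_eq_sl2_iff]; simp
        map_mul' := fun a b => by rw [sl2_mul, sl2_eq_sl2_iff]; simp [mul_comm] }
    have hd : Function.Injective d := fun a b e => Units.ext (congrArg (fun g : SL(2, F) => g 0 0) e)
    have o : orderOf (d a) = r := by rw [orderOf_injective d hd, ha]
    refine frob hρ h hi (U := (up (F := F)).range) (x := d a) (fun e => ?_)
      (CF.Transfer.mem_normalizer_of_cj_le (CF.Transfer.cj_le_iff_forall.2 ?_)) (o ▸ hr) (o ▸ r2) ?_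
    · have : up (.ofAdd (1 : F)) = 1 := mem_bot.1 (e ▸ ⟨_, rfl⟩)
      rw [up_def, one_eq_sl2] at this
      exact one_ne_zero (sl2_eq_sl2_iff.1 this).2.1
    · rintro _ ⟨b, rfl⟩
      obtain ⟨c, hc⟩ := bor_conj (g := d a) rfl b
      exact ⟨c, hc.symm⟩
    · rintro _ ⟨b, rfl⟩ e
      have dd : d a = sl2 (a : F) 0 0 (a⁻¹ : Fˣ) (by simp) := rfl
      rw [dd, up_def, sl2_mul, sl2_mul] at e
      have e1 := (sl2_eq_sl2_iff.1 e).2.1
      have : b.toAdd * (a * a - 1) = 0 := by
        have := a.inv_mul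
        linear_combination (-(a : F)) * e1 + b.toAdd * this
      rw [up_def, one_eq_sl2, sl2_eq_sl2_iff]
      exact ⟨rfl, (mul_eq_zero.1 this).resolve_right (sub_ne_zero.2 a2), rfl, rfl⟩
  exact ⟨k, by omega⟩

theorem sl2_borel (hρ : Function.Injective ρ) (hz : ρ (-1) = -1) {p : ℕ} (hp : p.Prime)
    (hF : Fintype.card F = p) : (p - 1) * (p - 1) ≤ 2 * finrank ℚ A := by
  classical
  haveI := Fact.mk hp
  haveI : CharP F p := charP_of_card_eq_prime hF
  have ui : Function.Injective (up (F := F)) := fun a b e => congrArg (fun g : SL(2, F) => g 0 1) e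
  have um : ∀ c, up c ∈ bor F := fun c => rfl
  let u : bor F := ⟨up (.ofAdd 1), um _⟩
  have hu : orderOf u = p := by
    rw [← orderOf_coe]
    refine (orderOf_injective (up (F := F)) ui (.ofAdd (1 : F))).trans ?_
    rw [orderOf_ofAdd_eq_addOrderOf]
    exact CharP.eq F (CharP.addOrderOf_one F) inferInstance
  have mu : ∀ c, (⟨up c, um c⟩ : bor F) ∈ zpowers u := fun c => by
    obtain ⟨j, hj⟩ := (ZMod.castHom_bijective F hF).2 c.toAdd
    obtain ⟨j, rfl⟩ := ZMod.intCast_surjective j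
    refine ⟨j, Subtype.ext ?_⟩
    change up (.ofAdd 1) ^ j = up c
    rw [map_intCast] at hj
    rw [← map_zpow, ← ofAdd_zsmul, zsmul_one, hj, ofAdd_toAdd]
  haveI : (zpowers u).Normal := ⟨by
    rintro _ ⟨j, rfl⟩ g
    obtain ⟨c, hc⟩ := bor_conj g.2 (.ofAdd 1)
    have : g * u * g⁻¹ = ⟨up c, um c⟩ := Subtype.ext hc
    change g * u ^ j * g⁻¹ ∈ _
    rw [← conj_zpow, this]
    exact zpow_mem (mu c) j⟩
  have := borel (ρ := ρ.comp (bor F).subtype) (u := u) (z := ⟨-1, by change _ = _; simp⟩) hp hu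
    (fun e => by
      have : u = 1 := Subtype.ext (hρ (by rw [OneMemClass.coe_one, map_one]; exact e))
      rw [this, orderOf_one] at hu; exact hp.ne_one hu.symm) hz fun ⟨g, hg⟩ e => by
      obtain ⟨a, b, c, d, h, rfl⟩ := exists_sl2 g
      obtain rfl : c = 0 := hg
      have e' : sl2 a b 0 d h * up (.ofAdd 1) = up (.ofAdd 1) * sl2 a b 0 d h := congrArg Subtype.val e
      rw [up_def, sl2_mul, sl2_mul] at e'
      obtain rfl : a = d := by
        have := (sl2_eq_sl2_iff.1 e').2.1
        rw [toAdd_ofAdd] at this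
        linear_combination this
      rcases mul_self_eq_one_iff.1 (show a * a = 1 by simpa using h) with rfl | rfl
      · exact Or.inl (mu (.ofAdd b))
      · right
        convert mu (.ofAdd (-b)) using 1
        refine Subtype.ext ?_
        change -1 * sl2 _ _ _ _ h = up _
        rw [neg_one_mul, neg_sl2, up_def, sl2_eq_sl2_iff]; simp
  have c : (p - 1) * p ≤ Nat.card (bor F) := by
    have := Nat.card_le_card_of_injective (fun x : Fˣ × F =>
      (⟨sl2 x.1 x.2 0 (x.1⁻¹ : Fˣ) (by simp), rfl⟩ : bor F)) fun x y e =>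
        Prod.ext (Units.ext (congrArg (fun g : bor F => g.1 0 0) e)) (congrArg (fun g : bor F => g.1 0 1) e)
    rwa [Nat.card_prod, Nat.card_eq_fintype_card, Nat.card_eq_fintype_card, Fintype.card_units, hF] at this
  obtain ⟨q, rfl⟩ : ∃ q, p = q + 1 := ⟨p - 1, by have := hp.pos; omega⟩
  simp only [Nat.add_sub_cancel] at c ⊢
  push_cast at this
  rw [add_sub_cancel_right] at this
  have k : q * Nat.card (bor F) ≤ 2 * (q + 1) * finrank ℚ A := by exact_mod_cast this
  have := (Nat.mul_le_mul_left q c).trans k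
  exact Nat.le_of_mul_le_mul_right (c := q + 1) (by nlinarith) (by omega)

theorem sl2_case (hρ : Function.Injective ρ) (h : PI A) (hi : Irr ρ)
    (hs : Submodule.span ℚ (Set.range ρ) = ⊤) (o : Odd (Fintype.card F)) (h3 : 3 < Fintype.card F) :
    Fintype.card F = 5 ∨ Fintype.card F = 9 := by
  classical
  obtain ⟨k, hk⟩ := sl2_pow hρ h hi
  obtain ⟨p, hc, n, hp, hn⟩ := FiniteField.card' F
  have po : Odd p := (Nat.odd_pow_iff n.ne_zero).1 (hn ▸ o)
  rcases pow_two_cases hp n.pos po (hn ▸ hk) with e | e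
  swap
  · exact Or.inr (hn.trans e)
  rw [e, pow_one] at hn
  have h2 : (2 : F) ≠ 0 := fun e => by
    have := (CharP.cast_eq_zero_iff F p 2).1 (by exact_mod_cast e)
    have := Nat.le_of_dvd two_pos this
    omega
  have hz := hi.neg hρ (z := -1) (by simp) (neg_one_ne_one_SL2 h2) (by simp)
  have b := sl2_borel hρ hz hp hn
  have b3 := bound_three hρ h hi hs hz _ (mt_inj (-1)) mt_three
  have cI : Nat.card (F × Fˣ) = p * (p - 1) := by
    rw [Nat.card_prod, Nat.card_eq_fintype_card, Nat.card_eq_fintype_card, Fintype.card_units, hn]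
  rw [cI, card_SL_two, hn] at b3
  rw [hn] at hk h3 ⊢
  obtain ⟨q, rfl⟩ : ∃ q, p = q + 1 := ⟨p - 1, by omega⟩
  rw [show (q + 1) ^ 2 - 1 = q * (q + 2) from Nat.sub_eq_of_eq_add (by ring)] at b3
  simp only [Nat.add_sub_cancel] at b b3 cI
  have b4 : finrank ℚ A ≤ 8 * (q + 2) := by
    rw [show 8 * ((q + 1) * (q * (q + 2))) = (q + 1) * q * (8 * (q + 2)) by ring] at b3
    exact Nat.le_of_mul_le_mul_left b3 (Nat.mul_pos (by omega) (by omega))
  have q18 : q < 18 := by nlinarith
  obtain rfl : q = 2 ^ k := by omega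
  have k5 : k < 5 := by
    by_contra k5
    have := Nat.pow_le_pow_right two_pos (not_lt.1 k5)
    omega
  interval_cases k
  · omega
  · omega
  · exact Or.inl rfl
  · exact Or.inr rfl
  · exfalso
    have h17 : (17 : F) = 0 := by exact_mod_cast (CharP.cast_eq_zero_iff F (2 ^ 4 + 1) 17).2 dvd_rfl
    have h48 : (48 : F) ≠ 0 := fun e => by
      have := (CharP.cast_eq_zero_iff F (2 ^ 4 + 1) 48).1 (by exact_mod_cast e)
      omega
    have b9 := bound_nine hρ h hi hs hz _ (mt_nine h17 h48).2 (mt_nine h17 h48).1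
    rw [cI, card_SL_two, hn] at b9
    omega

end SL

end CF.Gd
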