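import Cfsg.Agent.Fgs1.FPF8
import Cfsg.Agent.Char.QSetup

/-!
# Reflections: local facts
-/

set_option autoImplicit false
set_option linter.unusedSectionVars false
set_option linter.style.haveILetI false
set_option linter.unusedSimpArgs false

namespace CF.Gd
open Subgroup CF.Fgs1.Fpf CF.Char

universe u
variable {G : Type u} [Group G]

theorem odd_even_eq_one {g : G} {m n : ℕ} (hm : Odd m) (h1 : g ^ m = 1) (h2 : g ^ 2 ^ n = 1) : g = 1 :=
  orderOf_eq_one_iff.1 (Nat.eq_one_of_dvd_coprimes (Nat.Coprime.pow_right n (Nat.coprime_two_right.2 hm))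
    (orderOf_dvd_of_pow_eq_one h1) (orderOf_dvd_of_pow_eq_one h2))

theorem fpf_sign [Finite G] (hF : FPF G) : ∃ (N : Subgroup G) (χ : G →* ℤˣ), N.Normal ∧ IsZGroup N ∧
    ∀ (x : G) (n : ℕ), x ^ 2 ^ n = 1 → x * x ∈ N ∨ χ x = -1 := by
  have key : ∀ {H : Type} [Group H] (f : G →* H) (χ : H →* ℤˣ),
      (∀ g : H, g * g = 1 ∨ χ g = -1 ∨ g ^ 15 = 1) →
      ∀ (x : G) (n : ℕ), x ^ 2 ^ n = 1 → x * x ∈ f.ker ∨ (χ.comp f) x = -1 := fun f χ h x n hx => by
    rcases h (f x) with e | e | e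
    · exact Or.inl (by rw [MonoidHom.mem_ker, map_mul, e])
    · exact Or.inr e
    · left
      rw [MonoidHom.mem_ker, map_mul, odd_even_eq_one (by decide) e (by rw [← map_pow, hx, map_one]), one_mul]
  by_cases hs : Group.IsSolvable G
  · obtain ⟨N, hN, hZ, rfl | ⟨f, -, rfl⟩ | ⟨f, -, rfl⟩ | ⟨f, -, rfl⟩⟩ := hF.solvable_struct
    · exact ⟨⊤, 1, hN, hZ, fun _ _ _ => Or.inl trivial⟩
    · exact ⟨_, _, hN, hZ, key f 1 (by decide +kernel)⟩
    · exact ⟨_, _, hN, hZ, key f 1 (by decide +kernel)⟩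
    · exact ⟨_, _, hN, hZ, key f Equiv.Perm.sign (by decide +kernel)⟩
  · obtain ⟨L, M, f, -, -, -, -, -, -, hk, -, -, hZ⟩ := hF.nonsolvable hs
    exact ⟨f.ker, _, inferInstance, hk ▸ hZ, key f Equiv.Perm.sign (by decide +kernel)⟩

theorem isPGroup_zpowers {x : G} {n : ℕ} (hx : x ^ 2 ^ n = 1) : IsPGroup 2 (zpowers x) := by
  rintro ⟨_, k, rfl⟩
  refine ⟨n, Subtype.ext ?_⟩
  change (x ^ k) ^ 2 ^ n = 1
  rw [← zpow_natCast, ← zpow_mul, mul_comm, zpow_mul, zpow_natCast, hx, one_zpow]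

/-- In a fixed-point-free group the two outer classes of a generalized quaternion subgroup are not both
fused into the square of the cyclic part. -/
theorem qf [Finite G] (hF : FPF G) {x y u v : G} {n : ℕ} (hx : x ^ 2 ^ n = 1) (x2 : x * x ≠ 1)
    (hy : y * x * y⁻¹ = x⁻¹) {k : ℤ} (hk : Odd k) (hu : u ∈ zpowers (x * x)) (hv : v ∈ zpowers (x * x))
    (c1 : IsConj u y) (c2 : IsConj v (x ^ k * y)) : False := by
  haveI : Fact (Nat.Prime 2) := ⟨Nat.prime_two⟩
  obtain ⟨N, χ, hN, hZ, h⟩ := fpf_sign hF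
  obtain ⟨g, hg⟩ := isConj_iff.1 c1
  obtain ⟨g', hg'⟩ := isConj_iff.1 c2
  obtain ⟨j, rfl⟩ := hk
  rcases h x n hx with e | e
  · have l := zpowers_le.2 e
    have yN : y ∈ N := hg ▸ hN.conj_mem _ (l hu) g
    have : x ^ (2 * j + 1) ∈ N := (mul_mem_cancel_right yN).1 (hg' ▸ hN.conj_mem _ (l hv) g')
    rw [zpow_add, zpow_mul, zpow_one, zpow_two] at this
    have xN : x ∈ N := (mul_mem_cancel_left (zpow_mem e j)).1 this
    have px := isPGroup_zpowers hx
    obtain ⟨m, hm⟩ := px ⟨u, zpowers_le.2 (mul_mem (mem_zpowers x) (mem_zpowers x)) hu⟩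
    have py : IsPGroup 2 (zpowers y) := isPGroup_zpowers (n := m) (by
      rw [← hg, conj_pow, show u ^ 2 ^ m = 1 from congrArg Subtype.val hm]; group)
    have p := IsPGroup.to_sup_of_normal_left' px py (zpowers_le.2
      (CF.Transfer.mem_normalizer_of_cj_le (CF.Transfer.cj_le_iff_forall.2 (by
        rintro _ ⟨i, rfl⟩
        change y * x ^ i * y⁻¹ ∈ _
        rw [← conj_zpow, hy]
        exact zpow_mem (inv_mem (mem_zpowers x)) i))))
    have p' : IsPGroup 2 ((zpowers x ⊔ zpowers y).subgroupOf N) := p.comap_subtype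
    haveI := p'.isCyclic_of_isZGroup
    have := mul_comm' (M := (zpowers x ⊔ zpowers y).subgroupOf N)
      ⟨⟨y, yN⟩, mem_sup_right (mem_zpowers y)⟩ ⟨⟨x, xN⟩, mem_sup_left (mem_zpowers x)⟩
    have c : y * x = x * y := congrArg (fun a => (a.1.1 : G)) this
    rw [c, mul_inv_cancel_right] at hy
    exact x2 (by nth_rw 1 [hy]; simp)
  · have k1 : ∀ w ∈ zpowers (x * x), χ w = 1 := by
      rintro _ ⟨i, rfl⟩
      simp [e]
    have h1 : χ y = 1 := by rw [← hg]; simp [k1 u hu]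
    have h2 : χ (x ^ (2 * j + 1) * y) = 1 := by rw [← hg']; simp [k1 v hv]
    rw [map_mul, h1, map_zpow, e, zpow_add, zpow_mul] at h2
    simp at h2

/-- reflections: involutions other than `z` -/
structure Ref (z t : G) : Prop where
  sq : t * t = 1
  ne1 : t ≠ 1
  nez : t ≠ z

/-- central involutions -/
structure Sg (z : G) : Prop where
  cen : ∀ g, g * z = z * g
  sq : z * z = 1
  ne : z ≠ 1

/-- the local hypothesis -/
structure Loc (z : G) : Prop extends Sg z where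
  h3 : ∀ t, Ref z t → ∃ (F : Type u) (_ : Group F) (_ : Finite F) (f : centralizer ({t} : Set G) →* F),
    FPF F ∧ ∀ c : centralizer ({t} : Set G), (∃ k, (c : G) ^ 2 ^ k = 1) → (f c = 1 ↔ (c : G) = 1 ∨ (c : G) = t)

/-- equality up to sign -/
def PM (z a b : G) : Prop := a = b ∨ a = z * b

theorem mc {t g : G} (h : g * t = t * g) : g ∈ centralizer ({t} : Set G) := mem_centralizer_singleton_iff.2 h

theorem Ref.inv {z t : G} (h : Ref z t) : t⁻¹ = t := inv_eq_of_mul_eq_one_right h.sq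

theorem Ref.sq' {z t : G} (h : Ref z t) (g : G) : t * (t * g) = g := by rw [← mul_assoc, h.sq, one_mul]

theorem Ref.ord {z t : G} (h : Ref z t) : orderOf t = 2 :=
  haveI : Fact (Nat.Prime 2) := ⟨Nat.prime_two⟩
  orderOf_eq_prime (by rw [pow_two, h.sq]) h.ne1

namespace Sg
variable {z t : G} (h : Sg z)
include h

theorem inv : z⁻¹ = z := inv_eq_of_mul_eq_one_right h.sq
theorem zz (g : G) : z * (z * g) = g := by rw [← mul_assoc, h.sq, one_mul]
theorem lc (a g : G) : a * (z * g) = z * (a * g) := by rw [← mul_assoc, h.cen, mul_assoc]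
theorem ne_mul (g : G) : g ≠ z * g := fun e => h.ne (by simpa using e.symm)

theorem neg (ht : Ref z t) : Ref z (z * t) :=
  ⟨by rw [mul_assoc, h.lc, h.zz, ht.sq], fun e => ht.nez (by rw [← h.zz t, e, mul_one]),
    fun e => ht.ne1 (by simpa using e)⟩

theorem conj (ht : Ref z t) (g : G) : Ref z (g * t * g⁻¹) :=
  ⟨by rw [← pow_two, conj_pow, pow_two, ht.sq]; group, by simpa using ht.ne1, fun e => ht.nez (by
    rw [mul_inv_eq_iff_eq_mul, ← h.cen] at e; exact mul_left_cancel e)⟩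

theorem conj' (ht : Ref z t) (g : G) : Ref z (g⁻¹ * t * g) := by simpa using h.conj ht g⁻¹

end Sg

namespace Loc
variable {z t : G} (h : Loc z)
include h

theorem h1 (ht : Ref z t) {u : G} (hu : u * u = 1) (hc : u * t = t * u) :
    u = 1 ∨ u = z ∨ PM z u t := by
  obtain ⟨F, _, _, f, hF, hf⟩ := h.h3 t ht
  let U : centralizer ({t} : Set G) := ⟨u, mc hc⟩
  let Z : centralizer ({t} : Set G) := ⟨z, mc (h.cen t).symm⟩
  by_cases e : f U = 1
  · rcases (hf U ⟨1, by simpa [pow_two] using hu⟩).1 e with e | e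
    exacts [Or.inl e, Or.inr (Or.inr (Or.inl e))]
  have eZ : f Z ≠ 1 := fun e => by
    rcases (hf Z ⟨1, by simpa [pow_two] using h.sq⟩).1 e with e | e
    exacts [h.ne e, ht.nez e.symm]
  have zz : Z * Z = 1 := Subtype.ext h.sq
  have := hF.eq_of_sq e eZ (by rw [← map_mul, show U * U = 1 from Subtype.ext hu, map_one])
    (by rw [← map_mul, zz, map_one])
  rcases (hf (Z * U) ⟨1, by
      change (z * u) ^ 2 ^ 1 = 1
      rw [pow_one, pow_two, mul_assoc, h.lc, h.zz, hu]⟩).1 (by rw [map_mul, this, ← map_mul, zz, map_one]) with e | e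
  · exact Or.inr (Or.inl (by rw [← h.zz u, show z * u = 1 from e, mul_one]))
  · exact Or.inr (Or.inr (Or.inr (by rw [← h.zz u, show z * u = t from e])))

theorem h1' (ht : Ref z t) {u : G} (hu : Ref z u) (hc : u * t = t * u) : PM z u t :=
  ((h.h1 ht hu.sq hc).resolve_left hu.ne1).resolve_left hu.nez

theorem h2 (c : G) : ¬ Ref z (c * c) := fun ht => by
  obtain ⟨F, _, _, f, hF, hf⟩ := h.h3 _ ht
  let C : centralizer ({c * c} : Set G) := ⟨c, mc (mul_assoc _ _ _).symm⟩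
  let Z : centralizer ({c * c} : Set G) := ⟨z, mc (h.cen _).symm⟩
  have c4 : c ^ 2 ^ 2 = 1 := by rw [show 2 ^ 2 = 2 * 2 by rfl, pow_mul, pow_two, pow_two, ht.sq]
  have hC : f C * f C = 1 := by
    rw [← map_mul]; exact (hf _ ⟨1, by simpa [pow_two] using ht.sq⟩).2 (Or.inr rfl)
  have zz : Z * Z = 1 := Subtype.ext h.sq
  have n : ∀ d : G, d * d = c * c → ¬ (d = 1 ∨ d = c * c) := by
    rintro d e (rfl | e')
    · exact ht.ne1 (by simpa using e.symm)
    · rw [e', ht.sq] at e; exact ht.ne1 e.symm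
  by_cases e : f C = 1
  · exact n c rfl ((hf C ⟨2, c4⟩).1 e)
  have eZ : f Z ≠ 1 := fun e => by
    rcases (hf Z ⟨1, by simpa [pow_two] using h.sq⟩).1 e with e | e
    exacts [h.ne e, ht.nez e.symm]
  have := hF.eq_of_sq e eZ hC (by rw [← map_mul, zz, map_one])
  have zc : z * c * (z * c) = c * c := by rw [mul_assoc, h.lc, h.zz]
  refine n (z * c) zc ((hf (Z * C) ⟨2, ?_⟩).1 (by rw [map_mul, this, ← map_mul, zz, map_one]))
  change (z * c) ^ 2 ^ 2 = 1
  rw [show 2 ^ 2 = 2 * 2 by rfl, pow_mul, pow_two (z * c), zc, pow_two, ht.sq]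

theorem sq_cases {c : G} (e : c * c * (c * c) = 1) : c * c = 1 ∨ c * c = z := by
  by_contra n
  rw [not_or] at n
  exact h.h2 c ⟨e, n.1, n.2⟩

theorem pow2 {c : G} {n : ℕ} (e : c ^ 2 ^ n = 1) :
    c * c = 1 ∨ c * c = z ∨ ∃ k, (c * c) ^ k * (c * c) ^ k = z := by
  induction n generalizing c with
  | zero => left; rw [pow_zero, pow_one] at e; rw [e, one_mul]
  | succ n ih =>
    rcases ih (c := c * c) (by rw [← pow_two, ← pow_mul, ← pow_succ', e]) with e | e | ⟨k, e⟩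
    · exact (h.sq_cases e).imp id Or.inl
    · exact Or.inr (Or.inr ⟨1, by simpa using e⟩)
    · exact Or.inr (Or.inr ⟨2 * k, by rwa [pow_mul, pow_two]⟩)

/-- `qf` in the centralizer of a reflection -/
theorem qf (ht : Ref z t) {x y y' u v g g' : G} {n : ℕ} (hx : x ^ 2 ^ n = 1) (x2 : x * x ≠ 1)
    (hy : y * x * y⁻¹ = x⁻¹) {k : ℤ} (hk : Odd k) (hu : u ∈ zpowers (x * x)) (hv : v ∈ zpowers (x * x))
    (xt : x * t = t * x) (yt : y * t = t * y) (gt : g * t = t * g) (gt' : g' * t = t * g')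
    (e : y' = x ^ k * y ∨ y' = x ^ k * y * t)
    (c1 : g * y * g⁻¹ = u ∨ g * y * g⁻¹ = u * t) (c2 : g' * y' * g'⁻¹ = v ∨ g' * y' * g'⁻¹ = v * t) : False := by
  obtain ⟨F, _, _, f, hF, hf⟩ := h.h3 t ht
  let X : centralizer ({t} : Set G) := ⟨x, mc xt⟩
  let Y : centralizer ({t} : Set G) := ⟨y, mc yt⟩
  let T : centralizer ({t} : Set G) := ⟨t, mc rfl⟩
  let A : centralizer ({t} : Set G) := ⟨g, mc gt⟩
  let B : centralizer ({t} : Set G) := ⟨g', mc gt'⟩
  have hT : f T = 1 := (hf T ⟨1, by simpa [pow_two] using ht.sq⟩).2 (Or.inr rfl)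
  obtain ⟨a, rfl⟩ := hu
  obtain ⟨b, rfl⟩ := hv
  refine Gd.qf hF (x := f X) (y := f Y) (n := n) (u := (f X * f X) ^ a) (v := (f X * f X) ^ b)
    (by rw [← map_pow, show X ^ 2 ^ n = 1 from Subtype.ext hx, map_one]) (fun e => ?_)
    (by rw [← map_mul, ← map_inv, ← map_mul, ← map_inv]; exact congrArg f (Subtype.ext hy)) hk
    ⟨a, rfl⟩ ⟨b, rfl⟩ (IsConj.symm (isConj_iff.2 ⟨f A, ?_⟩)) (IsConj.symm (isConj_iff.2 ⟨f B, ?_⟩))
  · rw [← map_mul] at e
    rcases (hf _ ⟨n, by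
      change (x * x) ^ 2 ^ n = 1
      rw [← pow_two, ← pow_mul, mul_comm, pow_mul, hx, one_pow]⟩).1 e with e | e
    · exact x2 e
    · exact h.h2 x ((show x * x = t from e) ▸ ht)
  · rw [← map_mul, ← map_inv, ← map_mul, ← map_mul, ← map_zpow]
    rcases c1 with c | c
    · exact congrArg f (Subtype.ext c)
    · rw [← mul_one (f ((X * X) ^ a)), ← hT, ← map_mul]; exact congrArg f (Subtype.ext c)
  · have e2 : ∃ Y' : centralizer ({t} : Set G), (Y' : G) = y' ∧ f X ^ k * f Y = f Y' := by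
      rcases e with e | e
      · exact ⟨X ^ k * Y, e.symm, by simp⟩
      · exact ⟨X ^ k * Y * T, e.symm, by simp [hT]⟩
    obtain ⟨Y', rfl, e2⟩ := e2
    rw [e2, ← map_mul, ← map_inv, ← map_mul, ← map_mul, ← map_zpow]
    rcases c2 with c | c
    · exact congrArg f (Subtype.ext c)
    · rw [← mul_one (f ((X * X) ^ b)), ← hT, ← map_mul]; exact congrArg f (Subtype.ext c)

end Loc

/-- the abelian group generated by `x` and `t` -/
def InX (x t c : G) : Prop := ∃ k : ℤ, c = x ^ k ∨ c = x ^ k * t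

/-- shape of a non-abelian `2`-subgroup of the centralizer of a reflection -/
structure QS (z t : G) (P : Subgroup G) (x y : G) (m : ℕ) : Prop where
  xm : x ∈ P
  ym : y ∈ P
  xz : x ^ 2 ^ (m + 1) = z
  yy : y * y = z
  yx : y * x * y⁻¹ = x⁻¹
  mem : ∀ c ∈ P, InX x t c ∨ InX x t (y⁻¹ * c)

theorem Loc.struct {z t : G} (h : Loc z) (ht : Ref z t) {P : Subgroup G} (hP : IsPGroup 2 P)
    (hc : ∀ c ∈ P, c * t = t * c) (tP : t ∈ P) (zP : z ∈ P) :
    (∃ x ∈ P, ∀ c ∈ P, InX x t c) ∨ ∃ x y m, QS z t P x y m := by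
  haveI : Fact (Nat.Prime 2) := ⟨Nat.prime_two⟩
  obtain ⟨F, _, _, f, hF, hf⟩ := h.h3 t ht
  have le : P ≤ centralizer ({t} : Set G) := fun c hc' => mc (hc c hc')
  let φ : P →* F := f.comp (inclusion le)
  have k : ∀ a b : P, φ a = φ b → (a : G) = b ∨ (a : G) = b * t := fun a b e => by
    obtain ⟨n, hn⟩ := hP (b⁻¹ * a)
    have := (hf (inclusion le (b⁻¹ * a)) ⟨n, congrArg Subtype.val hn⟩).1 (by
      change φ _ = 1
      rw [map_mul, map_inv, e, inv_mul_cancel])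
    exact this.imp (fun e => (inv_mul_eq_one.1 e).symm) fun e => inv_mul_eq_iff_eq_mul.1 e
  have kx : ∀ a x : P, φ a ∈ zpowers (φ x) → InX (x : G) t a := by
    rintro a x ⟨j, hj⟩
    exact ⟨j, k a (x ^ j) (by rw [map_zpow]; exact hj.symm)⟩
  have hQ : IsPGroup 2 φ.range := hP.of_surjective φ.rangeRestrict φ.rangeRestrict_surjective
  rcases hF.isCyclic_or_quaternion hQ with c | ⟨-, m, hm, ⟨e⟩⟩
  · obtain ⟨⟨_, x, rfl⟩, hx⟩ := c.exists_generator
    refine Or.inl ⟨x, x.2, fun c hc => kx ⟨c, hc⟩ x ?_⟩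
    obtain ⟨j, hj⟩ := hx ⟨_, ⟨c, hc⟩, rfl⟩
    exact ⟨j, congrArg Subtype.val hj⟩
  obtain ⟨a, b, q⟩ := exists_qSetup e
  obtain ⟨x, rfl⟩ := (q.mem a).2 (Or.inl (mem_zpowers a))
  obtain ⟨y, rfl⟩ := (q.mem b).2 (Or.inr (by simp))
  obtain ⟨m, rfl⟩ : ∃ k, m = k + 1 := ⟨m - 1, by omega⟩
  have sq : ∀ c : G, ¬ (c * c = 1 * t) := fun c e => h.h2 c (by rwa [e, one_mul])
  have sq' : ∀ c : G, ¬ (c * c = z * t) := fun c e => h.h2 c (e ▸ h.neg ht)
  have x1 : (x : G) ^ 2 ^ (m + 1) * x ^ 2 ^ (m + 1) = 1 :=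
    (k (x ^ 2 ^ (m + 1) * x ^ 2 ^ (m + 1)) 1 (by
      rw [← pow_two, ← pow_mul, ← pow_succ, map_pow, ← q.ha, pow_orderOf_eq_one, map_one])).resolve_right (sq _)
  have pw : (x : G) ^ 2 ^ (m + 1) = x ^ 2 ^ m * x ^ 2 ^ m := by rw [← pow_two, ← pow_mul, ← pow_succ]
  have xz : (x : G) ^ 2 ^ (m + 1) = z := by
    rw [pw] at x1 ⊢
    refine (h.sq_cases x1).resolve_left fun e => ?_
    have : φ x ^ 2 ^ (m + 1) = 1 := by
      rw [← map_pow, show x ^ 2 ^ (m + 1) = 1 from Subtype.ext (pw.trans e), map_one]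
    have := Nat.le_of_dvd (by positivity) (q.ha ▸ orderOf_dvd_of_pow_eq_one this)
    rw [pow_succ 2 (m + 1)] at this
    have := Nat.two_pow_pos (m + 1)
    omega
  have bb : φ y * φ y = φ ⟨z, zP⟩ := by rw [q.hb, ← map_pow]; exact congrArg φ (Subtype.ext xz)
  have yy : (y : G) * y = z := (k (y * y) ⟨z, zP⟩ (by rw [map_mul, bb])).resolve_right (sq' _)
  have xy : (x : G) * y * (x * y) = z := (k (x * y * (x * y)) ⟨z, zP⟩ (by
    rw [← bb, map_mul, map_mul]
    calc _ = φ x * (φ y * φ x * (φ y)⁻¹) * (φ y * φ y) := by group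
      _ = _ := by rw [q.hba]; group)).resolve_right (sq' _)
  refine Or.inr ⟨x, y, m, x.2, y.2, xz, yy, ?_, fun c hc => ?_⟩
  · calc (y : G) * x * (y : G)⁻¹ = (x : G)⁻¹ * (x * y * (x * y)) * ((y : G) * y)⁻¹ := by group
      _ = _ := by rw [xy, yy]; group
  · refine ((q.mem (φ ⟨c, hc⟩)).1 ⟨_, rfl⟩).imp (kx _ x) fun e => kx (y⁻¹ * ⟨c, hc⟩) x ?_
    rwa [map_mul, map_inv]

end CF.Gd
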