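import Cfsg.Agent.Gd.F
import Cfsg.Agent.Loc.Xfer

/-!
# Reflections: sign calculus, transfer, cliques
-/

set_option autoImplicit false
set_option linter.unusedSectionVars false
set_option linter.style.haveILetI false
set_option linter.unusedSimpArgs false

namespace CF.Gd
open Subgroup CF.Fgs1.Fpf
open scoped commutatorElement

universe u
variable {G : Type u} [Group G]

/-- anticommutation -/
def AC (z a b : G) : Prop := a * b = z * (b * a)

theorem cl {a b : G} (h : a * b = b * a) (g : G) : a * (b * g) = b * (a * g) := by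
  rw [← mul_assoc, h, mul_assoc]

theorem AC.l {z a b : G} (h : AC z a b) (g : G) : a * (b * g) = z * (b * (a * g)) := by
  rw [← mul_assoc, h]; simp only [mul_assoc]

theorem PM.rfl {z a : G} : PM z a a := Or.inl _root_.rfl

theorem PM.mul_right {z a b : G} (h : PM z a b) (c : G) : PM z (a * c) (b * c) :=
  h.imp (fun e => by rw [e]) fun e => by rw [e, mul_assoc]

theorem cm_mul {a b c : G} (h1 : a * c = c * a) (h2 : b * c = c * b) : a * b * c = c * (a * b) :=
  (Commute.mul_left h1 h2 : Commute (a * b) c)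

theorem cm_conj {a b : G} (h : a * b = b * a) (g : G) :
    g * a * g⁻¹ * (g * b * g⁻¹) = g * b * g⁻¹ * (g * a * g⁻¹) := by
  calc _ = g * (a * b) * g⁻¹ := by group
    _ = _ := by rw [h]; group

theorem cm_of_conj {a b g : G} (h : g * a * g⁻¹ * (g * b * g⁻¹) = g * b * g⁻¹ * (g * a * g⁻¹)) :
    a * b = b * a := by
  have := cm_conj h g⁻¹
  simpa [mul_assoc] using this

theorem cm_iff {a b : G} : a * b * a⁻¹ = b ↔ a * b = b * a := mul_inv_eq_iff_eq_mul

theorem perf_of_surj {H : Type*} [Group H] (hp : commutator G = ⊤) {π : G →* H} (su : Function.Surjective π) :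
    commutator H = ⊤ := by
  rw [commutator_def, ← MonoidHom.range_eq_top.2 su, ← map_commutator_eq, hp, ← MonoidHom.range_eq_map]

namespace Sg
variable {z : G} (h : Sg z)
include h

theorem acs {a b : G} (e : AC z a b) : AC z b a := by rw [AC, e, h.zz]
theorem ac_ne {a b : G} (e : AC z a b) : a * b ≠ b * a := fun e' => h.ne_mul _ (e'.symm.trans e)
theorem pms {a b : G} (e : PM z a b) : PM z b a :=
  e.imp Eq.symm fun e => by rw [e, h.zz]
theorem pmt {a b c : G} (e : PM z a b) (e' : PM z b c) : PM z a c := by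
  rcases e with rfl | rfl
  · exact e'
  · rcases e' with rfl | rfl
    exacts [Or.inr rfl, Or.inl (h.zz _)]
theorem pml {a b : G} (e : PM z a b) (c : G) : PM z (c * a) (c * b) :=
  e.imp (fun e => by rw [e]) fun e => by rw [e, h.lc]
theorem pmc {a b : G} (e : PM z a b) (g : G) : PM z (g * a * g⁻¹) (g * b * g⁻¹) :=
  (h.pml e g).mul_right _
theorem pm_cm {a b c : G} (e : PM z a b) (hc : b * c = c * b) : a * c = c * a := by
  rcases e with rfl | rfl
  exacts [hc, cm_mul (h.cen c).symm hc]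
theorem pm_ac {a b c : G} (e : PM z a b) (hc : AC z b c) : AC z a c := by
  rcases e with rfl | rfl
  · exact hc
  · rw [AC, mul_assoc, hc, h.lc c]
theorem ac_iff {a b : G} : a * b * a⁻¹ = z * b ↔ AC z a b := by
  rw [AC, mul_inv_eq_iff_eq_mul, mul_assoc]
theorem cm_or_ac {a b : G} (e : PM z (a * b * a⁻¹) b) : a * b = b * a ∨ AC z a b :=
  e.imp cm_iff.1 h.ac_iff.1
theorem ac_conj {a b : G} (e : AC z a b) (g : G) : AC z (g * a * g⁻¹) (g * b * g⁻¹) := by
  calc _ = g * (a * b) * g⁻¹ := by group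
    _ = _ := by rw [e, h.lc]; group
theorem ac_ac {a b c : G} (e : AC z a c) (e' : AC z b c) : a * b * c = c * (a * b) := by
  rw [mul_assoc, e', h.lc, e.l, h.zz]
theorem ac_cm {a b c : G} (e : AC z a c) (e' : b * c = c * b) : AC z (a * b) c := by
  rw [AC, mul_assoc, e', e.l]
theorem cm_ac {a b c : G} (e : a * c = c * a) (e' : AC z b c) : AC z (a * b) c := by
  rw [AC, mul_assoc, e', h.lc, cl e]
theorem sq_ac {a b : G} (ha : a * a = 1) (hb : b * b = 1) (e : AC z a b) : a * b * (a * b) = z := by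
  rw [mul_assoc, (h.acs e).l, hb, mul_one, h.lc, ha, mul_one]
theorem ref_of_ac {a b : G} (ha : a * a = 1) (e : AC z a b) : Ref z a :=
  ⟨ha, by rintro rfl; exact h.ac_ne e (by simp), by rintro rfl; exact h.ac_ne e (h.cen b).symm⟩
theorem pm_ref {a b : G} (e : PM z a b) (hb : Ref z b) : Ref z a := by
  rcases e with rfl | rfl
  exacts [hb, h.neg hb]
theorem inv4 {a : G} (e : a * a = z) : a⁻¹ = z * a :=
  inv_eq_of_mul_eq_one_right (by rw [h.lc, e, h.sq])

theorem normal : (zpowers z).Normal := ⟨by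
  rintro _ ⟨k, rfl⟩ g
  refine ⟨k, ?_⟩
  change _ = g * z ^ k * g⁻¹
  rw [← conj_zpow, h.cen, mul_inv_cancel_right]⟩

theorem mem_zp {a : G} : a ∈ zpowers z ↔ PM z a 1 := by
  refine ⟨?_, ?_⟩
  · rintro ⟨k, rfl⟩
    rcases Int.even_or_odd' k with ⟨k, rfl | rfl⟩
    · left; simp [zpow_mul, pow_two, h.sq]
    · right; simp [zpow_add, zpow_mul, pow_two, h.sq]
  · rintro (rfl | rfl)
    exacts [one_mem _, by simp]

theorem relIndex_two {S : Subgroup G} {j y : G} (hj : ∀ g ∈ S, PM z (g * j * g⁻¹) j) (yS : y ∈ S)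
    (hy : AC z y j) : (S ⊓ centralizer {j}).relIndex S = 2 := by
  refine relIndex_eq_two_iff.2 ⟨y, yS, fun b hb => ?_⟩
  simp only [mem_inf, mem_centralizer_singleton_iff]
  rcases h.cm_or_ac (hj b hb) with e | e
  · exact Or.inr ⟨⟨hb, e⟩, fun e' => h.ac_ne (h.cm_ac e hy) e'.2⟩
  · exact Or.inl ⟨⟨mul_mem hb yS, h.ac_ac e hy⟩, fun e' => h.ac_ne e e'.2⟩

/-- extremal transfer modulo `z` -/
theorem xt [Finite G] (hp : commutator G = ⊤) {S : Subgroup G} (p2 : IsPGroup 2 S) (o : ¬ 2 ∣ S.index)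
    (zS : z ∈ S) {j y w : G} (hj : ∀ g ∈ S, PM z (g * j * g⁻¹) j) (yS : y ∈ S) (hy : AC z y j)
    (hw : PM z (w * w) 1) : ∃ g, g * w * g⁻¹ * j = j * (g * w * g⁻¹) ∧
      ∀ k ∈ S, PM z (k * w) (w * k) → g * k * g⁻¹ ∈ S := by
  haveI := h.normal
  let π := QuotientGroup.mk' (zpowers z)
  have su : Function.Surjective π := QuotientGroup.mk'_surjective _
  have k1 : π.ker ≤ S ⊓ centralizer {j} := by
    rw [QuotientGroup.ker_mk', zpowers_le]; exact ⟨zS, mc (h.cen j).symm⟩
  have k2 := k1.trans inf_le_left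
  have pm : ∀ {a b}, PM z a b → π a = π b := by
    rintro a b (rfl | rfl)
    · rfl
    · rw [map_mul, show π z = 1 from (QuotientGroup.eq_one_iff _).2 (mem_zpowers z), one_mul]
  obtain ⟨g, h1, h2⟩ := CF.Loc.extremal_transfer (S := S.map π) (M := (S ⊓ centralizer {j}).map π)
    (T := S.map π ⊓ centralizer {π w}) (x := π w) (fun e => o (e.trans (index_map_dvd _ su)))
    (map_mono inf_le_left) (by
      rw [relIndex_map_map, sup_eq_left.2 k1, sup_eq_left.2 k2, h.relIndex_two hj yS hy])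
    (by rw [← map_pow, pow_two, pm hw, map_one]) (by
      rw [perf_of_surj hp su]; trivial)
    ((p2.map π).to_inf_left) inf_le_right
  obtain ⟨g, rfl⟩ := su g
  refine ⟨g⁻¹, ?_, fun k hk e => ?_⟩
  · have : g⁻¹ * w * g⁻¹⁻¹ ∈ ((S ⊓ centralizer {j}).map π).comap π := by simpa using h1
    rw [comap_map_eq_self k1] at this
    exact mem_centralizer_singleton_iff.1 this.2
  · have : g⁻¹ * k * g⁻¹⁻¹ ∈ (S.map π).comap π := by
      have := CF.Transfer.cj_le_iff_forall.1 h2 (π k) ⟨⟨k, hk, rfl⟩, mc (by rw [← map_mul, ← map_mul, pm e])⟩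
      simpa using this
    rwa [comap_map_eq_self k2] at this

end Sg

/-- square roots of `z` commuting with a reflection -/
theorem Loc.root {z t a i : G} (h : Loc z) (ht : Ref z t) (ha : a * a = z) (hi : i * i = z) (c : a * i = i * a)
    (at' : a * t = t * a) (it : i * t = t * i) : PM z a i ∨ PM z a (i * t) := by
  have k : ∀ b, a * i = b → a = z * (i * b) := fun b e => by
    rw [← e, c, ← mul_assoc i, hi, h.zz]
  rcases h.h1 ht (u := a * i) (by rw [mul_assoc, cl c.symm, hi, ← mul_assoc, ha, h.sq]) (cm_mul at' it)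
    with e | e | e | e
  · exact Or.inl (Or.inr (by simpa using k _ e))
  · exact Or.inl (Or.inl (by rw [k _ e, h.cen, h.zz]))
  · exact Or.inr (Or.inr (k _ e))
  · exact Or.inr (Or.inl (by rw [k _ e, h.lc i, h.zz]))

/-- three pairwise anticommuting reflections with product `± x²` -/
structure Tri (z x d b c : G) : Prop where
  rd : Ref z d
  rb : Ref z b
  rc : Ref z c
  db : AC z d b
  dc : AC z d c
  bc : AC z b c
  xd : x * d = d * x
  xb : x * b = b * x
  xc : x * c = c * x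
  pr : PM z (d * b * c) (x * x)

theorem Tri.s1 {z x d b c : G} (h : Loc z) (T : Tri z x d b c) : Tri z x b d c :=
  ⟨T.rb, T.rd, T.rc, h.acs T.db, T.bc, T.dc, T.xb, T.xd, T.xc,
    h.pmt (Or.inr (by rw [h.acs T.db, mul_assoc])) T.pr⟩

theorem Tri.s2 {z x d b c : G} (h : Loc z) (T : Tri z x d b c) : Tri z x d c b :=
  ⟨T.rd, T.rc, T.rb, T.dc, T.db, h.acs T.bc, T.xd, T.xc, T.xb,
    h.pmt (Or.inr (by rw [mul_assoc, h.acs T.bc, h.lc, mul_assoc])) T.pr⟩

/-- an outer reflection -/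
structure Out (z x d b c r : G) : Prop where
  rr : r * r = 1
  rd : AC z r d
  rb : AC z r b
  rc : AC z r c
  rx : r * x * r⁻¹ = x⁻¹

theorem Out.s1 {z x d b c r : G} (O : Out z x d b c r) : Out z x b d c r := ⟨O.1, O.3, O.2, O.4, O.5⟩
theorem Out.s2 {z x d b c r : G} (O : Out z x d b c r) : Out z x d c b r := ⟨O.1, O.2, O.4, O.3, O.5⟩

theorem Out.xr {z x d b c r : G} (O : Out z x d b c r) : x * r * x⁻¹ = x * x * r := by
  rw [← O.rx]
  calc x * r * (r * x * r⁻¹) = x * (r * r) * x * r⁻¹ := by group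
    _ = _ := by rw [O.rr, inv_eq_of_mul_eq_one_right O.rr, mul_one]

theorem Out.ri {z x d b c r : G} (h : Loc z) (O : Out z x d b c r) (x4 : x * x * (x * x) = z) :
    AC z r (x * x) := h.ac_iff.1 (by
  rw [← h.inv4 x4, mul_inv_rev, ← O.rx]; group)

theorem Out.mul {z x d b c r : G} (h : Loc z) (T : Tri z x d b c) (O : Out z x d b c r) :
    Out z x d b c (x * r) :=
  ⟨by calc x * r * (x * r) = x * (r * x * r⁻¹) * (r * r) := by group
        _ = 1 := by rw [O.rx, O.rr]; group,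
    h.cm_ac T.xd O.rd, h.cm_ac T.xb O.rb, h.cm_ac T.xc O.rc, by
      calc x * r * x * (x * r)⁻¹ = x * (r * x * r⁻¹) * x⁻¹ := by group
        _ = _ := by rw [O.rx]; group⟩

theorem exists_odd_pow [Finite G] (k : G) : ∃ m n, Odd m ∧ (k ^ m) ^ 2 ^ n = 1 := by
  obtain ⟨n, m, hm, e⟩ := Nat.exists_eq_two_pow_mul_odd (orderOf_pos k).ne'
  exact ⟨m, n, hm, by rw [← pow_mul, mul_comm, ← e, pow_orderOf_eq_one]⟩

/-- no double transposition on a clique -/
theorem Loc.dbl [Finite G] {z x d b c r g : G} (h : Loc z) (T : Tri z x d b c) (O : Out z x d b c r)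
    (x4 : x * x * (x * x) = z) (gd : g * d = d * g) (gr : g * r = r * g) (gi : g * (x * x) = x * x * g)
    (gb : PM z (g * b * g⁻¹) c) : False := by
  have Jd : b * r * d = d * (b * r) := h.ac_ac (h.acs T.db) O.rd
  have xi : x * (x * x) = x * x * x := (mul_assoc _ _ _).symm
  have Ji : AC z (b * r) (x * x) := h.cm_ac (cm_mul T.xb T.xb).symm (O.ri h x4)
  have JJ : b * r * (b * r) = z := h.sq_ac T.rb.sq O.rr (h.acs O.rb)
  obtain ⟨D, hD, e⟩ : ∃ D, PM z D d ∧ x * g * (b * r) * (x * g)⁻¹ = D * (b * r) := by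
    have e1 : x * g * (b * r) * (x * g)⁻¹ = x * (g * b * g⁻¹) * x⁻¹ * (x * x * r) := by
      rw [← O.xr]
      calc _ = x * (g * b * g⁻¹) * (g * r * g⁻¹) * x⁻¹ := by group
        _ = _ := by rw [cm_iff.2 gr]; group
    have e2 : PM z (x * (g * b * g⁻¹) * x⁻¹ * (x * x)) (d * b) := by
      refine h.pmt ((h.pmc gb x).mul_right _) ?_
      rw [cm_iff.2 T.xc]
      refine h.pmt (h.pml (h.pms T.pr) c) (Or.inl ?_)
      rw [h.ac_ac T.dc T.bc, T.rc.sq']
    rw [e1, ← mul_assoc _ (x * x)]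
    rcases e2 with e | e
    · exact ⟨d, PM.rfl, by rw [e, mul_assoc]⟩
    · exact ⟨z * d, Or.inr rfl, by rw [e]; simp only [mul_assoc]⟩
  have rD := h.pm_ref hD T.rd
  have kd : Commute (x * g) d := cm_mul T.xd gd
  have kD : Commute (x * g) D := (h.pm_cm hD kd.symm).symm
  have ki : Commute (x * g) (x * x) := cm_mul xi gi
  generalize x * g = κ at e kd kD ki
  generalize b * r = J at Jd Ji JJ e
  have id : x * x * d = d * (x * x) := cm_mul T.xd T.xd
  have rd := T.rd
  generalize x * x = i at x4 Ji ki id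
  have k2 : Commute (κ * κ) J := cm_iff.1 (by
    calc κ * κ * J * (κ * κ)⁻¹ = κ * (κ * J * κ⁻¹) * κ⁻¹ := by group
      _ = κ * D * κ⁻¹ * (κ * J * κ⁻¹) := by nth_rw 1 [e]; group
      _ = J := by rw [cm_iff.2 kD, e, rD.sq'])
  obtain ⟨m, n, ⟨m, rfl⟩, hm⟩ := exists_odd_pow κ
  have e' : κ ^ (2 * m + 1) * J * (κ ^ (2 * m + 1))⁻¹ = D * J := by
    rw [← e, pow_succ', pow_mul, pow_two, mul_assoc κ, (k2.pow_left m).eq]; group
  have k2' : Commute (κ ^ (2 * m + 1) * κ ^ (2 * m + 1)) J := by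
    rw [← (Commute.refl κ).mul_pow]; exact k2.pow_left _
  have kd' := kd.pow_left (2 * m + 1)
  have ki' := ki.pow_left (2 * m + 1)
  generalize κ ^ (2 * m + 1) = l at hm e' k2' kd' ki'
  have sq : l * J * (l * J) = D * (l * l * z) := by
    rw [← JJ, ← mul_assoc (l * l), k2'.eq, ← mul_assoc D, ← mul_assoc D, ← e']; group
  rcases h.pow2 hm with e | e | ⟨k, e⟩
  · exact h.h2 (l * J) (by rw [sq, e, one_mul, h.cen]; exact h.neg rD)
  · exact h.h2 (l * J) (by rw [sq, e, h.sq, mul_one]; exact rD)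
  · have jJ := k2'.pow_left k
    have jd := (kd'.mul_left kd').pow_left k
    have ji := (ki'.mul_left ki').pow_left k
    generalize (l * l) ^ k = j at e jJ jd ji
    rcases h.root rd x4 e ji.symm.eq id jd.eq with e | e
    · exact h.ac_ne Ji (h.pm_cm e jJ.eq).symm
    · exact h.ac_ne Ji (h.pm_cm e (cm_mul jJ.eq Jd.symm)).symm

end CF.Gd
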