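import Cfsg.Agent.Gd.G

/-!
# Reflections: the case of an element of order eight
-/

set_option autoImplicit false
set_option linter.unusedSectionVars false
set_option linter.style.haveILetI false
set_option linter.unusedSimpArgs false

namespace CF.Gd
open Subgroup CF.Fgs1.Fpf
open scoped commutatorElement

universe u
variable {G : Type u} [Group G]

/-- an element centralizing `d, r` and moving `b` to `± i r` -/
def Sw (z i r d b : G) : Prop := ∃ g, g * d = d * g ∧ g * r = r * g ∧ PM z (g * b * g⁻¹) (i * r)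

theorem PM.mem_zp {z i a : G} (hi : i * i = z) (e : PM z a i) : a ∈ zpowers i := by
  rcases e with rfl | rfl
  · exact mem_zpowers _
  · exact hi ▸ mul_mem (mul_mem (mem_zpowers i) (mem_zpowers i)) (mem_zpowers i)

theorem Loc.pow8 {z x : G} (h : Loc z) (x4 : x * x * (x * x) = z) : x ^ 2 ^ 3 = 1 := by
  rw [← h.sq, ← x4, ← pow_two x, ← pow_two (x ^ 2), ← pow_two, ← pow_mul, ← pow_mul]; rfl

theorem Loc.fin {z x d b c r : G} (h : Loc z) (T : Tri z x d b c) (O : Out z x d b c r)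
    (x4 : x * x * (x * x) = z) (s1 : Sw z (x * x) r d b)
    (s2 : Sw z (x * x) (x * r) d b ∨ Sw z (x * x) (x * r) d c) : False := by
  have k : ∀ {g b r : G}, r * r = 1 → g * r = r * g → PM z (g * b * g⁻¹) (x * x * r) →
      g * (b * r) * g⁻¹ ∈ zpowers (x * x) := fun {g b r} rr gr e => by
    have := e.mul_right r
    rw [mul_assoc _ r r, rr, mul_one] at this
    have e2 : g * (b * r) * g⁻¹ = g * b * g⁻¹ * (g * r * g⁻¹) := by group
    rw [e2, cm_iff.2 gr]
    exact this.mem_zp x4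
  obtain ⟨g, gd, gr, gb⟩ := s1
  have x2 : x * x ≠ 1 := fun e => h.ne (by rw [← x4, e, one_mul])
  have hy : b * r * x * (b * r)⁻¹ = x⁻¹ := by
    calc _ = b * (r * x * r⁻¹) * b⁻¹ := by group
      _ = _ := by rw [O.rx, cm_iff.2 (Commute.inv_right T.xb.symm)]
  have yd : b * r * d = d * (b * r) := h.ac_ac (h.acs T.db) O.rd
  have rr := (O.mul h T).rr
  rcases s2 with ⟨g', gd', gr', gb'⟩ | ⟨g', gd', gr', gb'⟩
  · exact h.qf T.rd (k := 1) (h.pow8 x4) x2 hy odd_one (k O.rr gr gb) (k rr gr' gb') T.xd yd gd gd'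
      (Or.inl (by rw [zpow_one, cl T.xb])) (Or.inl rfl) (Or.inl rfl)
  · have x3 : x ^ (3 : ℤ) = x * (x * x) := by rw [zpow_ofNat, pow_three]
    have e : PM z (c * (x * r)) (x ^ (3 : ℤ) * (b * r) * d) := by
      have e1 : c = b * (d * (d * b * c)) := by rw [mul_assoc d, T.rd.sq', T.rb.sq']
      have e2 := (h.pml (h.pml T.pr d) b).mul_right (x * r)
      rw [← e1] at e2
      refine h.pmt e2 (Or.inr ?_)
      simp only [x3, mul_assoc, show r * d = _ from O.rd, h.lc b, h.lc x, h.zz, cl T.xb, cl T.xd]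
    rcases e with e | e
    · exact h.qf T.rd (k := 3) (h.pow8 x4) x2 hy (by decide) (k O.rr gr gb) (k rr gr' gb') T.xd yd gd gd'
        (Or.inr e) (Or.inl rfl) (Or.inl rfl)
    · exact h.qf T.rd (k := 7) (h.pow8 x4) x2 hy (by decide) (k O.rr gr gb) (k rr gr' gb') T.xd yd gd gd'
        (Or.inr (by
          rw [e, ← x4, show (7 : ℤ) = 1 + 3 + 3 by rfl, zpow_add, zpow_add, x3, zpow_one]
          simp only [mul_assoc])) (Or.inl rfl) (Or.inl rfl)

/-- the action of `x` on the reflections of `S` -/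
structure Act (z : G) (S : Subgroup G) (x : G) : Prop where
  xS : x ∈ S
  x4 : x * x * (x * x) = z
  f1 : ∀ v ∈ S, Ref z v → v * (x * x) = x * x * v → x * v = v * x
  f2 : ∀ a ∈ S, ∀ b ∈ S, ∀ c ∈ S, ∀ d ∈ S, Ref z a → Ref z b → Ref z c → Ref z d → AC z a b → AC z a c → AC z a d →
    AC z b c → AC z b d → AC z c d → a * (x * x) = x * x * a → b * (x * x) = x * x * b →
    c * (x * x) = x * x * c → d * (x * x) = x * x * d → False
  f3 : ∀ v ∈ S, Ref z v → v * (x * x) ≠ x * x * v → ∀ w ∈ S, Ref z w → w * (x * x) ≠ x * x * w → AC z v w →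
    PM z (x * v * x⁻¹) w
  f5 : ∀ g ∈ S, PM z (g * (x * x) * g⁻¹) (x * x)

theorem Loc.tlem [Finite G] {z x d b c r : G} (h : Loc z) (hp : commutator G = ⊤) {S : Subgroup G}
    (p2 : IsPGroup 2 S) (o : ¬ 2 ∣ S.index) (zS : z ∈ S) (A : Act z S x) (T : Tri z x d b c)
    (O : Out z x d b c r) (dS : d ∈ S) (bS : b ∈ S) (cS : c ∈ S) (rS : r ∈ S) :
    (Sw z (x * x) r b d ∧ Sw z (x * x) r c d) ∨ (Sw z (x * x) r d b ∧ Sw z (x * x) r c b) ∨
      (Sw z (x * x) r d c ∧ Sw z (x * x) r b c) := by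
  have ri := O.ri h A.x4
  obtain ⟨g, Ir, hg⟩ := h.xt hp p2 o zS A.f5 rS ri (w := r) (Or.inl O.rr)
  have rr := h.ref_of_ac O.rr O.rd
  have qd : AC z (x * x * r) d := h.cm_ac (cm_mul T.xd T.xd) O.rd
  have qb : AC z (x * x * r) b := h.cm_ac (cm_mul T.xb T.xb) O.rb
  have qc : AC z (x * x * r) c := h.cm_ac (cm_mul T.xc T.xc) O.rc
  have qr : AC z (x * x * r) r := h.ac_cm (h.acs ri) rfl
  have rq : Ref z (x * x * r) := h.ref_of_ac (by
    rw [mul_assoc, ri.l, O.rr, mul_one, h.lc, A.x4, h.sq]) qd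
  have d' := hg d dS (Or.inr (h.acs O.rd))
  have b' := hg b bS (Or.inr (h.acs O.rb))
  have c' := hg c cS (Or.inr (h.acs O.rc))
  have r' := hg r rS PM.rfl
  have q' := hg _ (mul_mem (mul_mem A.xS A.xS) rS) (Or.inr qr)
  let I : G → Prop := fun v => g * v * g⁻¹ * (x * x) = x * x * (g * v * g⁻¹)
  let k := g⁻¹ * x * g
  have F1 : ∀ {v}, g * v * g⁻¹ ∈ S → Ref z v → I v → k * v = v * k := fun {v} vS rv e => by
    simpa [k, mul_assoc] using cm_conj (A.f1 _ vS (h.conj rv g) e) g⁻¹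
  have F3 : ∀ {v w}, g * v * g⁻¹ ∈ S → Ref z v → ¬ I v → g * w * g⁻¹ ∈ S → Ref z w → ¬ I w → AC z v w →
      PM z (k * v * k⁻¹) w := fun {v w} vS rv e wS rw' e' a => by
    simpa [k, mul_assoc] using h.pmc (A.f3 _ vS (h.conj rv g) e _ wS (h.conj rw' g) e' (h.ac_conj a g)) g⁻¹
  have F4 : ∀ {u v w}, g * u * g⁻¹ ∈ S → Ref z u → g * v * g⁻¹ ∈ S → Ref z v → g * w * g⁻¹ ∈ S → Ref z w →
      AC z u v → AC z u w → AC z v w → ¬ I u → ¬ I v → I w := fun {u v w} uS ru vS rv wS rw' a1 a2 a3 e1 e2 => by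
    by_contra e3
    exact h.ac_ne a3 (h.pm_cm (h.pmt (h.pms (F3 uS ru e1 vS rv e2 a1)) (F3 uS ru e1 wS rw' e3 a2)) rfl)
  have F2 : ∀ {u v w}, g * u * g⁻¹ ∈ S → Ref z u → g * v * g⁻¹ ∈ S → Ref z v → g * w * g⁻¹ ∈ S → Ref z w →
      AC z r u → AC z r v → AC z r w → AC z u v → AC z u w → AC z v w → I u → I v → ¬ I w :=
    fun {u v w} uS ru vS rv wS rw' a1 a2 a3 a4 a5 a6 e1 e2 e3 =>
      A.f2 _ r' _ uS _ vS _ wS (h.conj rr g) (h.conj ru g) (h.conj rv g) (h.conj rw' g) (h.ac_conj a1 g)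
        (h.ac_conj a2 g) (h.ac_conj a3 g) (h.ac_conj a4 g) (h.ac_conj a5 g) (h.ac_conj a6 g) Ir e1 e2 e3
  have kr := F1 r' rr Ir
  have aq := h.acs qr
  by_cases Iq : I (x * x * r)
  · exfalso
    have ki : k * (x * x) = x * x * k := by
      have := cm_mul (F1 q' rq Iq).symm kr.symm
      rwa [mul_assoc _ r r, O.rr, mul_one, eq_comm] at this
    by_cases Id : I d
    · exact h.dbl T O A.x4 (F1 d' T.rd Id) kr ki (F3 b' T.rb (F2 q' rq d' T.rd b' T.rb aq O.rd O.rb qd qb T.db Iq Id)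
        c' T.rc (F2 q' rq d' T.rd c' T.rc aq O.rd O.rc qd qc T.dc Iq Id) T.bc)
    by_cases Ib : I b
    · exact h.dbl (T.s1 h) O.s1 A.x4 (F1 b' T.rb Ib) kr ki (F3 d' T.rd Id
        c' T.rc (F2 q' rq b' T.rb c' T.rc aq O.rb O.rc qb qc T.bc Iq Ib) T.dc)
    · exact h.dbl ((T.s2 h).s1 h) O.s2.s1 A.x4 (F1 c' T.rc (F4 d' T.rd b' T.rb c' T.rc T.db T.dc T.bc Id Ib))
        kr ki (F3 d' T.rd Id b' T.rb Ib T.db)
  by_cases Id : I d
  · by_cases Ib : I b
    · have e := F3 c' T.rc (F2 d' T.rd b' T.rb c' T.rc O.rd O.rb O.rc T.db T.dc T.bc Id Ib) q' rq Iq (h.acs qc)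
      exact Or.inr (Or.inr ⟨⟨k, F1 d' T.rd Id, kr, e⟩, k, F1 b' T.rb Ib, kr, e⟩)
    · have e := F3 b' T.rb Ib q' rq Iq (h.acs qb)
      exact Or.inr (Or.inl ⟨⟨k, F1 d' T.rd Id, kr, e⟩, k,
        F1 c' T.rc (F4 q' rq b' T.rb c' T.rc qb qc T.bc Iq Ib), kr, e⟩)
  · have e := F3 d' T.rd Id q' rq Iq (h.acs qd)
    exact Or.inl ⟨⟨k, F1 b' T.rb (F4 q' rq d' T.rd b' T.rb qd qb T.db Iq Id), kr, e⟩, k,
      F1 c' T.rc (F4 q' rq d' T.rd c' T.rc qd qc T.dc Iq Id), kr, e⟩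

theorem Loc.clique [Finite G] {z x d b c r : G} (h : Loc z) (hp : commutator G = ⊤) {S : Subgroup G}
    (p2 : IsPGroup 2 S) (o : ¬ 2 ∣ S.index) (zS : z ∈ S) (A : Act z S x) (T : Tri z x d b c)
    (O : Out z x d b c r) (dS : d ∈ S) (bS : b ∈ S) (cS : c ∈ S) (rS : r ∈ S) : False := by
  have t1 := h.tlem hp p2 o zS A T O dS bS cS rS
  have t2 := h.tlem hp p2 o zS A T (O.mul h T) dS bS cS (mul_mem A.xS rS)
  have f := fun {d b c} (T : Tri z x d b c) (O : Out z x d b c r) => h.fin T O A.x4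
  rcases t1 with ⟨a1, a2⟩ | ⟨a1, a2⟩ | ⟨a1, a2⟩ <;> rcases t2 with ⟨b1, b2⟩ | ⟨b1, b2⟩ | ⟨b1, b2⟩
  · exact f (T.s1 h) O.s1 a1 (Or.inl b1)
  · exact f ((T.s2 h).s1 h) O.s2.s1 a2 (Or.inr b2)
  · exact f (T.s1 h) O.s1 a1 (Or.inr b2)
  · exact f (((T.s1 h).s2 h).s1 h) O.s1.s2.s1 a2 (Or.inr b2)
  · exact f T O a1 (Or.inl b1)
  · exact f T O a1 (Or.inr b1)
  · exact f ((T.s1 h).s2 h) O.s1.s2 a2 (Or.inr b1)
  · exact f (T.s2 h) O.s2 a1 (Or.inr b1)
  · exact f (T.s2 h) O.s2 a1 (Or.inl b1)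

/-- `C_S(t)` is quaternion of order at least `16` times `⟨t⟩` -/
structure Big (z : G) (S : Subgroup G) (t a : G) : Prop where
  rt : Ref z t
  tS : t ∈ S
  nt : ∀ g ∈ S, PM z (g * t * g⁻¹) t
  aS : a ∈ S
  at' : a * t = t * a
  a4 : a * a * (a * a) = z
  comm : ∀ b ∈ S, ∀ c ∈ S, b * t = t * b → c * t = t * c → b * (a * a) = a * a * b → c * (a * a) = a * a * c →
    b * c = c * b
  sq : ∀ w ∈ S, w * t = t * w → w * (a * a) ≠ a * a * w → w * w = z
  ex : ∃ y ∈ S, y * t = t * y ∧ y * (a * a) ≠ a * a * y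

namespace Big
variable {z t a : G} {S : Subgroup G} (h : Loc z) (B : Big z S t a)
include h B

theorem conj {g c : G} (gS : g ∈ S) (ct : c * t = t * c) : g * c * g⁻¹ * t = t * (g * c * g⁻¹) := by
  have := cm_conj (h.pm_cm (B.nt _ (inv_mem gS)) ct.symm) g
  simpa [mul_assoc] using this.symm

theorem it : a * a * t = t * (a * a) := cm_mul B.at' B.at'

theorem ni (g : G) (gS : g ∈ S) : PM z (g * (a * a) * g⁻¹) (a * a) := by
  have cS : g * a * g⁻¹ ∈ S := mul_mem (mul_mem gS B.aS) (inv_mem gS)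
  have ct := B.conj h gS B.at'
  have cc : g * a * g⁻¹ * (g * a * g⁻¹) = g * (a * a) * g⁻¹ := by group
  have c4 : g * (a * a) * g⁻¹ * (g * (a * a) * g⁻¹) = z := by
    calc _ = g * (a * a * (a * a)) * g⁻¹ := by group
      _ = z := by rw [B.a4, cm_iff.2 (h.cen g)]
  rw [← cc] at c4 ⊢
  generalize g * a * g⁻¹ = c at cS ct c4
  by_cases ci : c * (a * a) = a * a * c
  swap
  · rw [B.sq c cS ct ci, h.sq] at c4; exact absurd c4.symm h.ne
  have ca : Commute c a := B.comm c cS a B.aS ct B.at' ci (mul_assoc _ _ _).symm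
  refine (h.root B.rt c4 B.a4 (cm_mul ci ci) (cm_mul ct ct) (B.it h)).resolve_right fun e => h.h2 (a⁻¹ * c) ?_
  have := h.pml e (a * a)⁻¹
  rw [inv_mul_cancel_left] at this
  rw [mul_assoc, cl ca.inv_right.eq, ← mul_assoc, ← mul_inv_rev]
  exact h.pm_ref this B.rt

theorem aci {g : G} (gS : g ∈ S) (e : g * (a * a) ≠ a * a * g) : AC z g (a * a) :=
  (h.cm_or_ac (B.ni h g gS)).resolve_left e

theorem act {g : G} (gS : g ∈ S) (e : g * t ≠ t * g) : AC z g t := (h.cm_or_ac (B.nt g gS)).resolve_left e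

theorem inv {w c : G} (wS : w ∈ S) (wt : w * t = t * w) (wi : w * (a * a) ≠ a * a * w) (cS : c ∈ S)
    (ct : c * t = t * c) (ci : c * (a * a) = a * a * c) : w * c * w⁻¹ = c⁻¹ := by
  have e := B.sq _ (mul_mem cS wS) (cm_mul ct wt) (h.ac_ne (h.cm_ac ci (B.aci h wS wi)))
  calc w * c * w⁻¹ = c⁻¹ * (c * w * (c * w)) * (w * w)⁻¹ := by group
    _ = _ := by rw [e, B.sq w wS wt wi]; group

theorem caseI [Finite G] (hp : commutator G = ⊤) (p2 : IsPGroup 2 S) (o : ¬ 2 ∣ S.index) (zS : z ∈ S)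
    {s j : G} (sS : s ∈ S) (st : AC z s t) (hj : j = a * a ∨ j = a * a * t) (sj : s * j = j * s)
    (hI : ∀ v ∈ S, v * v = 1 → v * j = j * v) : False := by
  have iS := mul_mem B.aS B.aS
  have ji : ∀ {c}, c * t = t * c → (c * j = j * c ↔ c * (a * a) = a * a * c) := fun {c} ct => by
    rcases hj with rfl | rfl
    · rfl
    · refine ⟨fun e => ?_, fun e => (cm_mul e.symm ct.symm).symm⟩
      have := cm_mul e.symm ct.symm
      rwa [mul_assoc _ t t, B.rt.sq, mul_one, eq_comm] at this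
  have nj : ∀ g ∈ S, PM z (g * j * g⁻¹) j := fun g gS => by
    rcases hj with rfl | rfl
    · exact B.ni h g gS
    · have e : g * (a * a * t) * g⁻¹ = g * (a * a) * g⁻¹ * (g * t * g⁻¹) := by group
      rw [e]
      exact h.pmt ((B.ni h g gS).mul_right _) (h.pml (B.nt g gS) _)
  have tj := (ji (c := t) rfl).2 (B.it h).symm
  obtain ⟨y, yS, yt, yi⟩ := B.ex
  have key : ∀ w ∈ S, w * t = t * w → w * (a * a) ≠ a * a * w → ∃ g, g * t = t * g ∧
      ∃ u ∈ zpowers (a * a), g * w * g⁻¹ = u ∨ g * w * g⁻¹ = u * t := fun w wS wt wi => by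
    have ww := B.sq w wS wt wi
    obtain ⟨g, hw, hg⟩ := h.xt hp p2 o zS nj yS ((h.cm_or_ac (nj y yS)).resolve_left (mt (ji yt).1 yi))
      (w := w) (Or.inr (by rw [ww, mul_one]))
    have t' := hg t B.tS (Or.inl wt.symm)
    have w' := hg w wS PM.rfl
    have i' := hg _ iS (Or.inr (h.acs (B.aci h wS wi)))
    have rd := h.conj B.rt g
    have fin : ∀ g : G, g * t * g⁻¹ = t → g * w * g⁻¹ * j = j * (g * w * g⁻¹) → ∃ g, g * t = t * g ∧
        ∃ u ∈ zpowers (a * a), g * w * g⁻¹ = u ∨ g * w * g⁻¹ = u * t := fun g gt e => by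
      have vt := cm_conj wt g
      rw [gt] at vt
      refine ⟨g, cm_iff.1 gt, ?_⟩
      rcases h.root B.rt (a := g * w * g⁻¹) (by rw [← pow_two, conj_pow, pow_two, ww, cm_iff.2 (h.cen g)])
        B.a4 ((ji vt).1 e) vt (B.it h) with e | e | e
      · exact ⟨_, e.mem_zp B.a4, Or.inl rfl⟩
      · exact ⟨_, mem_zpowers _, Or.inr e⟩
      · exact ⟨_, PM.mem_zp B.a4 (Or.inr rfl), Or.inr (by rw [e]; simp only [mul_assoc])⟩
    by_cases dt : g * t * g⁻¹ * t = t * (g * t * g⁻¹)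
    · rcases h.h1' B.rt rd dt with e | e
      · exact fin g e hw
      · refine fin (s * g) ?_ ?_
        · calc _ = s * (g * t * g⁻¹) * s⁻¹ := by group
            _ = t := by rw [e, h.lc, mul_assoc, h.ac_iff.2 st, h.zz]
        · have := cm_conj hw s
          rw [cm_iff.2 sj] at this
          simpa [mul_assoc] using this
    exfalso
    have a1 := B.act h t' dt
    have dj := hI _ t' rd.sq
    have kw := cm_conj wt g
    have ki := cm_conj (B.it h) g
    have a2 := h.ac_conj (B.aci h wS wi) g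
    generalize g * t * g⁻¹ = d at *
    generalize g * w * g⁻¹ = k at *
    generalize g * (a * a) * g⁻¹ = l at *
    have f : ∀ k ∈ S, k * d = d * k → ∃ k', (k' = k ∨ k' = k * d) ∧ k' ∈ S ∧ k' * t = t * k' ∧
        k' * (a * a) = a * a * k' := fun k kS kd => by
      have f' : ∀ k ∈ S, k * d = d * k → k * t = t * k → k * (a * a) = a * a * k := fun k kS kd kt => by
        by_contra n
        have e := hI _ (mul_mem kS (mul_mem B.tS t')) (by
          rw [mul_assoc, ← cl (cm_mul kt.symm kd.symm).symm, h.sq_ac B.rt.sq rd.sq (h.acs a1), ← mul_assoc,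
            B.sq k kS kt n, h.sq])
        have := cm_mul e (cm_mul dj tj)
        rw [mul_assoc k (t * d), mul_assoc t d, rd.sq', B.rt.sq, mul_one] at this
        exact n ((ji kt).1 this)
      by_cases kt : k * t = t * k
      · exact ⟨k, Or.inl rfl, kS, kt, f' k kS kd kt⟩
      · have := h.ac_ac (B.act h kS kt) a1
        exact ⟨k * d, Or.inr rfl, mul_mem kS t', this, f' _ (mul_mem kS t') (cm_mul kd rfl) this⟩
    obtain ⟨k', e1, kS, kt, k2⟩ := f k w' kw
    obtain ⟨l', e2, lS, lt, l2⟩ := f l i' ki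
    refine h.ac_ne (z := z) ?_ (B.comm _ kS _ lS kt lt k2 l2)
    have a3 : AC z k' l := by
      rcases e1 with rfl | rfl
      exacts [a2, h.ac_cm a2 ki.symm]
    have a4 : d * k' = k' * d := by
      rcases e1 with rfl | rfl
      exacts [kw.symm, (cm_mul kw rfl).symm]
    rcases e2 with rfl | rfl
    exacts [a3, h.acs (h.ac_cm (h.acs a3) a4)]
  obtain ⟨g, gt, u, hu, e⟩ := key y yS yt yi
  have ai : a * (a * a) = a * a * a := (mul_assoc _ _ _).symm
  obtain ⟨g', gt', u', hu', e'⟩ := key _ (mul_mem B.aS yS) (cm_mul B.at' yt)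
    (h.ac_ne (h.cm_ac ai (B.aci h yS yi)))
  exact h.qf B.rt (k := 1) (h.pow8 B.a4) (fun e => h.ne (by rw [← B.a4, e, one_mul]))
    (B.inv h yS yt yi B.aS B.at' ai) odd_one hu hu' B.at' yt gt gt' (Or.inl (by rw [zpow_one])) e e'

theorem caseII [Finite G] (hp : commutator G = ⊤) (p2 : IsPGroup 2 S) (o : ¬ 2 ∣ S.index) (zS : z ∈ S)
    {e r : G} (eS : e ∈ S) (rS : r ∈ S) (ee : e * e = 1) (rr : r * r = 1) (et : AC z e t) (rt : AC z r t)
    (ei : e * (a * a) = a * a * e) (ri : AC z r (a * a)) : False := by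
  have ai : a * (a * a) = a * a * a := (mul_assoc _ _ _).symm
  have re := h.ref_of_ac ee et
  obtain ⟨x, xS, xt, xe, xx⟩ : ∃ x ∈ S, x * t = t * x ∧ x * e = e * x ∧ x * x = a * a := by
    have cS : e * a * e⁻¹ ∈ S := mul_mem (mul_mem eS B.aS) (inv_mem eS)
    have ct := B.conj h eS B.at'
    have ci := cm_conj ai e
    rw [cm_iff.2 ei] at ci
    have ca : Commute (e * a * e⁻¹) a := B.comm _ cS _ B.aS ct B.at' ci ai
    have uu : e * a * e⁻¹ * a⁻¹ * (e * a * e⁻¹ * a⁻¹) = 1 := by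
      rw [mul_assoc, ← cl ca.inv_right.eq, ← mul_assoc, ← mul_inv_rev, mul_inv_eq_one]
      calc _ = e * (a * a) * e⁻¹ := by group
        _ = _ := cm_iff.2 ei
    have ue : e * a * e⁻¹ * a⁻¹ * e = e * (e * a * e⁻¹ * a⁻¹) := by
      have := inv_eq_of_mul_eq_one_right uu
      conv_rhs => rw [← this]
      rw [re.inv]; simp only [mul_inv_rev, inv_inv, re.inv, mul_assoc]
    rcases h.h1 B.rt uu (cm_mul ct (Commute.inv_left B.at').eq) with u | u | u
    · exact ⟨a, B.aS, B.at', (cm_iff.1 (mul_inv_eq_one.1 u)).symm, rfl⟩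
    · have : AC z e a := h.ac_iff.1 (mul_inv_eq_iff_eq_mul.1 u)
      exact ⟨a * t, mul_mem B.aS B.tS, cm_mul B.at' rfl, h.ac_ac (h.acs this) (h.acs et), by
        rw [mul_assoc, cl B.at'.symm, B.rt.sq, mul_one]⟩
    · exact absurd (h.pm_cm (h.pms u) ue) (h.ac_ne (h.acs et))
  have xi : x * (a * a) = a * a * x := by rw [← xx, mul_assoc]
  have vt : ∀ v ∈ S, Ref z v → v * (a * a) ≠ a * a * v → AC z v t := fun v vS rv n =>
    B.act h vS fun c => n (h.pm_cm (h.h1' B.rt rv c) (B.it h).symm)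
  have vx : ∀ v ∈ S, Ref z v → v * (a * a) ≠ a * a * v → v * x * v⁻¹ = x⁻¹ := fun v vS rv n => by
    rw [← B.inv h (mul_mem vS eS) (h.ac_ac (vt v vS rv n) et) (h.ac_ne (h.ac_cm (B.aci h vS n) ei)) xS xt xi]
    conv_lhs => rw [← cm_iff.2 xe.symm]
    group
  have three : ∀ u ∈ S, ∀ v ∈ S, ∀ w ∈ S, AC z u v → AC z u w → AC z v w → u * (a * a) = a * a * u →
      v * (a * a) = a * a * v → w * (a * a) = a * a * w → u * t ≠ t * u → v * t ≠ t * v → w * t ≠ t * w → False :=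
    fun u uS v vS w wS a1 a2 a3 i1 i2 i3 t1 t2 t3 =>
      h.ac_ne (h.acs (h.ac_cm (h.acs (h.cm_ac rfl (h.acs a1))) (h.ac_ac a2 a3).symm))
        (B.comm _ (mul_mem uS vS) _ (mul_mem uS wS) (h.ac_ac (B.act h uS t1) (B.act h vS t2))
          (h.ac_ac (B.act h uS t1) (B.act h wS t3)) (cm_mul i1 i2) (cm_mul i1 i3))
  have two : ∀ {u v}, Ref z u → Ref z v → AC z u v → u * t = t * u → v * t ≠ t * v := fun ru rv a1 t1 t2 =>
    h.ac_ne a1 (h.pm_cm (h.h1' B.rt ru t1) t2.symm)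
  have A : Act z S x := by
    refine ⟨xS, xx ▸ B.a4, fun v vS rv vi => ?_, fun b bS c cS d dS f fS rb rc rd rf a1 a2 a3 a4 a5 a6 i1 i2 i3 i4 => ?_,
      fun v vS rv vi w wS rw' wi a1 => ?_, xx ▸ B.ni h⟩
    · rw [xx] at vi
      by_cases c : v * t = t * v
      · exact B.comm _ xS _ vS xt c xi vi
      · have := cm_mul (B.comm _ (mul_mem vS eS) _ xS (h.ac_ac (B.act h vS c) et) xt (cm_mul vi ei) xi) xe.symm
        rwa [mul_assoc v, ee, mul_one, eq_comm] at this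
    · rw [xx] at i1 i2 i3 i4
      by_cases t1 : b * t = t * b
      · exact three _ cS _ dS _ fS a4 a5 a6 i2 i3 i4 (two rb rc a1 t1) (two rb rd a2 t1) (two rb rf a3 t1)
      by_cases t2 : c * t = t * c
      · exact three _ bS _ dS _ fS a2 a3 a6 i1 i3 i4 t1 (two rc rd a4 t2) (two rc rf a5 t2)
      by_cases t3 : d * t = t * d
      · exact three _ bS _ cS _ fS a1 a3 a5 i1 i2 i4 t1 t2 (two rd rf a6 t3)
      · exact three _ bS _ cS _ dS a1 a2 a4 i1 i2 i3 t1 t2 t3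
    · rw [xx] at vi wi
      have e1 : x * v * x⁻¹ = a * a * v := by
        rw [← vx v vS rv vi, ← xx, rv.inv]; simp only [mul_assoc, rv.sq']
      have av := B.aci h vS vi
      rw [e1]
      rcases h.root B.rt (h.sq_ac rv.sq rw'.sq a1) B.a4 (h.ac_ac av (B.aci h wS wi))
        (h.ac_ac (vt v vS rv vi) (vt w wS rw' wi)) (B.it h) with p | p
      · have := h.pml p v
        rw [rv.sq'] at this
        exact h.pms (h.pmt this (Or.inr av))
      · have := h.pml p v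
        rw [rv.sq'] at this
        have c := h.pm_cm this (c := v) (by
          rw [mul_assoc, h.ac_ac (h.acs av) (h.acs (vt v vS rv vi))])
        exact absurd c.symm (h.ac_ne a1)
  have rR := h.ref_of_ac rr rt
  have rE : AC z r e := by
    have := B.sq _ (mul_mem rS eS) (h.ac_ac rt et) (h.ac_ne (h.ac_cm ri ei))
    calc r * e = r * e * (r * e) * (e * r) := by simp only [mul_assoc, re.sq', rr, mul_one]
      _ = _ := by rw [this]
  have a3 : AC z (a * a * t * e) t := h.cm_ac (cm_mul (B.it h) rfl) et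
  refine h.clique hp p2 o zS A (d := t) (b := e) (c := a * a * t * e) (r := r) ⟨B.rt, re, h.ref_of_ac ?_ a3,
    h.acs et, h.acs a3, h.acs (h.ac_cm (h.cm_ac ei.symm (h.acs et)) rfl), xt, xe,
    (cm_mul (cm_mul xi.symm xt.symm) xe.symm).symm, Or.inr ?_⟩ ⟨rr, rt, rE,
      h.acs (h.cm_ac (h.ac_ac (h.acs ri) (h.acs rt)) (h.acs rE)), vx r rS rR (h.ac_ne ri)⟩ B.tS eS
    (mul_mem (mul_mem (mul_mem B.aS B.aS) B.tS) eS) rS
  · rw [mul_assoc _ t e, mul_assoc, ← cl (cm_mul (B.it h).symm ei).symm, h.sq_ac B.rt.sq ee (h.acs et),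
      ← mul_assoc, B.a4, h.sq]
  · rw [xx, mul_assoc _ t e, ← cl (cm_mul (B.it h).symm ei).symm, h.sq_ac B.rt.sq ee (h.acs et), h.cen]

theorem false [Finite G] (hp : commutator G = ⊤) (p2 : IsPGroup 2 S) (o : ¬ 2 ∣ S.index) (zS : z ∈ S)
    {s : G} (sS : s ∈ S) (ss : s * s = 1) (st : AC z s t) : False := by
  have vt : ∀ {v j}, v ∈ S → v * v = 1 → v * j ≠ j * v → t * j = j * t → AC z v t := fun {v j} vS vv n tj =>
    B.act h vS fun c => n (by
      rcases h.h1 B.rt vv c with rfl | rfl | e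
      exacts [by simp, (h.cen j).symm, h.pm_cm e tj])
  by_cases si : s * (a * a) = a * a * s
  · refine B.caseI h hp p2 o zS sS st (Or.inl rfl) si fun v vS vv => by_contra fun n => ?_
    exact B.caseII h hp p2 o zS sS vS ss vv st (vt vS vv n (B.it h).symm) si (B.aci h vS n)
  · have si := B.aci h sS si
    refine B.caseI h hp p2 o zS sS st (Or.inr rfl) (h.ac_ac (h.acs si) (h.acs st)).symm
      fun v vS vv => by_contra fun n => ?_
    have a1 := vt vS vv n (cm_mul (B.it h) rfl).symm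
    refine B.caseII h hp p2 o zS vS sS vv ss a1 st (by_contra fun c => ?_) si
    exact n (h.ac_ac (h.acs (B.aci h vS c)) (h.acs a1)).symm

end Big

end CF.Gd
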