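import Cfsg.Agent.Gd.H
import Cfsg.Agent.Crit.Inv1
import Cfsg.Agent.Char.ZStarCor
import Cfsg.Agent.Solv.CyclicMax

/-!
# A quasisimple group satisfying the local hypothesis has no reflections
-/

set_option autoImplicit false
set_option linter.unusedSectionVars false
set_option linter.style.haveILetI false
set_option linter.unusedSimpArgs false

namespace CF.Gd
open Subgroup CF.Fgs1.Fpf
open scoped commutatorElement IsMulCommutative

universe u
variable {G : Type u} [Group G]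

theorem simple_of_quasi (hN : ∀ N : Subgroup G, N.Normal → N ≤ center G ∨ N = ⊤) (hc : center G ≠ ⊤) :
    IsSimpleGroup (G ⧸ center G) := by
  haveI := QuotientGroup.nontrivial_iff.2 hc
  refine ⟨fun K hK => (hN (K.comap (QuotientGroup.mk' _)) (hK.comap _)).imp (fun e => ?_) fun e => ?_⟩
  · rw [eq_bot_iff]
    intro k hk
    obtain ⟨k, rfl⟩ := QuotientGroup.mk'_surjective _ k
    exact (QuotientGroup.eq_one_iff k).2 (e hk)
  · rw [eq_top_iff]
    intro k _
    obtain ⟨k, rfl⟩ := QuotientGroup.mk'_surjective _ k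
    exact (e ▸ mem_top k : k ∈ K.comap _)

theorem not_comm_of_perf [Nontrivial G] (hp : commutator G = ⊤) : ¬ IsMulCommutative G := fun _ => by
  have : commutator G = ⊥ := by
    rw [eq_bot_iff, commutator_def, commutator_le]
    intro a _ b _
    exact mem_bot.2 (commutatorElement_eq_one_iff_mul_comm.2 (mul_comm' a b))
  exact top_ne_bot (hp ▸ this)

theorem mem_center_of_perf (hp : commutator G = ⊤) {t : G} (h : ∀ g, t * g * t⁻¹ * g⁻¹ ∈ center G) :
    t ∈ center G := by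
  let φ : G →* center G := MonoidHom.mk' (fun g => ⟨_, h g⟩) fun a b => Subtype.ext (by
    change t * (a * b) * t⁻¹ * (a * b)⁻¹ = t * a * t⁻¹ * a⁻¹ * (t * b * t⁻¹ * b⁻¹)
    rw [← cm_iff.2 (mem_center_iff.1 (h b) a)]; group)
  refine mem_center_iff.2 fun g => ?_
  have : φ g = 1 := Abelianization.commutator_subset_ker φ (hp ▸ mem_top g)
  exact (cm_iff.1 (mul_inv_eq_one.1 (congrArg Subtype.val this))).symm

namespace Loc
variable {z : G} (h : Loc z)
include h

theorem rel_mul {a b c : G} (e : PM z (a * c) (c * a)) (e' : PM z (b * c) (c * b)) :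
    PM z (a * b * c) (c * (a * b)) := by
  rcases e with e | e <;> rcases e' with e' | e'
  exacts [Or.inl (cm_mul e e'), Or.inr (h.cm_ac e e'), Or.inr (h.ac_cm e e'), Or.inl (h.ac_ac e e')]

theorem split {S : Subgroup G} {t s : G} (nt : ∀ g ∈ S, PM z (g * t * g⁻¹) t) (sS : s ∈ S) (ss : s * s = 1)
    (st : AC z s t) {g : G} (gS : g ∈ S) : g * t = t * g ∨ ∃ c ∈ S, c * t = t * c ∧ g = c * s :=
  (h.cm_or_ac (nt g gS)).imp id fun e =>
    ⟨g * s, mul_mem gS sS, h.ac_ac e st, by rw [mul_assoc, ss, mul_one]⟩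

theorem tr [Finite G] (hp : commutator G = ⊤) {S : Subgroup G} (o : ¬ 2 ∣ S.index) (zS : z ∈ S) {t s : G}
    (tS : t ∈ S) (sS : s ∈ S) (rt : Ref z t) (ss : s * s = 1) (st : AC z s t)
    (nt : ∀ g ∈ S, PM z (g * t * g⁻¹) t)
    (h0 : ∀ a ∈ S, ∀ b ∈ S, a * t = t * a → b * t = t * b → PM z (a * b) (b * a))
    (hJ : ∀ a ∈ S, ∀ b ∈ S, a * t = t * a → b * t = t * b → s * a * s⁻¹ = a⁻¹ → s * b * s⁻¹ = b⁻¹ →
      a * b = b * a) : False := by
  have si : s⁻¹ = s := inv_eq_of_mul_eq_one_right ss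
  let J : Subgroup G :=
    { carrier := {c | c ∈ S ∧ c * t = t * c ∧ s * c * s⁻¹ = c⁻¹}
      one_mem' := ⟨one_mem _, by simp, by simp⟩
      inv_mem' := fun {a} ⟨a1, a2, a3⟩ => ⟨inv_mem a1, Commute.inv_left a2, by rw [← conj_inv, a3]⟩
      mul_mem' := fun {a b} ⟨a1, a2, a3⟩ ⟨b1, b2, b3⟩ => ⟨mul_mem a1 b1, cm_mul a2 b2, by
        rw [← conj_mul, a3, b3, ← mul_inv_rev, hJ a a1 b b1 a2 b2 a3 b3]⟩ }
  have zJ : z ∈ J := ⟨zS, (h.cen t).symm, by rw [h.inv, cm_iff.2 (h.cen s)]⟩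
  have pJ : ∀ {a b}, PM z a b → b ∈ J → a ∈ J := by
    rintro a b (rfl | rfl) hb
    exacts [hb, mul_mem zJ hb]
  have n0 : ∀ g ∈ S, g * t = t * g → ∀ c ∈ J, g * c * g⁻¹ ∈ J := fun g gS gt c hc =>
    pJ ((h0 g gS c hc.1 gt hc.2.1).mul_right g⁻¹) (by simpa using hc)
  have nJ : ∀ g ∈ S, ∀ c ∈ J, g * c * g⁻¹ ∈ J := fun g gS c hc => by
    rcases h.split nt sS ss st gS with e | ⟨d, dS, dt, rfl⟩
    · exact n0 g gS e c hc
    · have := n0 d dS dt _ (inv_mem hc)
      rw [← hc.2.2] at this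
      simpa [mul_assoc] using this
  have uS := mul_mem tS sS
  have uu : t * s * (t * s) = z := h.sq_ac rt.sq ss (h.acs st)
  let M : Subgroup G :=
    { carrier := {g | g ∈ J ∨ g * (t * s) ∈ J}
      one_mem' := Or.inl (one_mem _)
      inv_mem' := fun {a} ha => ha.imp inv_mem fun ha => by
        have := mul_mem (nJ _ uS _ (inv_mem ha)) zJ
        rw [← uu] at this
        simpa [mul_assoc] using this
      mul_mem' := by
        rintro a b (ha | ha) (hb | hb)
        · exact Or.inl (mul_mem ha hb)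
        · exact Or.inr (mul_assoc a b _ ▸ mul_mem ha hb)
        · exact Or.inr (by simpa [mul_assoc] using mul_mem ha (nJ _ (inv_mem uS) _ hb))
        · have := mul_mem (mul_mem ha (nJ _ (inv_mem uS) _ hb)) (inv_mem zJ)
          rw [← uu] at this
          exact Or.inl (by simpa [mul_assoc] using this) }
  have c0 : ∀ a ∈ S, a * t = t * a → ⁅a, s⁆ ∈ J := fun a aS at' => by
    refine ⟨mul_mem (mul_mem (mul_mem aS sS) (inv_mem aS)) (inv_mem sS), ?_, ?_⟩
    · rw [commutatorElement_def, si, mul_assoc (a * s)]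
      exact h.ac_ac (h.cm_ac at' st) (h.cm_ac (Commute.inv_left at') st)
    · simp only [commutatorElement_def, mul_inv_rev, inv_inv, si, mul_assoc, ss, mul_one]
  have c1 : ∀ a ∈ S, a * t = t * a → ∀ b ∈ S, ⁅a, b⁆ ∈ J := fun a aS at' b bS => by
    have k : ∀ b ∈ S, b * t = t * b → ⁅a, b⁆ ∈ J := fun b bS bt =>
      pJ (((h0 a aS b bS at' bt).mul_right a⁻¹).mul_right b⁻¹) (by simp)
    rcases h.split nt sS ss st bS with e | ⟨d, dS, dt, rfl⟩
    · exact k b bS e
    · have : ⁅a, d * s⁆ = ⁅a, d⁆ * (d * ⁅a, s⁆ * d⁻¹) := by group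
      exact this ▸ mul_mem (k d dS dt) (nJ d dS _ (c0 a aS at'))
  have hc : ⁅S, S⁆ ≤ M := commutator_le.2 fun a aS b bS => Or.inl (by
    rcases h.split nt sS ss st aS with e | ⟨d, dS, dt, rfl⟩
    · exact c1 a aS e b bS
    have : ⁅d * s, b⁆ = d * ⁅s, b⁆ * d⁻¹ * ⁅d, b⁆ := by group
    refine this ▸ mul_mem (nJ d dS _ ?_) (c1 d dS dt b bS)
    rcases h.split nt sS ss st bS with e | ⟨c, cS, ct, rfl⟩
    · exact commutatorElement_inv b s ▸ inv_mem (c0 b bS e)
    · have : ⁅s, c * s⁆ = ⁅c, s⁆⁻¹ := by group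
      exact this ▸ inv_mem (c0 c cS ct))
  have := CF.Loc.extremal_transfer_ab (T := zpowers t) o hc rt.sq (hp ▸ mem_top t) tS
    (isPGroup_zpowers (n := 1) (by simpa [pow_two] using rt.sq)) (mem_zpowers t)
    (zpowers_le.2 (mc rfl)) fun g hg => by
      have rS : g⁻¹ * t * g ∈ S := by simpa using CF.Transfer.cj_le_iff_forall.1 hg t (mem_zpowers t)
      have rr := h.conj' rt g
      generalize g⁻¹ * t * g = r at rS rr
      rcases h.cm_or_ac (nt r rS) with e | e
      · exact Or.inl (pJ (h.pml (h.h1' rt rr e) t⁻¹) (by simp))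
      · refine Or.inr (pJ (b := r * s) (Or.inr ?_) ⟨mul_mem rS sS, h.ac_ac e st, ?_⟩)
        · rw [rt.inv, mul_assoc, e.l, h.lc, rt.sq']
        · simp [rr.inv, si, mul_assoc, ss]
  rcases this with e | e
  · exact h.ac_ne st (cm_iff.1 (e.2.2.trans rt.inv))
  · rw [rt.sq'] at e; exact h.ac_ne st e.2.1

theorem e4 [Finite G] (hp : commutator G = ⊤) (hN : ∀ N : Subgroup G, N.Normal → N ≤ center G ∨ N = ⊤)
    (S : Sylow 2 G) (zS : z ∈ (S : Subgroup G)) {t s : G} (tS : t ∈ (S : Subgroup G)) (sS : s ∈ (S : Subgroup G))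
    (rt : Ref z t) (ss : s * s = 1) (st : AC z s t) (nt : ∀ g ∈ (S : Subgroup G), PM z (g * t * g⁻¹) t)
    (h4 : ∀ c ∈ (S : Subgroup G), c * t = t * c → PM z (c * c) 1) : False := by
  haveI : Fact (Nat.Prime 2) := ⟨Nat.prime_two⟩
  have pi : ∀ c ∈ (S : Subgroup G), c * t = t * c → PM z c c⁻¹ := fun c cS ct => by
    simpa using (h4 c cS ct).mul_right c⁻¹
  have h0 : ∀ a ∈ (S : Subgroup G), ∀ b ∈ (S : Subgroup G), a * t = t * a → b * t = t * b →
      PM z (a * b) (b * a) := fun a aS b bS at' bt => by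
    refine h.pmt (pi _ (mul_mem aS bS) (cm_mul at' bt)) (h.pms ?_)
    rw [mul_inv_rev]
    exact h.pmt ((pi b bS bt).mul_right a) (h.pml (pi a aS at') _)
  refine h.tr hp S.not_dvd_index zS tS sS rt ss st nt h0 fun a aS b bS at' bt sa sb => by_contra fun n => ?_
  have ab : AC z a b := (h0 a aS b bS at' bt).resolve_left n
  have inv : ∀ {c d}, c * c = 1 → c * t = t * c → d * t = t * d → c * d = d * c := fun {c d} cc ct dt => by
    rcases h.h1 rt cc ct with rfl | rfl | e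
    exacts [by simp, (h.cen d).symm, h.pm_cm e dt.symm]
  have aa : a * a = z := by simpa using (h4 a aS at').resolve_left fun e => n (inv e at' bt)
  have bb : b * b = z := by simpa using (h4 b bS bt).resolve_left fun e => n (inv e bt at').symm
  have sa' : AC z a s := h.acs (h.ac_iff.1 (sa.trans (h.inv4 aa)))
  have sb' : AC z b s := h.acs (h.ac_iff.1 (sb.trans (h.inv4 bb)))
  have pr : ∀ {c d}, PM z c d → PM z (d * s) (s * d) → PM z (c * s) (s * c) := by
    rintro c d (rfl | rfl) e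
    exacts [e, h.rel_mul (Or.inl (h.cen s).symm) e]
  have r1 : ∀ c ∈ (S : Subgroup G), c * t = t * c → c * a = a * c → PM z (c * s) (s * c) := fun c cS ct ca => by
    rcases h4 c cS ct with e | e
    · rcases h.h1 rt e ct with rfl | rfl | e
      exacts [Or.inl (by simp), Or.inl (h.cen s).symm, pr e (Or.inr (h.acs st))]
    · rcases h.root rt (by simpa using e) aa ca ct at' with e | e
      exacts [pr e (Or.inr sa'), pr e (Or.inl (h.ac_ac sa' (h.acs st)))]
  have r2 : ∀ c ∈ (S : Subgroup G), c * t = t * c → PM z (c * s) (s * c) := fun c cS ct => by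
    rcases h0 c cS a aS ct at' with e | e
    · exact r1 c cS ct e
    · refine pr (d := c * b * b) (Or.inr ?_) (h.rel_mul (r1 _ (mul_mem cS bS) (cm_mul ct bt)
        (h.ac_ac e (h.acs ab))) (Or.inr sb'))
      rw [mul_assoc, bb, h.cen, h.zz]
  have r3 : ∀ c ∈ (S : Subgroup G), c * t = t * c → ∀ g ∈ (S : Subgroup G), PM z (g * c) (c * g) :=
    fun c cS ct g gS => by
      rcases h.split nt sS ss st gS with e | ⟨d, dS, dt, rfl⟩
      exacts [h0 g gS c cS e ct, h.rel_mul (h0 d dS c cS dt ct) (h.pms (r2 c cS ct))]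
  have r4 : ∀ c ∈ (S : Subgroup G), ∀ g ∈ (S : Subgroup G), PM z (c * g) (g * c) := fun c cS g gS => by
    rcases h.split nt sS ss st cS with e | ⟨d, dS, dt, rfl⟩
    · exact h.pms (r3 c cS e g gS)
    refine h.rel_mul (h.pms (r3 d dS dt g gS)) ?_
    rcases h.split nt sS ss st gS with e | ⟨f, fS, ft, rfl⟩
    · exact h.pms (r2 g gS e)
    · exact h.pms (h.rel_mul (r2 f fS ft) PM.rfl)
  have zc : z ∈ center G := mem_center_iff.2 h.cen
  have tc : t ∉ center G := fun e => h.ac_ne st (mem_center_iff.1 e s)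
  have uc : t * s ∉ center G := fun e => h.ac_ne (h.cm_ac rfl st) (mem_center_iff.1 e t).symm
  haveI := simple_of_quasi hN fun e => tc (e ▸ mem_top t)
  let π := QuotientGroup.mk' (center G)
  have su : Function.Surjective π := QuotientGroup.mk'_surjective _
  have πz : π z = 1 := (QuotientGroup.eq_one_iff z).2 zc
  have uu := h.sq_ac rt.sq ss (h.acs st)
  obtain ⟨g, hg⟩ := isConj_iff.1 (CF.Crit.Inv.one_class (not_comm_of_perf (perf_of_surj hp su))
    (S.mapSurjective su) (by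
      rintro _ ⟨a, aS, rfl⟩ _ ⟨b, bS, rfl⟩
      rw [← map_mul, ← map_mul]
      rcases r4 a aS b bS with e | e
      · rw [e]
      · rw [e, map_mul π z, πz, one_mul]) (a := π t) (b := π (t * s))
    (orderOf_eq_prime (by rw [pow_two, ← map_mul, rt.sq, map_one]) (mt (QuotientGroup.eq_one_iff t).1 tc))
    (orderOf_eq_prime (by rw [pow_two, ← map_mul, uu, πz]) (mt (QuotientGroup.eq_one_iff _).1 uc)))
  obtain ⟨g, rfl⟩ := su g
  have hc : (g * t * g⁻¹)⁻¹ * (t * s) ∈ center G := QuotientGroup.eq.1 hg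
  have rd := h.conj rt g
  obtain ⟨c, e⟩ : ∃ c, c = (g * t * g⁻¹)⁻¹ * (t * s) := ⟨_, rfl⟩
  rw [← e] at hc
  have cc := mem_center_iff.1 hc
  rw [eq_inv_mul_iff_mul_eq] at e
  rw [← e, mul_assoc, ← cl (cc _), rd.sq'] at uu
  rcases h.root rt aa uu (cc a) at' (cc t).symm with e | e
  · exact n (h.pm_cm e (cc b).symm)
  · exact n (h.pm_cm e (cm_mul (cc b).symm bt.symm))

end Loc

theorem InX.comm {x t a b : G} (xt : x * t = t * x) (ha : InX x t a) (hb : InX x t b) : a * b = b * a := by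
  have c : Commute x t := xt
  obtain ⟨k, rfl | rfl⟩ := ha <;> obtain ⟨l, rfl | rfl⟩ := hb
  · exact (Commute.refl x).zpow_zpow k l
  · exact ((Commute.refl x).zpow_zpow k l).mul_right (c.zpow_left k)
  · exact ((Commute.refl x).zpow_zpow k l).mul_left (c.zpow_left l).symm
  · exact (((Commute.refl x).zpow_zpow k l).mul_right (c.zpow_left k)).mul_left
      ((c.zpow_left l).symm.mul_right (Commute.refl t))

theorem Loc.anti [Finite G] {z t s : G} (h : Loc z) (hp : commutator G = ⊤)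
    (hN : ∀ N : Subgroup G, N.Normal → N ≤ center G ∨ N = ⊤)
    (S : Sylow 2 G) (zS : z ∈ (S : Subgroup G)) (tS : t ∈ (S : Subgroup G)) (sS : s ∈ (S : Subgroup G))
    (rt : Ref z t) (ss : s * s = 1) (st : AC z s t) (nt : ∀ g ∈ (S : Subgroup G), PM z (g * t * g⁻¹) t) :
    False := by
  haveI : Fact (Nat.Prime 2) := ⟨Nat.prime_two⟩
  rcases h.struct rt (P := S ⊓ centralizer {t}) S.isPGroup'.to_inf_left
    (fun c hc => mem_centralizer_singleton_iff.1 hc.2) ⟨tS, mc rfl⟩ ⟨zS, mc (h.cen t).symm⟩ with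
    ⟨x, hx, e⟩ | ⟨x, y, m, Q⟩
  · have k : ∀ a ∈ (S : Subgroup G), ∀ b ∈ (S : Subgroup G), a * t = t * a → b * t = t * b → a * b = b * a :=
      fun a aS b bS at' bt => (e a ⟨aS, mc at'⟩).comm (mem_centralizer_singleton_iff.1 hx.2) (e b ⟨bS, mc bt⟩)
    exact h.tr hp S.not_dvd_index zS tS sS rt ss st nt (fun a aS b bS at' bt => Or.inl (k a aS b bS at' bt))
      fun a aS b bS at' bt _ _ => k a aS b bS at' bt
  have xt := mem_centralizer_singleton_iff.1 Q.xm.2
  have yt := mem_centralizer_singleton_iff.1 Q.ym.2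
  have yX : ∀ {c}, InX x t c → y * c * y⁻¹ = c⁻¹ := by
    rintro _ ⟨k, rfl | rfl⟩
    · rw [← conj_zpow, Q.yx, inv_zpow]
    · rw [← conj_mul, ← conj_zpow, Q.yx, inv_zpow, cm_iff.2 yt, (Commute.zpow_left xt k).eq, mul_inv_rev, rt.inv]
  have sq : ∀ {c}, InX x t (y⁻¹ * c) → c * c = z := fun {c} e => by
    calc c * c = y * (y⁻¹ * c) * y⁻¹ * (y * y) * (y⁻¹ * c) := by group
      _ = z := by rw [yX e, Q.yy, h.cen]; group
  rcases m with _ | m
  · refine h.e4 hp hN S zS tS sS rt ss st nt fun c cS ct => ?_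
    have xx : x * x = z := by simpa [pow_two] using Q.xz
    rcases Q.mem c ⟨cS, mc ct⟩ with ⟨k, rfl | rfl⟩ | e
    · exact h.mem_zp.1 ⟨k, by rw [← xx]; exact (Commute.refl x).mul_zpow k⟩
    · refine h.mem_zp.1 ⟨k, ?_⟩
      rw [← xx, mul_assoc, cl (Commute.zpow_left xt k).symm.eq, rt.sq, mul_one]
      exact (Commute.refl x).mul_zpow k
    · exact Or.inr (by rw [sq e, mul_one])
  have pw : ∀ n, x ^ 2 ^ n * x ^ 2 ^ n = x ^ 2 ^ (n + 1) := fun n => by rw [← pow_two, ← pow_mul, ← pow_succ]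
  have a4 : x ^ 2 ^ m * x ^ 2 ^ m * (x ^ 2 ^ m * x ^ 2 ^ m) = z := by rw [pw, pw, Q.xz]
  have iX : InX x t (x ^ 2 ^ m * x ^ 2 ^ m) := ⟨(2 ^ (m + 1) : ℕ), Or.inl (by rw [pw, zpow_natCast])⟩
  have yi := h.ac_iff.1 ((yX iX).trans (h.inv4 a4))
  refine Big.false h (S := S) (t := t) (a := x ^ 2 ^ m) ⟨rt, tS, nt, pow_mem Q.xm.1 _, Commute.pow_left xt _, a4,
    fun b bS c cS bt ct bi ci => ?_, fun w wS wt wi => sq ((Q.mem w ⟨wS, mc wt⟩).resolve_left fun e =>
      wi (e.comm xt iX)), y, Q.ym.1, yt, h.ac_ne yi⟩ hp S.isPGroup' S.not_dvd_index zS sS ss st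
  have k : ∀ c ∈ (S : Subgroup G), c * t = t * c → c * (x ^ 2 ^ m * x ^ 2 ^ m) = x ^ 2 ^ m * x ^ 2 ^ m * c →
      InX x t c := fun c cS ct ci => (Q.mem c ⟨cS, mc ct⟩).resolve_right fun e =>
    h.ac_ne (h.ac_cm yi (e.comm xt iX)) (by simpa using ci)
  exact (k b bS bt bi).comm xt (k c cS ct ci)

/-- the `2`-local theorem -/
theorem Loc.no_ref [Finite G] {z : G} (h : Loc z) (hp : commutator G = ⊤)
    (hN : ∀ N : Subgroup G, N.Normal → N ≤ center G ∨ N = ⊤) (hc : ∀ t, Ref z t → t ∉ center G) (t : G) :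
    ¬ Ref z t := fun rt => by
  haveI : Fact (Nat.Prime 2) := ⟨Nat.prime_two⟩
  haveI := h.normal
  obtain ⟨S, tS⟩ := (isPGroup_zpowers (n := 1) (by simpa [pow_two] using rt.sq)).exists_le_sylow
  have zS : z ∈ (S : Subgroup G) := (isPGroup_zpowers (n := 1)
    (by simpa [pow_two] using h.sq)).le_sylow_of_normal S (mem_zpowers z)
  obtain ⟨t, tS, rt, nt⟩ : ∃ t ∈ (S : Subgroup G), Ref z t ∧ ∀ g ∈ (S : Subgroup G), PM z (g * t * g⁻¹) t := by
    by_contra n
    have ab : ∀ A : Subgroup (S : Subgroup G), A.Normal → IsMulCommutative A → ∀ x ∈ A, ¬ Ref z (x : G) :=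
      fun A hA _ x hx rx => n ⟨x, x.2, rx, fun g gS => h.h1' rx (h.conj rx g)
        (congrArg (fun a : A => (a.1 : G)) (mul_comm' (⟨_, hA.conj_mem x hx ⟨g, gS⟩⟩ : A) ⟨x, hx⟩))⟩
    rcases CF.Solv.normalRankOne_cases S.isPGroup' (fun A hA _ => CF.Solv.isCyclic_of_abelian_of_omega
      (S.isPGroup'.to_subgroup A) fun x hx y hy x2 y2 x1 => by
        have k : ∀ x ∈ A, x ^ 2 = 1 → x ≠ 1 → (x : G) = z := fun x hx x2 x1 => by_contra fun e =>
          ab A hA inferInstance x hx ⟨by rw [← pow_two]; exact congrArg Subtype.val x2,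
            fun e => x1 (Subtype.ext e), e⟩
        by_cases y1 : y = 1
        · exact y1 ▸ one_mem _
        · exact (Subtype.ext ((k x hx x2 x1).trans (k y hy y2 y1).symm) : x = y) ▸ mem_zpowers x) with
      c | ⟨-, n, a, -, -, -, hi, -⟩
    · exact n ⟨t, tS (mem_zpowers t), rt, fun g gS => Or.inl (cm_iff.2 (congrArg Subtype.val
        (mul_comm' (⟨g, gS⟩ : (S : Subgroup G)) ⟨t, tS (mem_zpowers t)⟩)))⟩
    · have hi' : ((zpowers a).map (S : Subgroup G).subtype).relIndex (S : Subgroup G) = 2 := by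
        exact (congrArg index (comap_map_eq_self_of_injective (subtype_injective _) (zpowers a))).trans hi
      have o : ¬ 2 ∣ (S : Subgroup G).index := S.not_dvd_index
      obtain ⟨g, hg, -⟩ := CF.Loc.extremal_transfer (T := ⊥) (x := t) o (map_subtype_le _) hi'
        (by rw [pow_two, rt.sq]) (hp ▸ mem_top t) IsPGroup.of_bot bot_le
      obtain ⟨x, hx, e⟩ := hg
      exact ab _ (normal_of_index_eq_two hi) inferInstance x hx ((show (x : G) = _ from e) ▸ h.conj' rt g)
  let π := QuotientGroup.mk' (zpowers z)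
  have su : Function.Surjective π := QuotientGroup.mk'_surjective _
  obtain ⟨N, hn, o, e⟩ := CF.Char.inZStar_of_weaklyClosed (S.mapSurjective su) (x := π t) ⟨t, tS, rfl⟩ fun g hg => by
    obtain ⟨g, rfl⟩ := su g
    have : g * t * g⁻¹ ∈ ((S : Subgroup G).map π).comap π := by
      rw [mem_comap, map_mul, map_mul, map_inv]; exact hg
    rw [comap_map_eq_self (by rwa [QuotientGroup.ker_mk', zpowers_le])] at this
    have r := h.conj rt g
    rcases h.cm_or_ac (nt _ this) with e | e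
    · rw [← map_mul, ← map_inv, ← map_mul]
      rcases h.h1' rt r e with e | e
      · rw [e]
      · rw [e, map_mul, show π z = 1 from (QuotientGroup.eq_one_iff z).2 (mem_zpowers z), one_mul]
    · exact (h.anti hp hN S zS tS this rt r.sq e nt).elim
  rcases hN (N.comap π) (hn.comap _) with l | l
  · exact hc t rt (mem_center_of_perf hp fun g => l (by simpa using e (π g)))
  · have m : π t ∈ N := (l ▸ mem_top t : t ∈ N.comap π)
    have := odd_even_eq_one (g := π t) (n := 1) o (congrArg Subtype.val (pow_card_eq_one' (x := (⟨_, m⟩ : N))))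
      (by rw [pow_one, pow_two, ← map_mul, rt.sq, map_one])
    rcases h.mem_zp.1 ((QuotientGroup.eq_one_iff t).1 this) with e | e
    exacts [rt.ne1 e, rt.nez (by simpa using e)]

end CF.Gd
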