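import Cfsg.Agent.Gd.I
import Cfsg.Agent.Gd.E
import Cfsg.Agent.Gd.B
import Cfsg.Agent.Invol.BaerSuzuki
import Cfsg.Agent.Invol.Dihedral
import Cfsg.Agent.S0483

/-!
# The quasisimple case
-/

set_option autoImplicit false
set_option linter.unusedSectionVars false
set_option linter.style.haveILetI false
set_option linter.unusedSimpArgs false

namespace CF.Gd
open Subgroup CF.Fgs1.Fpf Module CF.Char
open scoped MatrixGroups IsMulCommutative

universe u
variable {A : Type*} [Ring A] [Algebra ℚ A] [Nontrivial A] {G : Type u} [Group G] [Finite G] {ρ : G →* A}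

theorem eq_zero_of_neg {a : A} (h : -a = a) : a = 0 :=
  nsmul_eq_zero two_ne_zero (by rw [two_smul]; nth_rw 1 [← h]; exact neg_add_cancel a)

theorem exists_inverted {t : G} (ht : t * t = 1) (h : ¬ IsPGroup 2 (normalClosure ({t} : Set G))) :
    ∃ y : G, y ≠ 1 ∧ Odd (orderOf y) ∧ t * y * t⁻¹ = y⁻¹ := by
  haveI : Fact (Nat.Prime 2) := ⟨Nat.prime_two⟩
  by_contra n
  refine h (CF.Invol.baer_suzuki_elem fun g => ?_)
  have hs : g * t * g⁻¹ * (g * t * g⁻¹) = 1 := by rw [← pow_two, conj_pow, pow_two, ht]; group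
  generalize g * t * g⁻¹ = s at hs
  obtain ⟨k, m, hm, e⟩ := Nat.exists_eq_two_pow_mul_odd (orderOf_pos (t * s)).ne'
  have e1 : (t * s) ^ 2 ^ k = 1 := by_contra fun e1 => n ⟨_, e1, hm.of_dvd_nat (orderOf_dvd_of_pow_eq_one (by
    rw [← pow_mul, ← e, pow_orderOf_eq_one])), CF.Invol.conj_pow_of_inverts (CF.Invol.left_inverts_mul ht hs) _⟩
  rintro ⟨d, hd⟩
  rcases (CF.Invol.mem_closure_pair_iff ht hs).1 hd with ⟨j, rfl⟩ | ⟨j, rfl⟩
  · obtain ⟨a, ha⟩ := isPGroup_zpowers e1 ⟨_, j, rfl⟩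
    exact ⟨a, Subtype.ext (by simpa using congrArg Subtype.val ha)⟩
  · exact ⟨1, Subtype.ext (by
      simpa [pow_two] using CF.Invol.mul_mul_self_of_inverts ht
        (CF.Invol.inverts_of_mem_zpowers (CF.Invol.left_inverts_mul ht hs) ⟨j, rfl⟩))⟩

theorem nrm_eq_zero (hρ : Function.Injective ρ) (h : PI A) {t y : G} (ht : t * t = 1) (y1 : y ≠ 1)
    (o : Odd (orderOf y)) (hi : t * y * t⁻¹ = y⁻¹) : nrm ρ y = 0 := by
  classical
  haveI := Fintype.ofFinite (zpowers y)
  have e0 : eU ρ (zpowers y) = 0 := by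
    by_contra e0
    have c : ∀ {g}, g ∈ normalizer (zpowers y : Set G) →
        ρ g * (1 - eU ρ (zpowers y)) = (1 - eU ρ (zpowers y)) * ρ g := fun hg => by
      rw [mul_sub, sub_mul, eU_comm ρ hg, mul_one, one_mul]
    have tn : t ∈ normalizer (zpowers y : Set G) :=
      CF.Transfer.mem_normalizer_of_cj_le (CF.Transfer.cj_le_iff_forall.2 fun d hd => by
        rw [CF.Invol.inverts_of_mem_zpowers hi hd]; exact inv_mem hd)
    have cy := c (le_normalizer (mem_zpowers y))
    have k := mul_eU ρ (mem_zpowers y)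
    have s := h.sq (f := 1 - eU ρ (zpowers y)) (u := ρ t) (by
      rw [mul_sub, sub_mul, sub_mul, eU_idem]; simp) (by simpa using e0) (c tn) (by rw [← map_mul, ht, map_one, one_mul])
    refine y1 (eq_one_of_Kf hρ (f := eU ρ (zpowers y)) k ?_)
    generalize 1 - eU ρ (zpowers y) = f at s cy
    have e : ρ y * (ρ t * f) * ρ y = ρ t * f := by
      rw [mul_assoc, mul_assoc, ← cy, ← mul_assoc (ρ t), ← mul_assoc, ← map_mul, ← map_mul]
      congr 2
      rw [mul_inv_eq_iff_eq_mul.1 hi, mul_inv_cancel_left]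
    have m : y * y ∈ Kf ρ f := by
      rw [mem_Kf, map_mul, mul_assoc, cy, ← mul_assoc]
      rcases s with s | s <;> simpa [s] using e
    obtain ⟨k, hk⟩ := o
    have := pow_mem m (k + 1)
    rwa [← pow_two, ← pow_mul, show 2 * (k + 1) = orderOf y + 1 by omega, pow_succ, pow_orderOf_eq_one,
      one_mul] at this
  unfold eU at e0
  rw [sum_zpowers (fun g => ρ g)] at e0
  simp only [map_pow] at e0
  exact (smul_eq_zero.1 e0).resolve_left (inv_ne_zero (by exact_mod_cast Nat.card_pos.ne'))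

theorem sg_of_ring (hρ : Function.Injective ρ) {z : G} (hz : ρ z = -1) : Sg z :=
  ⟨fun g => hρ (by simp [hz]), hρ (by simp [hz]), fun e => by
    rw [e, map_one] at hz; exact one_ne_zero (eq_zero_of_neg hz.symm)⟩

theorem loc_of_ring (hρ : Function.Injective ρ) (h : PI A) {z : G} (hz : ρ z = -1)
    (hO : ∀ t, Ref z t → ¬ IsPGroup 2 (normalClosure ({t} : Set G))) : Loc z := by
  refine ⟨sg_of_ring hρ hz, fun t rt => ?_⟩
  have tt : ρ t * ρ t = 1 := by rw [← map_mul, rt.sq, map_one]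
  have t1 : ρ t ≠ 1 := fun e => rt.ne1 (hρ (by rw [e, map_one]))
  have t2 : ρ t ≠ -1 := fun e => rt.nez (hρ (by rw [e, hz]))
  let σ := ρ.comp (centralizer ({t} : Set G)).subtype
  have hc : ∀ g, σ g * ei (ρ t) = ei (ρ t) * σ g := fun g => ei_comm (by
    change ρ g * ρ t = ρ t * ρ g
    rw [← map_mul, mem_centralizer_singleton_iff.1 g.2, map_mul])
  haveI := Kf_normal hc
  refine ⟨_, _, inferInstance, QuotientGroup.mk' (Kf σ (ei (ρ t))),
    h.fpf σ (ei_idem tt) (ei_ne_zero t2) (ei_ne_one t1) hc, fun c hk => ?_⟩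
  obtain ⟨k, hk⟩ := hk
  rw [QuotientGroup.mk'_apply, QuotientGroup.eq_one_iff]
  refine ⟨fun e => ?_, ?_⟩
  swap
  · rintro (e | e) <;> change ρ c * _ = _ <;> rw [e]
    exacts [by rw [map_one, one_mul], mul_ei tt]
  induction k generalizing c with
  | zero => left; simpa using hk
  | succ k ih =>
    have e' : ρ c * ei (ρ t) = ei (ρ t) := e
    rcases ih (c * c) (by rw [coe_mul, ← pow_two, ← pow_mul, ← pow_succ', hk]) (mul_mem e e) with s | s
    · rcases h.inv2 tt t1 t2 (u := ρ c) (by rw [← map_mul]; exact (congrArg ρ s).trans ρ.map_one) (by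
        rw [← map_mul, mem_centralizer_singleton_iff.1 c.2, map_mul]) with u | u | u | u
      · exact Or.inl (hρ (by rw [u, map_one]))
      · rw [u, neg_one_mul] at e'; exact absurd (eq_zero_of_neg e') (ei_ne_zero t2)
      · exact Or.inr (hρ u)
      · rw [u, neg_mul, mul_ei tt] at e'; exact absurd (eq_zero_of_neg e') (ei_ne_zero t2)
    · obtain ⟨y, y1, o, hy⟩ := exists_inverted rt.sq (hO t rt)
      refine (no_four ρ (k := c) (y := y) s ?_ o (nrm_eq_zero hρ h rt.sq y1 o hy) (mul_inv_eq_iff_eq_mul.1 hy)).elim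
      have : ρ t + 1 = (2 : ℚ) • ei (ρ t) := by rw [ei, smul_smul, add_comm]; norm_num
      rw [this, mul_smul_comm, sub_mul, e', one_mul, sub_self, smul_zero]

theorem exists_neg (hρ : Function.Injective ρ) (h : PI A) (hi : Irr ρ) (hp : commutator G = ⊤)
    (hN : ∀ N : Subgroup G, N.Normal → N ≤ center G ∨ N = ⊤) (he : Even (Nat.card G)) : ∃ z, ρ z = -1 := by
  by_cases k : ∀ E : Subgroup G, ¬ IsKleinFour E
  · obtain ⟨z, hz, N, hn, o, e⟩ := exists_inZStar_of_no_klein he k
    rcases hN N hn with l | rfl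
    · exact ⟨z, hi.neg hρ (CF.Invol.mul_self_of_orderOf hz) (CF.Invol.ne_one_of_orderOf hz)
        (mem_center_iff.1 (mem_center_of_perf hp fun g => l (e g)))⟩
    · rw [card_top] at o; exact absurd he (Nat.not_even_iff_odd.2 o)
  push Not at k
  obtain ⟨E, hE⟩ := k
  classical
  haveI := Fintype.ofFinite E
  obtain ⟨a, b, c, ab, ac, bc⟩ := Fintype.two_lt_card_iff.1
    (show 2 < Fintype.card E by rw [← Nat.card_eq_fintype_card, hE.card_four]; decide)
  have sq : ∀ x : E, ρ x * ρ x = 1 := fun x => by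
    rw [← map_mul, ← coe_mul, IsKleinFour.mul_self, coe_one, map_one]
  have ne : ∀ {x y : E}, x ≠ y → ρ (x * y) ≠ 1 := fun {x y} n e => n (by
    have : x * y = 1 := Subtype.ext (hρ (by simpa using e))
    rw [← mul_one x, ← IsKleinFour.mul_self y, ← mul_assoc, this, one_mul])
  by_contra n
  push Not at n
  rcases h.inv2 (sq (a * b)) (ne ab) (n _) (sq (a * c)) (by
    rw [← map_mul, ← map_mul, ← coe_mul, ← coe_mul, IsKleinFour.isMulCommutative.is_comm.comm]) with e | e | e | e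
  · exact ne ac e
  · exact n _ e
  · exact bc (mul_left_cancel (Subtype.ext (hρ e))).symm
  · exact n ((a * c * (a * b) : E) : G) (by rw [coe_mul, map_mul, e, neg_mul, sq])

theorem no73 [FiniteDimensional ℚ A] (hρ : Function.Injective ρ) (h : PI A) (hi : Irr ρ) {u x : G} (u1 : u ≠ 1)
    (x3 : x ^ 3 = 1) (e : x * u * x⁻¹ = u * u) : False := by
  haveI : Fact (Nat.Prime 3) := ⟨Nat.prime_three⟩
  have o : orderOf x = 3 := orderOf_eq_prime x3 (by rintro rfl; exact u1 (by simpa using e))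
  have k : ∀ j : ℤ, x * u ^ j * x⁻¹ = u ^ j * u ^ j := fun j => by
    rw [← conj_zpow, e, (Commute.refl u).mul_zpow]
  refine frob hρ h hi (U := zpowers u) (x := x) (by simpa using u1)
    (CF.Transfer.mem_normalizer_of_cj_le (CF.Transfer.cj_le_iff_forall.2 ?_)) (o ▸ Nat.prime_three)
    (by rw [o]; decide) ?_
  · rintro _ ⟨j, rfl⟩
    exact k j ▸ mul_mem ⟨j, rfl⟩ ⟨j, rfl⟩
  · rintro _ ⟨j, rfl⟩ c
    have := k j
    rw [cm_iff.2 c.symm] at this
    simpa using this

theorem a7_elts : ∃ u x : alternatingGroup (Fin 7), u ≠ 1 ∧ u ^ 7 = 1 ∧ x ^ 3 = 1 ∧ x * u * x⁻¹ = u * u :=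
  ⟨⟨List.formPerm [0, 1, 2, 3, 4, 5, 6], by rw [Equiv.Perm.mem_alternatingGroup]; decide +kernel⟩,
    ⟨List.formPerm [1, 2, 4] * List.formPerm [3, 6, 5], by rw [Equiv.Perm.mem_alternatingGroup]; decide +kernel⟩,
    by decide +kernel, by decide +kernel, by decide +kernel, by decide +kernel⟩

theorem no_a7 [FiniteDimensional ℚ A] (hρ : Function.Injective ρ) (h : PI A) (hi : Irr ρ) {z : G} (L : Loc z)
    {π : G →* alternatingGroup (Fin 7)} (su : Function.Surjective π) (hk : ∀ g, π g = 1 → PM z g 1) : False := by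
  obtain ⟨u, x, u1, u7, x3, e⟩ := a7_elts
  obtain ⟨u, rfl⟩ := su u
  obtain ⟨x, rfl⟩ := su x
  have sq : ∀ g, π g = 1 → g ^ 2 = 1 := fun g e => by
    rcases hk g e with rfl | rfl
    exacts [one_pow _, by rw [mul_one, pow_two, L.sq]]
  have a : (u ^ 8) ^ 7 = 1 := by
    rw [← pow_mul, show 8 * 7 = 7 * 2 * 4 by rfl, pow_mul, pow_mul, sq _ (by rw [map_pow, u7]), one_pow]
  have b : (x ^ 4) ^ 3 = 1 := by
    rw [← pow_mul, show 4 * 3 = 3 * 2 * 2 by rfl, pow_mul, pow_mul, sq (x ^ 3) (by rw [map_pow, x3]), one_pow]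
  have a' : π (u ^ 8) = π u := by rw [map_pow, pow_succ, u7, one_mul]
  have b' : π (x ^ 4) = π x := by rw [map_pow, pow_succ, x3, one_mul]
  rw [← a'] at u1 e
  rw [← b'] at e
  generalize u ^ 8 = v at a u1 e
  generalize x ^ 4 = y at b e
  refine no73 hρ h hi (u := v) (x := y) (fun e => u1 (by rw [e, map_one])) b ?_
  rcases hk (y * v * y⁻¹ * (v * v)⁻¹) (by simp only [map_mul, map_inv, e]; group) with s | s
  · exact mul_inv_eq_one.1 s
  · rw [mul_one, mul_inv_eq_iff_eq_mul] at s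
    have := congrArg (· ^ 7) s
    simp only [conj_pow, a, (show Commute z (v * v) from (L.cen _).symm).mul_pow,
      (Commute.refl v).mul_pow] at this
    rw [show 7 = 2 * 3 + 1 by rfl, pow_succ, pow_mul, pow_two, L.sq] at this
    exact absurd (by simpa using this.symm) L.ne

/-- the conclusion -/
def Good (T : Type*) [Group T] : Prop :=
  ∃ (F : Type) (_ : Field F) (_ : Fintype F), (Fintype.card F = 5 ∨ Fintype.card F = 9) ∧ Nonempty (T ≃* PSL(2, F))

theorem quasi [FiniteDimensional ℚ A] (hρ : Function.Injective ρ) (h : PI A) (hi : Irr ρ)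
    (hs : Submodule.span ℚ (Set.range ρ) = ⊤) (hp : commutator G = ⊤)
    (hN : ∀ N : Subgroup G, N.Normal → N ≤ center G ∨ N = ⊤) [Nontrivial G] (h2 : IsPGroup 2 (center G)) :
    Good (G ⧸ center G) ∧ center G ≠ ⊥ := by
  haveI : Fact (Nat.Prime 2) := ⟨Nat.prime_two⟩
  haveI : Group.IsPerfect G := ⟨hp⟩
  have ns := Group.IsPerfect.not_isSolvable G
  obtain ⟨z, hz⟩ := exists_neg hρ h hi hp hN
    (Nat.not_odd_iff_even.1 fun o => ns (CF.Hyp.isSolvable_of_odd o))
  have hc : ∀ t, Ref z t → t ∉ center G := fun t rt e =>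
    rt.nez (hρ ((hi.neg hρ rt.sq rt.ne1 (mem_center_iff.1 e)).trans hz.symm))
  have L := loc_of_ring hρ h hz fun t rt p => by
    rcases hN (normalClosure {t}) inferInstance with l | l
    · exact hc t rt (l (subset_normalClosure rfl))
    · rw [l] at p
      haveI := (p.of_equiv topEquiv).isNilpotent
      exact ns inferInstance
  have u : ∀ t, t * t = 1 → t ≠ 1 → t = z := fun t a b => by_contra fun c => L.no_ref hp hN hc t ⟨a, b, c⟩
  have zc : z ∈ center G := mem_center_iff.2 L.cen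
  refine ⟨?_, fun e => L.ne (mem_bot.1 (e ▸ zc))⟩
  obtain ⟨S⟩ : Nonempty (Sylow 2 G) := inferInstance
  have ZS := h2.le_sylow_of_normal S
  rcases CF.Solv.isCyclic_or_quaternion S.isPGroup' (fun x y x2 y2 x1 => by
    have k : ∀ x : (S : Subgroup G), x ^ 2 = 1 → x ≠ 1 → (x : G) = z := fun x a b =>
      u x (by rw [← pow_two]; exact congrArg Subtype.val a) fun e => b (Subtype.ext e)
    by_cases y1 : y = 1
    · exact y1 ▸ one_mem _
    · exact (Subtype.ext ((k x x2 x1).trans (k y y2 y1).symm) : x = y) ▸ mem_zpowers x) with c | ⟨-, m, hm, ⟨e⟩⟩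
  · have := CF.Transfer.abelian_hall_inf_commutator_inf_center (H := (S : Subgroup G)) inferInstance
      S.card_coprime_index
    exact absurd (mem_bot.1 (this ▸ ⟨⟨ZS zc, hp ▸ mem_top z⟩, zc⟩)) L.ne
  obtain ⟨a, b, q⟩ := exists_qSetup e
  have pa : ∀ k : ℕ, k ≤ m → a ^ 2 ^ k ≠ 1 := fun k hk => pow_ne_one_of_lt_orderOf (by positivity)
    (q.ha ▸ Nat.pow_lt_pow_right one_lt_two (by omega))
  have az : a ^ 2 ^ m = z := u _ (by rw [← pow_two, ← pow_mul, ← pow_succ, ← q.ha, pow_orderOf_eq_one]) (pa m le_rfl)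
  have hZ : ∀ c ∈ center G, PM z c 1 := fun c hc => by
    have k : c ∈ zpowers a := ((q.mem c).1 (ZS hc)).resolve_right fun e => by
      have c1 : Commute a (b⁻¹ * c) := by obtain ⟨j, hj⟩ := e; exact hj ▸ (Commute.refl a).zpow_right j
      have c2 : Commute a b⁻¹ := by
        simpa using c1.mul_right (show Commute a c from mem_center_iff.1 hc a).inv_right
      have := q.hba
      rw [cm_iff.2 (Commute.inv_right_iff.1 c2).symm.eq] at this
      exact pa 1 hm (by rw [pow_one, pow_two]; nth_rw 1 [this]; simp)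
    have := CF.Invol.inverts_of_mem_zpowers q.hba k
    rw [cm_iff.2 (mem_center_iff.1 hc b)] at this
    by_cases c1 : c = 1
    · exact Or.inl c1
    · exact Or.inr (by rw [u c (by nth_rw 1 [this]; simp) c1, mul_one])
  haveI := simple_of_quasi hN fun e => Group.IsPerfect.not_isMulCommutative G
    ⟨⟨fun x y => mem_center_iff.1 (e ▸ mem_top y) x⟩⟩
  let π := QuotientGroup.mk' (center G)
  have su : Function.Surjective π := QuotientGroup.mk'_surjective _
  have π1 : ∀ {g}, π g = 1 ↔ g ∈ center G := QuotientGroup.eq_one_iff _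
  have ba : π b * π a * (π b)⁻¹ = (π a)⁻¹ := by rw [← map_mul, ← map_inv, ← map_mul, q.hba, map_inv]
  have bb : π b * π b = 1 := by rw [← map_mul, q.hb, az, π1.2 zc]
  have oa : orderOf (π a) = 2 ^ m := by
    obtain ⟨m, rfl⟩ : ∃ k, m = k + 1 := ⟨m - 1, by omega⟩
    refine orderOf_eq_prime_pow (fun e => ?_) (by rw [← map_pow, az, π1.2 zc])
    rw [← map_pow, π1] at e
    refine pa (m + 1) le_rfl ?_
    rw [pow_succ, pow_mul]
    rcases hZ _ e with e | e <;> rw [e]
    exacts [one_pow _, by rw [mul_one, pow_two, L.sq]]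
  have nb : π b ∉ zpowers (π a) := by
    rintro ⟨j, hj⟩
    have : (a ^ j)⁻¹ * b ∈ zpowers a := by
      rcases hZ ((a ^ j)⁻¹ * b) (π1.1 (by rw [map_mul, map_inv, map_zpow, show π a ^ j = _ from hj, inv_mul_cancel]))
        with e | e <;> rw [e]
      exacts [one_mem _, by rw [mul_one, ← az]; exact pow_mem (mem_zpowers a) _]
    exact q.notMem ((mul_mem_cancel_left (inv_mem (zpow_mem (mem_zpowers a) j))).1 this)
  have eS : (S.mapSurjective su : Subgroup (G ⧸ center G)) = closure {π b, π a} := by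
    refine le_antisymm ?_ ((closure_le _).2 ?_)
    · rintro _ ⟨g, hg, rfl⟩
      refine (CF.Invol.mem_closure_inverts_iff ba (bb ▸ one_mem _)).2 (((q.mem g).1 hg).imp ?_ ?_)
      · rintro ⟨j, rfl⟩; exact ⟨j, (map_zpow π a j).symm⟩
      · rintro ⟨j, hj⟩; exact ⟨j, by simpa using congrArg π hj⟩
    · rintro _ (rfl | rfl)
      exacts [⟨b, (q.mem b).2 (Or.inr (by simp)), rfl⟩, ⟨a, (q.mem a).2 (Or.inl (mem_zpowers a)), rfl⟩]
  have o : Cfsg.oddCore (G ⧸ center G) = ⊥ := oddCore_eq_bot_of_simple (even_iff_two_dvd.2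
    ((dvd_pow_self 2 (by omega)).trans (oa ▸ orderOf_dvd_natCard (π a))))
  let ι := (QuotientGroup.quotientBot (G := G ⧸ center G)).symm.trans (QuotientGroup.quotientMulEquivOfEq o.symm)
  rcases Cfsg.Agent.S0483.result (S.mapSurjective su) (2 ^ m) (Nat.pow_le_pow_right two_pos hm)
    (eS ▸ CF.Invol.nonempty_closure_equiv_dihedral oa bb ba nb) with ⟨F, _, _, o, h3, ⟨f⟩⟩ | ⟨⟨f⟩⟩
  · refine ⟨F, inferInstance, inferInstance, ?_, ⟨ι.trans f⟩⟩
    have h2 : (2 : F) ≠ 0 := CF.Classical.two_ne_zero_of_odd_card (by rwa [Nat.card_eq_fintype_card])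
    have kk : ((ι.trans f).toMonoidHom.comp π).ker = center G := by
      ext g; simp [π1]
    obtain ⟨e, -⟩ := CF.GW.sl2_of_cext h2 (ξ := (ι.trans f).toMonoidHom.comp π)
      ⟨(ι.trans f).surjective.comp su, kk.le⟩ (by
        rw [kk, show center G = zpowers z from le_antisymm (fun c hc => L.mem_zp.2 (hZ c hc)) (zpowers_le.2 zc),
          Nat.card_zpowers]
        exact orderOf_eq_prime (by rw [pow_two, L.sq]) L.ne) (CF.GW.no2_of_perfect hp)
    refine sl2_case (ρ := ρ.comp e.toMonoidHom) (hρ.comp e.injective) h (hi.equiv e.surjective) ?_ o h3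
    rw [MonoidHom.coe_comp, Function.Surjective.range_comp (f := e.toMonoidHom) e.surjective, hs]
  · exact (no_a7 hρ h hi L (π := (ι.trans f).toMonoidHom.comp π) ((ι.trans f).surjective.comp su)
      fun g e => hZ g (π1.1 (by simpa using e))).elim

end CF.Gd
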