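import Cfsg.Agent.Gd.J
import Cfsg.Agent.Classical.SL25
import Cfsg.Agent.Small.Basic
import Cfsg.Agent.S0253

/-!
# Reduction to the quasisimple case
-/

set_option autoImplicit false
set_option linter.unusedSectionVars false
set_option linter.style.haveILetI false
set_option linter.unusedSimpArgs false

namespace CF.Gd
open Subgroup CF.Fgs1.Fpf Module CF.Char
open scoped MatrixGroups IsMulCommutative commutatorElement

universe u
variable {A : Type*} [Ring A] [Algebra ℚ A] [Nontrivial A] {G : Type u} [Group G] [Finite G] {ρ : G →* A}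

theorem PI.two_idem (h : PI A) {e f : A} (he : e * e = e) (e0 : e ≠ 0) (e1 : e ≠ 1) (hf : f * f = f)
    (f0 : f ≠ 0) (f1 : f ≠ 1) (c : e * f = f * e) : f = e ∨ f = 1 - e := by
  have k : ∀ {e f : A}, e * e = e → e ≠ 1 → f * f = f → f ≠ 1 → e * f = f * e → e * f ≠ 0 → f = e :=
    fun {e f} he e1 hf f1 c n => by
      have a := (h f hf f1 e (1 - e) (by rw [c, mul_assoc, mul_sub, he, mul_one, sub_self, mul_zero])).resolve_left n
      have b := (h e he e1 f (1 - f) (by rw [← c, mul_assoc, mul_sub, hf, mul_one, sub_self, mul_zero])).resolve_left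
        (c ▸ n)
      rw [mul_sub, mul_one, sub_eq_zero] at a b
      rw [a, ← c, ← b]
  by_cases n : e * f = 0
  swap
  · exact Or.inl (k he e1 hf f1 c n)
  by_cases m : (1 - e) * (1 - f) = 0
  · right
    rw [mul_sub, sub_mul, sub_mul, n, mul_one, mul_one, one_mul, sub_zero, sub_eq_zero] at m
    exact m.symm
  · exact Or.inl (sub_right_injective (k (by rw [mul_sub, sub_mul, sub_mul, he]; simp) (by simpa using e0)
      (by rw [mul_sub, sub_mul, sub_mul, hf]; simp) (by simpa using f0)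
      (by simp only [mul_sub, sub_mul, c, mul_one, one_mul]; abel) m))

theorem Irr.cyclic (hρ : Function.Injective ρ) (h : PI A) (hi : Irr ρ) (n2 : CF.GW.No2 G) (B : Subgroup G)
    [hB : B.Normal] [IsMulCommutative B] : IsCyclic B := by
  classical
  haveI := algebraRat.charZero A
  have F : FPF B := fpf_of_charZero (ρ.comp B.subtype) fun y y1 => by
    haveI := Fintype.ofFinite (zpowers (y : G))
    have e0 : eU ρ (zpowers (y : G)) = 0 := by
      by_contra e0
      have e1 := eU_ne_one ρ hρ (U := zpowers (y : G)) (by simpa using y1)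
      have he := eU_idem ρ (U := zpowers (y : G))
      have cb : ∀ b ∈ B, Commute (ρ b) (eU ρ (zpowers (y : G))) := fun b hb => eU_comm ρ
        (centralizer_le_normalizer _ fun u hu => congrArg Subtype.val
          (mul_comm' (⟨u, zpowers_le.2 y.2 hu⟩ : B) ⟨b, hb⟩))
      have gi : ∀ g, ρ g * ρ g⁻¹ = 1 := fun g => by rw [← map_mul, mul_inv_cancel, map_one]
      have gi' : ∀ g, ρ g⁻¹ * ρ g = 1 := fun g => by rw [← map_mul, inv_mul_cancel, map_one]
      have cc : ∀ g, Commute (eU ρ (zpowers (y : G))) (ρ g * eU ρ (zpowers (y : G)) * ρ g⁻¹) := fun g => by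
        nth_rw 1 [eU]
        refine Commute.smul_left (Commute.sum_left _ _ _ fun u _ => ?_) _
        have := (cb _ (hB.conj_mem _ (zpowers_le.2 y.2 u.2) g⁻¹)).eq
        simp only [inv_inv, map_mul] at this
        calc ρ u * (ρ g * eU ρ (zpowers (y : G)) * ρ g⁻¹)
            = ρ g * (ρ g⁻¹ * ρ u * ρ g * eU ρ (zpowers (y : G))) * ρ g⁻¹ := by
              simp only [← mul_assoc, gi, one_mul]
          _ = _ := by rw [this]; simp only [mul_assoc, gi, mul_one]
      generalize eU ρ (zpowers (y : G)) = e at e0 e1 he cc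
      have cj : ∀ g, ρ g * e * ρ g⁻¹ = e ↔ ρ g * e = e * ρ g := fun g =>
        ⟨fun k => by nth_rw 2 [← k]; rw [mul_assoc, gi', mul_one], fun k => by rw [k, mul_assoc, gi, mul_one]⟩
      have two : ∀ g, ρ g * e * ρ g⁻¹ = e ∨ ρ g * e * ρ g⁻¹ = 1 - e := fun g =>
        h.two_idem he e0 e1 (by
          rw [mul_assoc, mul_assoc, mul_assoc (ρ g), ← mul_assoc (ρ g⁻¹), gi', one_mul, ← mul_assoc e, he])
          (fun k => e0 (by
            have := congrArg (fun x => ρ g⁻¹ * x * ρ g) k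
            simpa [mul_assoc, gi', ← mul_assoc (ρ g⁻¹)] using this))
          (fun k => e1 (by
            have := congrArg (fun x => ρ g⁻¹ * x * ρ g) k
            simpa [mul_assoc, gi', ← mul_assoc (ρ g⁻¹)] using this)) (cc g)
      have ne : 1 - e ≠ e := fun k => e0 (by rw [← he]; nth_rw 1 [← k]; rw [sub_mul, he, one_mul, sub_self])
      let K : Subgroup G :=
        { carrier := {g | ρ g * e = e * ρ g}
          one_mem' := by simp
          mul_mem' := fun {a b} ha hb => by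
            change _ = _
            rw [map_mul]; exact Commute.mul_left ha hb
          inv_mem' := fun {a} ha => by
            change _ = _ at ha ⊢
            rw [← mul_one (ρ a⁻¹ * e), ← gi a, mul_assoc, ← mul_assoc e, ← ha, mul_assoc, ← mul_assoc, gi', one_mul] }
      refine (not_or.2 ⟨e0, e1⟩) (hi e he fun a => by_contra fun ha => n2 K (index_eq_two_iff.2 ⟨a, fun b => ?_⟩))
      have ea := (two a).resolve_left fun k => ha ((cj a).1 k)
      have eb : ρ (b * a) * e * ρ (b * a)⁻¹ = 1 - ρ b * e * ρ b⁻¹ := by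
        rw [← gi b, ← sub_mul, ← mul_one (ρ b), mul_assoc (ρ b) 1, one_mul, ← mul_sub, ← ea, mul_inv_rev,
          map_mul, map_mul]
        simp only [mul_assoc, mul_one]
      rcases two b with k | k
      · exact Or.inr ⟨(cj b).1 k, fun m => ne (by rw [← k, ← eb, k]; exact (cj _).2 m)⟩
      · exact Or.inl ⟨(cj _).1 (by rw [eb, k, sub_sub_cancel]), fun m => ne (k ▸ (cj b).2 m)⟩
    unfold eU at e0
    rw [sum_zpowers (fun g => ρ g)] at e0
    simp only [map_pow, orderOf_coe] at e0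
    exact (smul_eq_zero.1 e0).resolve_left (inv_ne_zero (by exact_mod_cast Nat.card_pos.ne'))
  exact topEquiv.isCyclic.1 (F.isCyclic_of_comm ⊤)

theorem Irr.central (hρ : Function.Injective ρ) (h : PI A) (hi : Irr ρ) (hp : commutator G = ⊤) (B : Subgroup G)
    [B.Normal] [IsMulCommutative B] : B ≤ center G := fun b hb => by
  haveI := hi.cyclic hρ h (CF.GW.no2_of_perfect hp) B
  exact mem_center_iff.2 fun g =>
    ((CF.Solv.commutator_le_centralizer_of_cyclic B (hp ▸ mem_top g)) b hb).symm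

theorem comm_of_odd (hρ : Function.Injective ρ) (h : PI A) {p : ℕ} [Fact p.Prime] (p2 : p ≠ 2)
    (hG : IsPGroup p G) : IsMulCommutative G := by
  by_cases hi : Irr ρ
  · rcases CF.Solv.normalRankOne_cases hG (fun B _ _ => hi.cyclic hρ h (fun K e => by
      obtain ⟨k, hk⟩ := hG.index K
      exact p2 ((Nat.prime_dvd_prime_iff_eq Nat.prime_two Fact.out).1
        (Nat.prime_two.dvd_of_dvd_pow (n := k) (by rw [← hk, e]))).symm) B) with c | c
    · infer_instance
    · exact absurd c.1 p2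
  simp only [Irr, not_forall, not_or] at hi
  obtain ⟨f, hf, hc, f0, f1⟩ := hi
  have k : ∀ {f : A}, f * f = f → f ≠ 0 → f ≠ 1 → (∀ g, ρ g * f = f * ρ g) → ∀ a b, ⁅a, b⁆ ∈ Kf ρ f :=
    fun {f} hf f0 f1 hc a b => by
      haveI := Kf_normal hc
      haveI := topEquiv.isCyclic.1 ((h.fpf ρ hf f0 f1 hc).isCyclic_of_odd p2 (P := ⊤)
        ((hG.to_quotient _).to_subgroup ⊤))
      rw [← QuotientGroup.eq_one_iff, ← QuotientGroup.mk'_apply, map_commutatorElement,
        commutatorElement_eq_one_iff_mul_comm, mul_comm']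
  exact ⟨⟨fun a b => commutatorElement_eq_one_iff_mul_comm.1 (eq_one_of_Kf hρ (k hf f0 f1 hc a b)
    (k (by rw [mul_sub, sub_mul, sub_mul, hf]; simp) (fun e => f1 (sub_eq_zero.1 e).symm) (by simpa using f0)
      (fun g => by rw [mul_sub, sub_mul, hc, mul_one, one_mul]) a b))⟩⟩

theorem ring_h1 (hρ : Function.Injective ρ) (h : PI A) {z t u : G} (hz : ρ z = -1) (ht : Ref z t)
    (hu : u * u = 1) (c : u * t = t * u) : u = 1 ∨ u = z ∨ PM z u t := by
  rcases h.inv2 (t := ρ t) (u := ρ u) (by rw [← map_mul, ht.sq, map_one])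
    (fun e => ht.ne1 (hρ (by rw [e, map_one]))) (fun e => ht.nez (hρ (by rw [e, hz])))
    (by rw [← map_mul, hu, map_one]) (by rw [← map_mul, c, map_mul]) with e | e | e | e
  exacts [Or.inl (hρ (by rw [e, map_one])), Or.inr (Or.inl (hρ (by rw [e, hz]))),
    Or.inr (Or.inr (Or.inl (hρ e))), Or.inr (Or.inr (Or.inr (hρ (by rw [e, map_mul, hz, neg_one_mul]))))]

theorem Sg.ac_inv {z a b : G} (h : Sg z) (e : AC z a b) : AC z a⁻¹ b := by
  have : a⁻¹ * (a * b) * a⁻¹ = a⁻¹ * (z * (b * a)) * a⁻¹ := by rw [e]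
  rw [h.lc] at this
  exact h.acs (by simpa [AC, mul_assoc] using this)

theorem six (hρ : Function.Injective ρ) (h : PI A) {z ζ : G} (hz : ρ z = -1) (hζ : ζ ∈ center G) {t : Fin 6 → G}
    (sq : ∀ i, t i * t i = ζ) (ac : ∀ i j, i ≠ j → AC z (t i) (t j)) : False := by
  have L := sg_of_ring hρ hz
  have s : ∀ i j, i ≠ j → t i * (t j)⁻¹ * (t i * (t j)⁻¹) = z := fun i j n => by
    rw [mul_assoc, (L.ac_inv (ac j i n.symm)).l, ← mul_inv_rev, sq, L.lc, ← mul_assoc (t i), sq, mul_inv_cancel,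
      mul_one]
  have c : ∀ i j k, i ≠ k → j ≠ k → Commute (t i * (t j)⁻¹) (t k) := fun i j k a b =>
    L.ac_ac (ac i k a) (L.ac_inv (ac j k b))
  have a : ∀ i j, i ≠ j → AC z (t i * (t j)⁻¹) (t i) := fun i j n => L.cm_ac rfl (L.ac_inv (ac j i n.symm))
  have cc : ∀ i j k l, i ≠ k → j ≠ k → i ≠ l → j ≠ l → Commute (t i * (t j)⁻¹) (t k * (t l)⁻¹) :=
    fun i j k l a b d e => (c i j k a b).mul_right (c i j l d e).inv_right
  have ss : ∀ {p q : G}, p * p = z → q * q = z → Commute p q → p * q * (p * q) = 1 := fun {p q} a b c => by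
    rw [mul_assoc, ← cl c.eq, b, ← mul_assoc, a, L.sq]
  have pq := cc 0 1 2 3 (by decide) (by decide) (by decide) (by decide)
  have pr := cc 0 1 4 5 (by decide) (by decide) (by decide) (by decide)
  have qr := cc 2 3 4 5 (by decide) (by decide) (by decide) (by decide)
  have a1 := L.ac_cm (a 0 1 (by decide)) (c 2 3 0 (by decide) (by decide))
  have a2 := L.ac_cm (a 0 1 (by decide)) (c 4 5 0 (by decide) (by decide))
  have a3 := L.cm_ac (c 0 1 2 (by decide) (by decide)) (a 2 3 (by decide))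
  have c3 := cm_mul (c 0 1 2 (by decide) (by decide)) (c 4 5 2 (by decide) (by decide))
  rcases ring_h1 hρ h hz (L.ref_of_ac (ss (s 0 1 (by decide)) (s 2 3 (by decide)) pq) a1)
    (ss (s 0 1 (by decide)) (s 4 5 (by decide)) pr)
    (((Commute.refl _).mul_right pq).mul_left (pr.symm.mul_right qr.symm)) with e | e | e
  · rw [e] at a2; exact L.ac_ne a2 (by simp)
  · rw [e] at a2; exact L.ac_ne a2 (L.cen _).symm
  · exact L.ac_ne a3 (L.pm_cm (L.pms e) c3)

theorem small_index (hρ : Function.Injective ρ) (h : PI A) {z w : G} (hz : ρ z = -1) (hp : commutator G = ⊤)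
    (ww : w * w ∈ center G) (wc : w ∉ center G)
    (hw : ∀ g, PM z (g * w * g⁻¹) w ∨ AC z (g * w * g⁻¹) w) : ∃ H : Subgroup G, H ≠ ⊤ ∧ H.index ≤ 5 := by
  have L := sg_of_ring hρ hz
  let H : Subgroup G :=
    { carrier := {g | PM z (g * w * g⁻¹) w}
      one_mem' := Or.inl (by simp)
      mul_mem' := fun {a b} ha hb => L.pmt (by simpa [mul_assoc] using L.pmc hb a) ha
      inv_mem' := fun {a} ha => L.pms (by simpa [mul_assoc] using L.pmc ha a⁻¹) }
  refine ⟨H, fun e => wc (mem_center_of_perf hp fun g => ?_), not_lt.1 fun l => ?_⟩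
  · rcases (show g ∈ H from e ▸ mem_top g) with k | k
    · rw [show w * g * w⁻¹ * g⁻¹ = w * (g * w * g⁻¹)⁻¹ by group, k, mul_inv_cancel]; exact one_mem _
    · rw [show w * g * w⁻¹ * g⁻¹ = w * (g * w * g⁻¹)⁻¹ by group, k, mul_inv_rev, mul_inv_cancel_left]
      exact inv_mem (mem_center_iff.2 L.cen)
  classical
  haveI := Fintype.ofFinite (G ⧸ H)
  obtain ⟨ι⟩ := Function.Embedding.nonempty_of_card_le (α := Fin 6) (β := G ⧸ H)
    (by rw [Fintype.card_fin, ← Nat.card_eq_fintype_card]; exact l)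
  refine six hρ h hz ww (t := fun i => (ι i).out * w * (ι i).out⁻¹) (fun i => ?_) fun i j n => ?_
  · calc _ = (ι i).out * (w * w) * (ι i).out⁻¹ := by group
      _ = _ := cm_iff.2 (mem_center_iff.1 ww _)
  · have := (hw ((ι j).out⁻¹ * (ι i).out)).resolve_left fun k => n (ι.injective (by
      rw [← (ι i).out_eq', ← (ι j).out_eq', eq_comm]; exact QuotientGroup.eq.2 k))
    simpa [mul_assoc] using L.ac_conj this (ι j).out

theorem exists_small (hρ : Function.Injective ρ) (h : PI A) (hi : Irr ρ) (hp : commutator G = ⊤)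
    {N : Subgroup G} [hN : N.Normal] (h2 : IsPGroup 2 N) (nc : ¬ N ≤ center G) :
    ∃ H : Subgroup G, H ≠ ⊤ ∧ H.index ≤ 5 := by
  haveI : Fact (Nat.Prime 2) := ⟨Nat.prime_two⟩
  let π := QuotientGroup.mk' (center G)
  have π1 : ∀ {g}, π g = 1 ↔ g ∈ center G := QuotientGroup.eq_one_iff _
  let W : Subgroup G :=
    { carrier := {n | n ∈ N ∧ π n * π n = 1 ∧ ∀ m ∈ N, Commute (π n) (π m)}
      one_mem' := ⟨one_mem _, by simp, by simp⟩
      mul_mem' := fun {a b} ha hb => ⟨mul_mem ha.1 hb.1, by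
        rw [map_mul, mul_assoc, ← cl (ha.2.2 b hb.1).eq, hb.2.1, mul_one, ha.2.1], fun m hm => by
        rw [map_mul]; exact (ha.2.2 m hm).mul_left (hb.2.2 m hm)⟩
      inv_mem' := fun {a} ha => ⟨inv_mem ha.1, by rw [map_inv, ← mul_inv_rev, ha.2.1, inv_one], fun m hm => by
        rw [map_inv]; exact (ha.2.2 m hm).inv_left⟩ }
  haveI hW : W.Normal := ⟨fun a ha g => ⟨hN.conj_mem a ha.1 g, by
    rw [map_mul, map_mul, map_inv, ← pow_two, conj_pow, pow_two, ha.2.1]; simp, fun m hm => by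
    simpa [mul_assoc, Commute, SemiconjBy] using cm_conj (ha.2.2 _ (hN.conj_mem m hm g⁻¹)).eq (π g)⟩⟩
  obtain ⟨w, wW, wc⟩ : ∃ w ∈ W, w ∉ center G := by
    haveI : Nontrivial (N.map π) := (nontrivial_iff_ne_bot _).2 fun e => nc (by
      rwa [Subgroup.map_eq_bot_iff, QuotientGroup.ker_mk'] at e)
    haveI := (h2.map π).center_nontrivial
    obtain ⟨k, k0, hk⟩ := ((h2.map π).to_subgroup (center _)).nontrivial_iff_card.1 inferInstance
    obtain ⟨⟨⟨_, w, wN, rfl⟩, hc⟩, hw⟩ := exists_prime_orderOf_dvd_card' (G := center (N.map π)) 2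
      (hk ▸ dvd_pow_self 2 k0.ne')
    refine ⟨w, ⟨wN, congrArg (fun a => a.1.1) (CF.Invol.mul_self_of_orderOf hw), fun m hm =>
      (congrArg Subtype.val (mem_center_iff.1 hc ⟨_, m, hm, rfl⟩)).symm⟩, fun e => ?_⟩
    exact CF.Invol.ne_one_of_orderOf hw (Subtype.ext (Subtype.ext (π1.2 e)))
  have sq : ∀ a ∈ W, a * a ∈ center G := fun a ha => π1.1 (by rw [map_mul, ha.2.1])
  have cm : ∀ a ∈ W, ∀ b ∈ W, a * b ≠ b * a → ρ (a * b * a⁻¹ * b⁻¹) = -1 := fun a ha b hb n => by
    have c : a * b * a⁻¹ * b⁻¹ ∈ center G := π1.1 (by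
      simp only [map_mul, map_inv, (ha.2.2 b hb.1).eq]; group)
    refine hi.neg hρ ?_ (fun e => n (cm_iff.1 (mul_inv_eq_one.1 e))) (mem_center_iff.1 c)
    nth_rw 1 [← cm_iff.2 (mem_center_iff.1 c a)]
    calc _ = a * a * b * (a * a)⁻¹ * b⁻¹ := by group
      _ = 1 := by rw [← mem_center_iff.1 (sq a ha) b]; group
  obtain ⟨z, hz⟩ : ∃ z, ρ z = -1 := by
    by_contra n
    haveI : IsMulCommutative W := ⟨⟨fun a b => Subtype.ext (by_contra fun e => n ⟨_, cm a a.2 b b.2 e⟩)⟩⟩
    exact wc (hi.central hρ h hp W wW)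
  have L := sg_of_ring hρ hz
  have ac : ∀ a ∈ W, ∀ b ∈ W, a * b ≠ b * a → AC z a b := fun a ha b hb n => by
    rw [AC, ← hρ ((cm a ha b hb n).trans hz.symm)]; group
  by_cases r : ∃ t ∈ W, Ref z t
  · obtain ⟨t, tW, rt⟩ := r
    refine small_index hρ h hz hp (sq t tW) (fun e => rt.nez (hρ ((hi.neg hρ rt.sq rt.ne1
      (mem_center_iff.1 e)).trans hz.symm))) fun g => or_iff_not_imp_right.2 fun n => ?_
    have r := L.conj rt g
    exact ((ring_h1 hρ h hz rt r.sq (by_contra fun e => n (ac _ (hW.conj_mem t tW g) t tW e))).resolve_left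
      r.ne1).resolve_left r.nez
  refine small_index hρ h hz hp (sq w wW) wc fun g => or_iff_not_imp_right.2 fun n => ?_
  have c : Commute (g * w * g⁻¹) w := by_contra fun e => n (ac _ (hW.conj_mem w wW g) w wW e)
  have e : g * w * g⁻¹ * w⁻¹ * (g * w * g⁻¹ * w⁻¹) = 1 := by
    rw [mul_assoc, ← cl c.inv_right.eq, ← mul_assoc, ← mul_inv_rev, mul_inv_eq_one]
    calc _ = g * (w * w) * g⁻¹ := by group
      _ = _ := cm_iff.2 (mem_center_iff.1 (sq w wW) _)
  by_contra k
  exact r ⟨_, mul_mem (hW.conj_mem w wW g) (inv_mem wW), e, fun e => k (Or.inl (mul_inv_eq_one.1 e)),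
    fun e => k (Or.inr (mul_inv_eq_iff_eq_mul.1 e))⟩

theorem good_of_dvd {T : Type*} [Group T] [Finite T] [IsSimpleGroup T] (hT : ¬ IsMulCommutative T)
    (h : Nat.card T ∣ 60) : Good T := by
  have ns : ¬ Group.IsSolvable T := fun s => hT ⟨⟨IsSimpleGroup.comm_iff_isSolvable.2 s⟩⟩
  have e : Nat.card T = 60 := le_antisymm (Nat.le_of_dvd (by decide) h)
    (not_lt.1 fun l => ns (CF.Classical.isSolvable_of_card_lt_sixty _ l T rfl))
  obtain ⟨f⟩ := CF.Classical.equiv_A5_of_simple e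
  obtain ⟨g⟩ := Cfsg.Agent.S0253.result (F := ZMod 5) (ZMod.card 5)
  exact ⟨ZMod 5, inferInstance, inferInstance, Or.inl (ZMod.card 5), ⟨f.trans g.symm⟩⟩

theorem minimal [FiniteDimensional ℚ A] (hρ : Function.Injective ρ) (h : PI A)
    (hs : Submodule.span ℚ (Set.range ρ) = ⊤) {T : Type*} [Group T] [IsSimpleGroup T]
    (hT : ¬ IsMulCommutative T) {π : G →* T} (su : Function.Surjective π)
    (hm : ∀ K : Subgroup G, K.map π = ⊤ → K = ⊤) : Good T ∧ π.ker ≠ ⊥ := by
  haveI := Finite.of_surjective π su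
  haveI := su.nontrivial
  have hN : ∀ K : Subgroup G, K.Normal → K ≤ π.ker ∨ K = ⊤ := fun K hK =>
    ((hK.map π su).eq_bot_or_eq_top).imp (map_eq_bot_iff K).1 (hm K)
  have pT : commutator T = ⊤ := (Normal.eq_bot_or_eq_top inferInstance).resolve_left fun e => hT
    ⟨⟨fun a b => commutatorElement_eq_one_iff_mul_comm.1 (mem_bot.1 (e ▸ commutator_mem_commutator trivial trivial))⟩⟩
  have hp : commutator G = ⊤ := hm _ (by rw [map_commutator_eq, MonoidHom.range_eq_top.2 su]; exact pT)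
  have zT : center T = ⊥ := (Normal.eq_bot_or_eq_top inferInstance).resolve_right fun e => hT
    ⟨⟨fun a b => mem_center_iff.1 (e ▸ mem_top b) a⟩⟩
  by_cases hi : Irr ρ
  swap
  · simp only [Irr, not_forall, not_or] at hi
    obtain ⟨f, hf, hc, f0, f1⟩ := hi
    have k : ∀ {f : A}, f * f = f → f ≠ 0 → f ≠ 1 → (∀ g, ρ g * f = f * ρ g) → Kf ρ f ≠ ⊤ →
        Good T ∧ π.ker ≠ ⊥ := fun {f} hf f0 f1 hc n => by
      haveI := Kf_normal hc
      haveI := QuotientGroup.nontrivial_iff.2 n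
      have le := (hN _ inferInstance).resolve_right n
      obtain ⟨z, p, D⟩ := (h.fpf ρ hf f0 f1 hc).exists_dc (perf_of_surj hp (QuotientGroup.mk'_surjective _))
      let φ := QuotientGroup.lift (Kf ρ f) π le
      have sφ : Function.Surjective φ := fun t => by
        obtain ⟨g, rfl⟩ := su t; exact ⟨g, rfl⟩
      have zk : φ z = 1 := mem_bot.1 (zT ▸ mem_center_iff.2 fun t => by
        obtain ⟨g, rfl⟩ := sφ t; rw [← map_mul, D.cen, map_mul])
      refine ⟨good_of_dvd hT ?_, fun e => ?_⟩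
      · have c := φ.ker.card_mul_index
        rw [D.card, index_ker, MonoidHom.range_eq_top.2 sφ, card_top] at c
        obtain ⟨m, hm⟩ := (CF.Invol.orderOf_eq_two_iff.2 ⟨D.zz, D.z1⟩) ▸ orderOf_dvd_natCard φ.ker zk
        exact ⟨m, by rw [hm] at c; linarith⟩
      · obtain ⟨g, rfl⟩ := QuotientGroup.mk_surjective z
        exact D.z1 (by rw [show g = 1 from mem_bot.1 (e ▸ zk)]; rfl)
    by_cases n : Kf ρ f = ⊤
    · refine k (f := 1 - f) (by rw [mul_sub, sub_mul, sub_mul, hf]; simp) (fun e => f1 (sub_eq_zero.1 e).symm)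
        (by simpa using f0) (fun g => by rw [mul_sub, sub_mul, hc, mul_one, one_mul]) fun n' => ?_
      obtain ⟨g, g1⟩ := exists_ne (1 : G)
      exact g1 (eq_one_of_Kf hρ (n ▸ mem_top g) (n' ▸ mem_top g))
    · exact k hf f0 f1 hc n
  have h2 : IsPGroup 2 π.ker := by
    refine IsPGroup.of_card (Nat.eq_prime_pow_of_unique_prime_dvd Nat.card_pos.ne' fun {p} pp hd => ?_)
    by_contra p2
    haveI := Fact.mk pp
    obtain ⟨P⟩ : Nonempty (Sylow p π.ker) := inferInstance
    obtain ⟨Q⟩ : Nonempty (Sylow p G) := inferInstance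
    haveI : ((P : Subgroup π.ker).map π.ker.subtype).Normal := normalizer_eq_top_iff.1 (hm _ (by
      have := congrArg (map π) P.normalizer_sup_eq_top
      rwa [Subgroup.map_sup, (Subgroup.map_eq_bot_iff _).2 le_rfl, sup_bot_eq, map_top_of_surjective π su] at this))
    have pP := P.isPGroup'.map π.ker.subtype
    haveI := comm_of_odd (ρ := ρ.comp (Subgroup.subtype _)) (hρ.comp (subtype_injective _)) h p2 pP
    have := CF.Transfer.abelian_hall_inf_commutator_inf_center (H := (Q : Subgroup G))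
      (comm_of_odd (ρ := ρ.comp (Subgroup.subtype _)) (hρ.comp (subtype_injective _)) h p2 Q.isPGroup') Q.card_coprime_index
    refine P.ne_bot_of_dvd_card hd ((map_eq_bot_iff_of_injective _ π.ker.subtype_injective).1 (eq_bot_iff.2 ?_))
    rw [← this, hp]
    exact le_inf (le_inf (pP.le_sylow_of_normal Q) le_top) (hi.central hρ h hp _)
  by_cases c : π.ker ≤ center G
  · have e : π.ker = center G := le_antisymm c fun g hg => mem_bot.1 (zT ▸ mem_center_iff.2 fun t => by
      obtain ⟨a, rfl⟩ := su t; rw [← map_mul, mem_center_iff.1 hg, map_mul])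
    obtain ⟨⟨F, _, _, a, ⟨f⟩⟩, b⟩ := quasi hρ h hi hs hp (e ▸ hN) (e ▸ h2)
    exact ⟨⟨F, inferInstance, inferInstance, a, ⟨((QuotientGroup.quotientKerEquivOfSurjective π su).symm.trans
      (QuotientGroup.quotientMulEquivOfEq e)).trans f⟩⟩, e ▸ b⟩
  obtain ⟨H, a, b⟩ := exists_small hρ h hi hp h2 c
  refine ⟨good_of_dvd hT (Nat.dvd_of_mul_dvd_mul_left two_pos ((CF.Small.two_mul_card_dvd_factorial hT
    fun e => a (hm H e)).trans (Nat.factorial_dvd_factorial (n := 5)
      ((Nat.le_of_dvd (Nat.pos_of_ne_zero H.index_ne_zero_of_finite) (H.index_map_dvd su)).trans b)))),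
    fun e => c (e ▸ bot_le)⟩

theorem main {R : Type*} [Ring R] [Algebra ℚ R] [Nontrivial R] (h : PI R) {σ : G →* R}
    (hσ : Function.Injective σ) {T : Type*} [Group T] [IsSimpleGroup T] (hT : ¬ IsMulCommutative T) {π : G →* T}
    (su : Function.Surjective π) : Good T ∧ π.ker ≠ ⊥ := by
  obtain ⟨H, hH, hm⟩ := (wellFounded_lt (α := Subgroup G)).has_min {H | H.map π = ⊤}
    ⟨⊤, map_top_of_surjective π su⟩
  let l := MonoidAlgebra.lift ℚ R H (σ.comp H.subtype)
  haveI : FiniteDimensional ℚ l.range := Module.Finite.of_surjective l.rangeRestrict.toLinearMap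
    l.rangeRestrict_surjective
  let ρ : H →* l.range := l.rangeRestrict.toRingHom.toMonoidHom.comp (MonoidAlgebra.of ℚ H)
  have e : ∀ g, (ρ g : R) = σ g := fun g => by simp [ρ, l]
  obtain ⟨a, b⟩ := minimal (ρ := ρ) (fun a b k => Subtype.ext (hσ (by rw [← e, ← e, k])))
    (h.of_inj l.range.val.toRingHom Subtype.val_injective) (by
      rw [eq_top_iff]
      rintro x -
      obtain ⟨x, rfl⟩ := l.rangeRestrict_surjective x
      induction x using MonoidAlgebra.induction_on with
      | of g => exact Submodule.subset_span ⟨g, rfl⟩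
      | add a b ha hb => rw [map_add]; exact add_mem ha hb
      | smul r a ha => rw [map_smul]; exact Submodule.smul_mem _ r ha)
    hT (π := π.comp H.subtype) (fun t => by
      obtain ⟨g, hg, rfl⟩ : t ∈ H.map π := (show H.map π = ⊤ from hH) ▸ mem_top t
      exact ⟨⟨g, hg⟩, rfl⟩) fun K hK => by
      rw [← map_map] at hK
      have := (map_subtype_le K).eq_of_not_lt (hm _ hK)
      exact map_injective H.subtype_injective (this.trans (by rw [← MonoidHom.range_eq_map, range_subtype]))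
  refine ⟨a, fun k => b (eq_bot_iff.2 fun g hg => Subtype.ext (mem_bot.1 (k ▸ hg)))⟩

end CF.Gd
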